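import Mathlib.LinearAlgebra.Matrix.SpecialLinearGroup
import Mathlib.LinearAlgebra.Matrix.Adjugate
import Mathlib.LinearAlgebra.Matrix.Trace
import Mathlib.GroupTheory.Subgroup.Center
import Mathlib.Algebra.Group.End
import Mathlib.FieldTheory.Finite.Basic
import Mathlib.Tactic.LinearCombination
import Mathlib.Tactic.FieldSimp

/-!
Conjugates of a nondegenerate plane in an alternating space of characteristic three: when no conjugate is
orthogonal to the plane, the kernel of the projection is invariant.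
-/

set_option autoImplicit false

open Matrix
open scoped MatrixGroups

namespace CfsgLib.FFModules.BlockCentralizer

/-- The determinant of two vectors of the plane. -/
def det2 {F : Type*} [Field F] (u v : Fin 2 → F) : F := u 0 * v 1 - u 1 * v 0

/-- A plane `ι` with projection `π` in an alternating space `(V, β)`. -/
structure Planar (F : Type*) [Field F] (V : Type*) [AddCommGroup V] where
  ι : (Fin 2 → F) →+ V
  π : V →+ (Fin 2 → F)
  β : V →+ V →+ F
  π_ι : ∀ u, π (ι u) = u
  β_ι : ∀ u v, β (ι u) v = det2 u (π v)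
  skew : ∀ v w, β v w = -β w v

namespace Planar

variable {F : Type*} [Field F] [Finite F] {V : Type*} [AddCommGroup V] (D : Planar F V)

/-- `1 + ι (g - 1) π`. -/
def hatFun (g : SL(2, F)) (x : V) : V :=
  x + D.ι ((g : Matrix (Fin 2) (Fin 2) F) *ᵥ D.π x - D.π x)

omit [Finite F] in
theorem π_hatFun (g : SL(2, F)) (x : V) :
    D.π (D.hatFun g x) = (g : Matrix (Fin 2) (Fin 2) F) *ᵥ D.π x := by
  simp [hatFun, D.π_ι]

omit [Finite F] in
theorem hatFun_comp (g h : SL(2, F)) (x : V) : D.hatFun g (D.hatFun h x) = D.hatFun (g * h) x := by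
  unfold hatFun
  simp [D.π_ι, Matrix.mulVec_mulVec, map_sub, add_assoc]

omit [Finite F] in
theorem hatFun_one (x : V) : D.hatFun 1 x = x := by simp [hatFun]

omit [Finite F] in
theorem β_ι_right (x : V) (v : Fin 2 → F) : D.β x (D.ι v) = det2 (D.π x) v := by
  rw [D.skew, D.β_ι]; simp [det2]; ring

omit [Finite F] in
/-- An operator with an adjoint is linear on the plane. -/
theorem matrix_of_adj {O O' : V → V} (hadd : ∀ u v, D.β (O u) v = D.β u (O' v)) :
    ∃ M : Matrix (Fin 2) (Fin 2) F, (∀ u, D.π (O (D.ι u)) = M *ᵥ u) ∧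
      ∀ v, D.π (O' (D.ι v)) = M.adjugate *ᵥ v := by
  set A := fun u => D.π (O (D.ι u)) with hA
  set A' := fun u => D.π (O' (D.ι u)) with hA'
  have key : ∀ u v, det2 (A u) v = det2 u (A' v) := fun u v => by
    rw [hA, hA', ← D.β_ι_right, ← D.β_ι]
    exact hadd _ _
  refine ⟨!![A' ![0, 1] 1, -(A' ![0, 1] 0); -(A' ![1, 0] 1), A' ![1, 0] 0], fun u => ?_, fun v => ?_⟩
  · show A u = _
    have h0 := key u ![0, 1]
    have h1 := key u ![1, 0]
    simp only [det2, cons_val_zero, cons_val_one, mul_one, mul_zero, sub_zero, zero_sub] at h0 h1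
    ext i; fin_cases i <;> simp [Matrix.mulVec, dotProduct, Fin.sum_univ_two]
    · linear_combination h0
    · linear_combination -h1
  · show A' v = _
    have a0 := key ![1, 0] v
    have a1 := key ![0, 1] v
    have b00 := key ![1, 0] ![0, 1]
    have b01 := key ![1, 0] ![1, 0]
    have b10 := key ![0, 1] ![0, 1]
    have b11 := key ![0, 1] ![1, 0]
    simp only [det2, cons_val_zero, cons_val_one, one_mul, mul_one, zero_mul, mul_zero, sub_zero,
      zero_sub] at a0 a1 b00 b01 b10 b11
    rw [Matrix.adjugate_fin_two]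
    ext i; fin_cases i <;> simp [Matrix.mulVec, dotProduct, Fin.sum_univ_two]
    · linear_combination a1 - v 1 * b10 - v 0 * b11
    · linear_combination -a0 + v 1 * b00 + v 0 * b01

variable {C : Type*} [Group C] [DistribMulAction C V]

/-- The projection on the image of the plane under `c`. -/
def proj (c : C) (x : V) : V := c • D.ι (D.π (c⁻¹ • x))

omit [Finite F] in
theorem proj_adj {c : C} (hc : ∃ τ : F →+ F, ∀ u v, D.β (c • u) (c • v) = τ (D.β u v)) (u v : V) :
    D.β (D.proj c u) v = D.β u (D.proj c v) := by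
  obtain ⟨τ, hτ⟩ := hc
  have h1 : D.β (D.proj c u) v = τ (D.β (D.ι (D.π (c⁻¹ • u))) (c⁻¹ • v)) := by
    rw [← hτ, proj, smul_inv_smul]
  have h2 : D.β u (D.proj c v) = τ (D.β (c⁻¹ • u) (D.ι (D.π (c⁻¹ • v)))) := by
    rw [← hτ, proj, smul_inv_smul]
  rw [h1, h2, D.β_ι, D.β_ι_right]

omit [Finite F] in
theorem hatFun_adj (g : SL(2, F)) (u v : V) : D.β (D.hatFun g u) v = D.β u (D.hatFun g⁻¹ v) := by
  unfold hatFun
  rw [map_add, AddMonoidHom.add_apply, map_add, D.β_ι, D.β_ι_right]
  congr 1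
  rw [Matrix.SpecialLinearGroup.coe_inv, Matrix.adjugate_fin_two]
  simp [det2, Matrix.mulVec, dotProduct, Fin.sum_univ_two]
  ring

omit [Finite F] in
theorem ι_injective : Function.Injective D.ι := fun a b h => by rw [← D.π_ι a, h, D.π_ι]

end Planar

open Planar in
/-- The kernel of the projection on the plane is invariant when no conjugate is orthogonal to it. -/
theorem planar_main {F : Type*} [Field F] [Finite F] {V : Type*} [AddCommGroup V] (D : Planar F V)
    {C : Type*} [Group C] [DistribMulAction C V]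
    (h3 : (3 : F) = 0) (R : Set SL(2, F)) (hneg : -1 ∈ R) (hneg_mul : ∀ g ∈ R, -g ∈ R)
    (htr : ∀ k : F, k ≠ 0 → k ≠ 1 →
      ∃ g ∈ R, (g : Matrix (Fin 2) (Fin 2) F).trace = 2 - (k * (1 - k))⁻¹)
    (hspan : ∀ X : Matrix (Fin 2) (Fin 2) F,
      (∀ g ∈ R, (X * (g : Matrix (Fin 2) (Fin 2) F).adjugate).trace = 0) → X = 0)
    (hnorm : ∀ g ∈ R, ∀ c : C, ∃ c' : C, ∀ x, c' • x = D.hatFun g (c • D.hatFun g⁻¹ x))
    (hsim : ∀ c : C, ∃ τ : F →+ F, ∀ u v, D.β (c • u) (c • v) = τ (D.β u v))
    (horth : ∀ c : C, ∃ u, D.π (c • D.ι u) ≠ 0)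
    (hgen : AddSubgroup.closure {x | ∃ c : C, ∃ u, c • D.ι u = x} = ⊤) :
    ∀ c : C, (∀ x, D.π x = 0 → D.π (c • x) = 0) ∧
      ∀ g ∈ R, ∃ θ : SL(2, F), (∀ x, D.π (c • D.hatFun g (c⁻¹ • x)) =
        (θ : Matrix (Fin 2) (Fin 2) F) *ᵥ D.π x) ∧ ∀ m : ℕ, g ^ m = 1 → θ ^ m = 1 := by
  classical
  have hπhat : ∀ (g : SL(2, F)) (u : Fin 2 → F),
      D.hatFun g (D.ι u) = D.ι ((g : Matrix (Fin 2) (Fin 2) F) *ᵥ u) := fun g u => by
    simp [hatFun, D.π_ι, map_sub]
  have hcancel : ∀ (g : SL(2, F)) (u : Fin 2 → F),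
      ((g⁻¹ : SL(2, F)) : Matrix (Fin 2) (Fin 2) F) *ᵥ ((g : Matrix (Fin 2) (Fin 2) F) *ᵥ u) = u := fun g u => by
    rw [Matrix.mulVec_mulVec, ← Matrix.SpecialLinearGroup.coe_mul, inv_mul_cancel,
      Matrix.SpecialLinearGroup.coe_one, Matrix.one_mulVec]
  -- the scalar attached to a pair
  have hk : ∀ c : C, ∃ k : F, ∀ u, D.π (c • D.ι (D.π (c⁻¹ • D.ι u))) = k • u := by
    intro c
    obtain ⟨M, hM, hM'⟩ := D.matrix_of_adj (O := D.proj c) (O' := D.proj c) (D.proj_adj (hsim c))
    have hMM : M = M.adjugate := Matrix.ext_of_mulVec_single fun j => (hM _).symm.trans (hM' _)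
    rw [Matrix.adjugate_fin_two] at hMM
    have e01 := congrFun (congrFun hMM 0) 1
    have e10 := congrFun (congrFun hMM 1) 0
    have e00 := congrFun (congrFun hMM 0) 0
    simp at e01 e10 e00
    have h01 : M 0 1 = 0 := by linear_combination (M 0 1) * h3 - e01
    have h10 : M 1 0 = 0 := by linear_combination (M 1 0) * h3 - e10
    refine ⟨M 0 0, fun u => (hM u).trans ?_⟩
    ext i; fin_cases i <;> simp [Matrix.mulVec, dotProduct, Fin.sum_univ_two, h01, h10, e00]
  -- a pair with scalar zero gives an orthogonal conjugate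
  have hz : ∀ c : C, (∀ u, D.π (c • D.ι (D.π (c⁻¹ • D.ι u))) = 0) → False := by
    intro c h0
    obtain ⟨k', hk'⟩ := hk c⁻¹
    simp only [inv_inv] at hk'
    have hk0 : k' = 0 := by
      have h1 : k' • k' • (![1, 0] : Fin 2 → F) = 0 := by
        rw [← hk', ← hk', h0, map_zero, smul_zero, map_zero]
      have := congrFun h1 0
      simpa using this
    have hzx : ∀ x, D.hatFun (-1) x = x + D.ι (D.π x) := fun x => by
      unfold hatFun
      congr 1
      refine congrArg D.ι (funext fun i => ?_)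
      simp [Matrix.neg_mulVec]
      linear_combination (-(D.π x i)) * h3
    obtain ⟨c', hc'⟩ := hnorm _ hneg c⁻¹
    obtain ⟨u, hu⟩ := horth (c * c' * c)
    refine hu ?_
    rw [mul_smul, mul_smul, hc', show (-1 : SL(2, F))⁻¹ = -1 from
      inv_eq_of_mul_eq_one_right (by rw [neg_mul_neg, one_mul])]
    simp only [hzx, map_add, smul_add, inv_smul_smul, smul_inv_smul, D.π_ι]
    rw [hk', hk0, zero_smul]
    simp only [map_zero, smul_zero, add_zero, D.π_ι]
    funext i
    simp
    linear_combination (D.π (c • D.ι u) i) * h3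
  -- hence all scalars are one
  have hone : ∀ (c : C) (u : Fin 2 → F), D.π (c • D.ι (D.π (c⁻¹ • D.ι u))) = u := by
    intro c u
    obtain ⟨k, hk'⟩ := hk c
    rw [hk']
    by_cases hk1 : k = 1
    · rw [hk1, one_smul]
    exfalso
    have hk0 : k ≠ 0 := fun h => hz c fun v => by rw [hk', h, zero_smul]
    obtain ⟨g, hg, ht⟩ := htr k hk0 hk1
    obtain ⟨c'', hc''⟩ := hnorm g hg c
    have hc''i : ∀ x, c''⁻¹ • x = D.hatFun g (c⁻¹ • D.hatFun g⁻¹ x) := fun x => by
      rw [inv_smul_eq_iff, hc'']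
      simp [hatFun_comp, hatFun_one]
    set A := fun v => D.π (c • D.ι v) with hA
    set B := fun v => D.π (c⁻¹ • D.ι v) with hB
    have hAB : ∀ v, A (B v) = k • v := hk'
    obtain ⟨kd, hkd⟩ := hk (c⁻¹ * c'')
    have hP : ∀ x, D.π (D.proj c x) = A (D.π (c⁻¹ • x)) := fun x => rfl
    have hPP : ∀ x, D.proj c (D.proj c x) = D.proj c x := fun x => by simp [proj, D.π_ι]
    have hPι : ∀ v, D.π (D.proj c (D.ι v)) = k • v := hk'
    have hPadd : ∀ x y, D.proj c (x + y) = D.proj c x + D.proj c y := fun x y => by simp [proj, smul_add]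
    have hbig : ∀ v, D.π (D.proj c (D.hatFun g (D.proj c (D.hatFun g⁻¹ (D.proj c (D.ι v)))))) = 0 := by
      intro v
      have hh : ∀ (h : SL(2, F)) (x : V), D.π (D.proj c (D.hatFun h (D.proj c x))) =
          D.π (D.proj c x) + k • ((h : Matrix (Fin 2) (Fin 2) F) *ᵥ D.π (D.proj c x) - D.π (D.proj c x)) :=
        fun h x => by
          unfold hatFun
          rw [hPadd, hPP, map_add, hPι]
      rw [hh, hh, hPι, Matrix.SpecialLinearGroup.coe_inv]
      rw [Matrix.trace_fin_two] at ht
      have hd := g.det_coe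
      rw [Matrix.det_fin_two] at hd
      have ht' : (k * (1 - k)) * ((g : Matrix (Fin 2) (Fin 2) F) 0 0 + (g : Matrix (Fin 2) (Fin 2) F) 1 1 - 2) = -1 := by
        rw [ht, sub_sub_cancel_left, mul_neg, mul_inv_cancel₀ (mul_ne_zero hk0 (sub_ne_zero.2 (Ne.symm hk1)))]
      rw [Matrix.adjugate_fin_two]
      ext i
      fin_cases i <;> simp [Matrix.mulVec, dotProduct, Fin.sum_univ_two, Matrix.vecHead, Matrix.vecTail]
      · linear_combination (k * v 0) * ht' + (k ^ 3 * v 0) * hd
      · linear_combination (k * v 1) * ht' + (k ^ 3 * v 1) * hd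
    have hAB0 : ∀ v, A (kd • B v) = 0 := by
      intro v
      rw [← hbig v, ← hkd]
      simp only [proj, hA, hB, mul_smul, _root_.mul_inv_rev, inv_inv, hc'', hc''i, π_hatFun, hπhat, hcancel]
    have hBinj : Function.Injective B := fun a b h => by
      have := congrArg A h
      rw [hAB, hAB] at this
      exact smul_right_injective _ hk0 this
    have hAinj : Function.Injective A := fun a b h => by
      obtain ⟨a, rfl⟩ := Finite.surjective_of_injective hBinj a
      obtain ⟨b, rfl⟩ := Finite.surjective_of_injective hBinj b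
      rw [hAB, hAB] at h
      rw [smul_right_injective _ hk0 h]
    refine hz (c⁻¹ * c'') fun v => ?_
    obtain ⟨w, rfl⟩ := Finite.surjective_of_injective hBinj v
    rw [hkd]
    exact hAinj (by rw [hAB0]; simp [hA])
  have hproj : ∀ (d : C) (x : V), D.proj d x = D.proj d (D.ι (D.π (D.proj d x))) := fun d x => by
    have := hone d⁻¹ (D.π (d⁻¹ • x))
    simp only [inv_inv] at this
    unfold proj
    rw [this]
  -- the second scalar
  have htwo : ∀ (c d : C) (u : Fin 2 → F), D.π (D.proj c (D.proj d (D.ι u))) = u := by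
    have hdet : ∀ c d : C, ∃ M : Matrix (Fin 2) (Fin 2) F,
        (∀ u, D.π (D.proj c (D.proj d (D.ι u))) = M *ᵥ u) ∧ M.det = 1 := by
      intro c d
      obtain ⟨M, hM, hM'⟩ := D.matrix_of_adj (O := fun x => D.proj c (D.proj d x))
        (O' := fun x => D.proj d (D.proj c x)) fun u v => by
          rw [D.proj_adj (hsim c), D.proj_adj (hsim d)]
      refine ⟨M, hM, ?_⟩
      have hMM : M.adjugate * M = 1 := Matrix.ext_of_mulVec_single fun j => by
        rw [← Matrix.mulVec_mulVec, ← hM, ← hM', Matrix.one_mulVec]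
        rw [← hproj c]
        have h2 : D.proj d (D.proj c (D.proj d (D.ι (Pi.single j 1)))) =
            D.proj d (D.ι (Pi.single j 1)) := by
          have h3 := hone (d⁻¹ * c) (D.π (d⁻¹ • D.ι (Pi.single j 1)))
          simp only [_root_.mul_inv_rev, inv_inv, mul_smul] at h3
          simp only [proj, inv_smul_smul, D.π_ι]
          rw [h3]
        rw [h2]
        exact hone d _
      rw [Matrix.adjugate_mul] at hMM
      simpa using congrFun (congrFun hMM 0) 0
    intro c d u
    obtain ⟨M, hM, hMdet⟩ := hdet c d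
    have key : ∀ g ∈ R, (M - 1 + (g : Matrix (Fin 2) (Fin 2) F)).det = 1 := by
      intro g hg
      obtain ⟨d', hd'⟩ := hnorm g hg d
      have hd'i : ∀ x, d'⁻¹ • x = D.hatFun g (d⁻¹ • D.hatFun g⁻¹ x) := fun x => by
        rw [inv_smul_eq_iff, hd']
        simp [hatFun_comp, hatFun_one]
      obtain ⟨M', hM', hM'det⟩ := hdet c d'
      have h1 : M' * (g : Matrix (Fin 2) (Fin 2) F) = M - 1 + (g : Matrix (Fin 2) (Fin 2) F) := by
        refine Matrix.ext_of_mulVec_single fun j => ?_
        rw [← Matrix.mulVec_mulVec, ← hM', Matrix.add_mulVec, Matrix.sub_mulVec, Matrix.one_mulVec, ← hM]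
        have hd'p : ∀ x, D.proj d' x = D.hatFun g (D.proj d (D.hatFun g⁻¹ x)) := fun x => by
          simp only [proj, hd', hd'i, π_hatFun, hπhat, hcancel]
        rw [hd'p, hπhat, Matrix.mulVec_mulVec, ← Matrix.SpecialLinearGroup.coe_mul, inv_mul_cancel,
          Matrix.SpecialLinearGroup.coe_one, Matrix.one_mulVec]
        set y := D.proj d (D.ι (Pi.single j 1)) with hy
        have hyπ : D.π y = Pi.single j 1 := hone d _
        unfold hatFun
        simp only [proj, smul_add, map_add, hyπ]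
        rw [hone c]
        abel
      rw [← h1, Matrix.det_mul, hM'det, one_mul, g.det_coe]
    have hX : M - 1 = 0 := by
      refine hspan _ fun g hg => ?_
      have a := key g hg
      have b := key (-g) (hneg_mul g hg)
      have hd := g.det_coe
      rw [Matrix.SpecialLinearGroup.coe_neg] at b
      simp [Matrix.det_fin_two, Matrix.adjugate_fin_two, Matrix.trace_fin_two, Matrix.mul_apply,
        Fin.sum_univ_two] at a b hd ⊢
      linear_combination (-1 : F) * a + b + ((M 0 0 - 1) * g.1 1 1 + (M 1 1 - 1) * g.1 0 0 - M 0 1 * g.1 1 0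
        - M 1 0 * g.1 0 1) * h3
    rw [hM, sub_eq_zero.1 hX, Matrix.one_mulVec]
  have hall : ∀ (c : C) (y : V), D.proj c y = D.proj c (D.ι (D.π y)) := by
    intro c y
    have hy : y ∈ AddSubgroup.closure {x | ∃ c : C, ∃ u, c • D.ι u = x} := hgen ▸ AddSubgroup.mem_top y
    induction hy using AddSubgroup.closure_induction with
    | mem x hx =>
      obtain ⟨d, u, rfl⟩ := hx
      have h1 : D.proj d (d • D.ι u) = d • D.ι u := by simp [proj, D.π_ι]
      have h2 : d • D.ι u = D.proj d (D.ι (D.π (d • D.ι u))) := by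
        conv_lhs => rw [← h1, hproj d, h1]
      rw [hproj c (d • D.ι u)]
      conv_lhs => rw [h2]
      rw [htwo]
    | zero => simp
    | add x y _ _ hx hy =>
      simp only [proj, map_add, smul_add] at hx hy ⊢
      rw [hx, hy]
    | neg x _ hx =>
      simp only [proj, map_neg, smul_neg] at hx ⊢
      rw [hx]
  intro c
  have hker : ∀ (c : C) (x : V), D.π x = 0 → D.π (c • x) = 0 := fun c x hx => by
    have h := hall c⁻¹ x
    rw [hx, map_zero] at h
    simp only [proj, inv_inv, smul_zero, map_zero] at h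
    exact D.ι_injective (by rw [map_zero]; exact (smul_eq_zero_iff_eq _).1 h)
  refine ⟨hker c, fun g hg => ?_⟩
  set O := fun x => c • D.hatFun g (c⁻¹ • x) with hO
  set O' := fun x => c • D.hatFun g⁻¹ (c⁻¹ • x) with hO'
  obtain ⟨τ, hτ⟩ := hsim c
  obtain ⟨M, hM, hM'⟩ := D.matrix_of_adj (O := O) (O' := O') fun u v => by
    have h1 : D.β (O u) v = τ (D.β (D.hatFun g (c⁻¹ • u)) (c⁻¹ • v)) := by rw [← hτ, smul_inv_smul]
    have h2 : D.β u (O' v) = τ (D.β (c⁻¹ • u) (D.hatFun g⁻¹ (c⁻¹ • v))) := by rw [← hτ, smul_inv_smul]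
    rw [h1, h2, hatFun_adj]
  have hfix : ∀ x, D.π (O x) = M *ᵥ D.π x := by
    intro x
    have hs : D.π (x - D.ι (D.π x)) = 0 := by rw [map_sub, D.π_ι, sub_self]
    have hs' := hker c⁻¹ _ hs
    have h1 : O (x - D.ι (D.π x)) = x - D.ι (D.π x) := by
      simp only [hO]
      unfold hatFun
      rw [hs', Matrix.mulVec_zero, sub_zero, map_zero, add_zero, smul_inv_smul]
    have hadd : ∀ a b, O (a + b) = O a + O b := fun a b => by
      simp [hO, hatFun, smul_add, Matrix.mulVec_add, map_sub, smul_sub]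
      abel
    conv_lhs => rw [← sub_add_cancel x (D.ι (D.π x)), hadd, h1, map_add, hs, zero_add, hM]
  have hdet : M.det = 1 := by
    have hMM : M * M.adjugate = 1 := Matrix.ext_of_mulVec_single fun j => by
      rw [← Matrix.mulVec_mulVec, ← hM', ← hfix, Matrix.one_mulVec]
      simp [hO, hO', hatFun_comp, hatFun_one, D.π_ι]
    rw [Matrix.mul_adjugate] at hMM
    simpa using congrFun (congrFun hMM 0) 0
  obtain ⟨θ, rfl⟩ : ∃ θ : SL(2, F), (θ : Matrix (Fin 2) (Fin 2) F) = M := ⟨⟨M, hdet⟩, rfl⟩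
  refine ⟨θ, hfix, fun m hm => ?_⟩
  have hpow : ∀ (n : ℕ) (x : V), D.π (c • D.hatFun (g ^ n) (c⁻¹ • x)) =
      ((θ : Matrix (Fin 2) (Fin 2) F) ^ n) *ᵥ D.π x := by
    intro n
    induction n with
    | zero => intro x; simp [hatFun_one]
    | succ n ih =>
      intro x
      have h1 := ih (c • D.hatFun g (c⁻¹ • x))
      rw [inv_smul_smul, hatFun_comp, ← pow_succ] at h1
      rw [h1, hfix, Matrix.mulVec_mulVec, ← pow_succ]
  refine Subtype.ext (Matrix.ext_of_mulVec_single fun j => ?_)
  have := hpow m (D.ι (Pi.single j 1))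
  rw [hm, hatFun_one, smul_inv_smul, D.π_ι] at this
  rw [Matrix.SpecialLinearGroup.coe_pow, Matrix.SpecialLinearGroup.coe_one, Matrix.one_mulVec]
  exact this.symm

end CfsgLib.FFModules.BlockCentralizer
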