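import Cfsg.Agent.Lib.Replacement.Block.Facts
import Cfsg.Agent.Lib.Quasithin.Local
import Cfsg.Agent.Lib.FFModules.BlockCentralizer.Planar

/-!
Elements of the derived group of `SL₂(F)` in characteristic three, and the quadratic lemma.
-/

set_option autoImplicit false

open Matrix
open scoped MatrixGroups commutatorElement

namespace CfsgLib.FFModules.BlockCentralizer

open CfsgLib.TwoGroupTricks

variable {F : Type*} [Field F]

local notation "R₀" => _root_.commutator SL(2, F)

/-- `!![0, -1; 1, 0]`. -/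
def sI (F : Type*) [Field F] : SL(2, F) := ⟨!![0, -1; 1, 0], by simp [det_fin_two_of]⟩

/-- `!![1, -1; 0, 1]`. -/
def sT (F : Type*) [Field F] : SL(2, F) := ⟨!![1, 1; 0, 1], by simp [det_fin_two_of]⟩

/-- The conjugate of `sI` by a transvection. -/
def sJ (F : Type*) [Field F] : SL(2, F) := sT F * sI F * (sT F)⁻¹

theorem sI_mem (h3 : (3 : F) = 0) : sI F ∈ R₀ := by
  obtain ⟨g, hg, hgc⟩ := NaturalModules.exists_special (F := F)
  convert hg using 1
  refine Subtype.ext ?_
  rw [hgc, h3]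
  rfl

theorem sJ_mem (h3 : (3 : F) = 0) : sJ F ∈ R₀ :=
  Subgroup.Normal.conj_mem inferInstance _ (sI_mem h3) _

theorem sJ_coe (h3 : (3 : F) = 0) : (sJ F : Matrix (Fin 2) (Fin 2) F) = !![1, 1; 1, -1] := by
  rw [sJ]
  simp only [Matrix.SpecialLinearGroup.coe_mul, Matrix.SpecialLinearGroup.coe_inv]
  simp only [sT, sI, Matrix.adjugate_fin_two]
  ext i j; fin_cases i <;> fin_cases j <;> simp [Matrix.mul_apply, Fin.sum_univ_two]
  linear_combination (-1 : F) * h3

theorem commutator_sI_sJ (h3 : (3 : F) = 0) : ⁅sI F, sJ F⁆ = -1 := by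
  refine Subtype.ext ?_
  rw [commutatorElement_def]
  simp only [Matrix.SpecialLinearGroup.coe_mul, Matrix.SpecialLinearGroup.coe_inv,
    Matrix.SpecialLinearGroup.coe_neg, Matrix.SpecialLinearGroup.coe_one, sJ_coe h3]
  simp only [sI, Matrix.adjugate_fin_two]
  ext i j; fin_cases i <;> fin_cases j <;> simp [Matrix.mul_apply, Fin.sum_univ_two] <;>
    first
      | linear_combination h3
      | linear_combination -h3
      | linear_combination (-2 : F) * h3
      | linear_combination (2 : F) * h3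

theorem neg_one_mem (h3 : (3 : F) = 0) : (-1 : SL(2, F)) ∈ R₀ := by
  rw [← commutator_sI_sJ h3, commutatorElement_def]
  exact mul_mem (mul_mem (mul_mem (sI_mem h3) (sJ_mem h3)) (inv_mem (sI_mem h3))) (inv_mem (sJ_mem h3))

theorem neg_mem_R (h3 : (3 : F) = 0) {g : SL(2, F)} (hg : g ∈ R₀) : -g ∈ R₀ := by
  rw [← neg_one_mul]; exact mul_mem (neg_one_mem h3) hg

theorem neg_one_ne_one (h3 : (3 : F) = 0) : (-1 : SL(2, F)) ≠ 1 := by
  intro h
  have h00 := congrFun (congrFun (congrArg Subtype.val h) 0) 0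
  simp at h00
  exact one_ne_zero (α := F) (by linear_combination h3 + h00)

theorem eq_one_or_neg_one_of_sq (h3 : (3 : F) = 0) {g : SL(2, F)} (h : g * g = 1) : g = 1 ∨ g = -1 := by
  have hg : g⁻¹ = g := inv_eq_of_mul_eq_one_right h
  have hm := congrArg Subtype.val hg
  rw [Matrix.SpecialLinearGroup.coe_inv, Matrix.adjugate_fin_two] at hm
  have e01 := congrFun (congrFun hm 0) 1
  have e10 := congrFun (congrFun hm 1) 0
  have e00 := congrFun (congrFun hm 0) 0
  simp at e01 e10 e00
  have h01 : g.1 0 1 = 0 := by linear_combination (g.1 0 1) * h3 + e01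
  have h10 : g.1 1 0 = 0 := by linear_combination (g.1 1 0) * h3 + e10
  have hd := g.det_coe
  rw [Matrix.det_fin_two, h01, h10, e00] at hd
  simp at hd
  rcases mul_self_eq_one_iff.1 hd with h00 | h00
  · refine Or.inl (Subtype.ext ?_)
    ext i j; fin_cases i <;> fin_cases j <;> simp [h01, h10, e00, h00]
  · refine Or.inr (Subtype.ext ?_)
    ext i j; fin_cases i <;> fin_cases j <;> simp [h01, h10, e00, h00]

theorem hspan (h3 : (3 : F) = 0) (X : Matrix (Fin 2) (Fin 2) F)
    (h : ∀ g ∈ R₀, (X * (g : Matrix (Fin 2) (Fin 2) F).adjugate).trace = 0) : X = 0 := by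
  have a := h 1 (one_mem _)
  have b := h _ (sI_mem h3)
  have c := h _ (sJ_mem h3)
  have d := h _ (mul_mem (sI_mem h3) (sJ_mem h3))
  rw [Matrix.SpecialLinearGroup.coe_mul, sJ_coe h3] at d
  rw [sJ_coe h3] at c
  simp [sI, Matrix.adjugate_fin_two, Matrix.trace_fin_two, Matrix.mul_apply, Fin.sum_univ_two] at a b c d
  have h01 : X 0 1 = 0 := by linear_combination b - c - d - (X 1 0) * h3
  have h10 : X 1 0 = 0 := by linear_combination -b - c - d - (X 0 1) * h3
  have h00 : X 0 0 = 0 := by linear_combination c - a + h01 + h10 + (X 0 0) * h3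
  have h11 : X 1 1 = 0 := by linear_combination a - h00
  ext i j; fin_cases i <;> fin_cases j <;> simp [h00, h01, h10, h11]

section finite

variable [Fintype F]

theorem R_eq_top (h : 4 ≤ Fintype.card F) : R₀ = ⊤ := by
  obtain ⟨a, ha⟩ := CfsgLib.ClassicalLinear.exists_sq_ne_one_of_four_le_card (F := F)
    (by rwa [Nat.card_eq_fintype_card])
  haveI := (CfsgLib.Signalizer.isQuasisimple_sl (κ := Fin 2) (F := F) (Or.inr ⟨a, ha⟩)).1
  exact Group.IsPerfect.commutator_eq_top

theorem htr (h3 : (3 : F) = 0) (hcard : Fintype.card F = 3 ∨ 4 ≤ Fintype.card F) (k : F) (hk : k ≠ 0)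
    (hk1 : k ≠ 1) : ∃ g ∈ R₀, (g : Matrix (Fin 2) (Fin 2) F).trace = 2 - (k * (1 - k))⁻¹ := by
  rcases hcard with hc | hc
  · refine ⟨-1, neg_one_mem h3, ?_⟩
    have hk2 : k = -1 := by
      have h := FiniteField.pow_card k
      rw [hc] at h
      have : (k - 1) * (k + 1) = 0 := by
        have h' : k * ((k - 1) * (k + 1)) = 0 := by linear_combination h
        exact (mul_eq_zero.1 h').resolve_left hk
      exact eq_neg_of_add_eq_zero_left ((mul_eq_zero.1 this).resolve_left (sub_ne_zero.2 hk1))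
    have h1 : k * (1 - k) = 1 := by rw [hk2]; linear_combination (-1 : F) * h3
    rw [h1, inv_one]
    simp [Matrix.trace_fin_two]
    linear_combination (-1 : F) * h3
  · refine ⟨⟨!![2 - (k * (1 - k))⁻¹, -1; 1, 0], by simp [det_fin_two_of]⟩,
      by rw [R_eq_top hc]; exact Subgroup.mem_top _, ?_⟩
    simp [Matrix.trace_fin_two]

open Replacement.Block in
theorem mem_R_of_pow (hc : Fintype.card F = 3) (g : SL(2, F)) : g ∈ R₀ ↔ g ^ 4 = 1 := by
  classical
  set e := slEquiv (ZMod.ringEquivOfPrime F Nat.prime_three hc)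
  obtain ⟨q, rfl⟩ := e.surjective g
  rw [mem_commutator_equiv, mem_commutator_iff_pow sl_three_mul sl_three_comm sl_three_exists,
    ← map_pow, map_eq_one_iff e e.injective]

theorem mem_R_of_hom (hcard : Fintype.card F = 3 ∨ 4 ≤ Fintype.card F) {g θ : SL(2, F)} (hg : g ∈ R₀)
    (h : ∀ m : ℕ, g ^ m = 1 → θ ^ m = 1) : θ ∈ R₀ := by
  rcases hcard with hc | hc
  · exact (mem_R_of_pow hc θ).2 (h 4 ((mem_R_of_pow hc g).1 hg))
  · rw [R_eq_top hc]; exact Subgroup.mem_top _

/-- A nontrivial subgroup normalised by the derived group contains `-1`. -/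
theorem neg_one_mem_of_normal (h3 : (3 : F) = 0) (hcard : Fintype.card F = 3 ∨ 4 ≤ Fintype.card F)
    {N : Subgroup SL(2, F)} (hN : N ≤ R₀) (hnorm : ∀ r ∈ R₀, ∀ n ∈ N, r * n * r⁻¹ ∈ N) (hne : N ≠ ⊥) :
    (-1 : SL(2, F)) ∈ N := by
  obtain ⟨g, hg, hg1⟩ : ∃ g ∈ N, g ≠ 1 := by
    by_contra! h; exact hne ((Subgroup.eq_bot_iff_forall N).2 h)
  rcases hcard with hc | hc
  · have h4 : g ^ 2 * g ^ 2 = 1 := by rw [← pow_add]; exact (mem_R_of_pow hc g).1 (hN hg)
    rcases eq_one_or_neg_one_of_sq h3 h4 with h | h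
    · rw [pow_two] at h
      exact (eq_one_or_neg_one_of_sq h3 h).resolve_left hg1 ▸ hg
    · exact h ▸ pow_mem hg 2
  · have hq := CfsgLib.Signalizer.isQuasisimple_sl (κ := Fin 2) (F := F)
      (Or.inr (CfsgLib.ClassicalLinear.exists_sq_ne_one_of_four_le_card (F := F)
        (by rwa [Nat.card_eq_fintype_card])))
    haveI : N.Normal := ⟨fun n hn r => hnorm r (by rw [R_eq_top hc]; exact Subgroup.mem_top r) n hn⟩
    rcases Quasithin.le_center_or_eq_top hq N with h | h
    · have hgc := Subgroup.mem_center_iff.1 (h hg)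
      have a : (sT F : Matrix (Fin 2) (Fin 2) F) * g.1 = g.1 * (sT F : Matrix (Fin 2) (Fin 2) F) := by
        rw [← Matrix.SpecialLinearGroup.coe_mul, hgc, Matrix.SpecialLinearGroup.coe_mul]
      have b : (sI F : Matrix (Fin 2) (Fin 2) F) * g.1 = g.1 * (sI F : Matrix (Fin 2) (Fin 2) F) := by
        rw [← Matrix.SpecialLinearGroup.coe_mul, hgc, Matrix.SpecialLinearGroup.coe_mul]
      simp only [sT, sI] at a b
      have a00 := congrFun (congrFun a 0) 0
      have a01 := congrFun (congrFun a 0) 1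
      have b00 := congrFun (congrFun b 0) 0
      simp [Matrix.mul_apply, Fin.sum_univ_two] at a00 a01 b00
      have hd := g.det_coe
      rw [Matrix.det_fin_two] at hd
      have hsq : g * g = 1 := by
        refine Subtype.ext ?_
        rw [Matrix.SpecialLinearGroup.coe_mul, Matrix.SpecialLinearGroup.coe_one]
        ext i j; fin_cases i <;> fin_cases j <;> simp [Matrix.mul_apply, Fin.sum_univ_two] <;> grind
      exact (eq_one_or_neg_one_of_sq h3 hsq).resolve_left hg1 ▸ hg
    · rw [h]; exact Subgroup.mem_top _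

/-- A biadditive alternating invariant form on the natural module is a multiple of the determinant. -/
theorem exists_eq_det (h3 : (3 : F) = 0) (hcard : Fintype.card F = 3 ∨ 4 ≤ Fintype.card F)
    {A : Type*} [AddCommGroup A] (β : (Fin 2 → F) →+ (Fin 2 → F) →+ A) (halt : ∀ v, β v v = 0)
    (hinv : ∀ g ∈ R₀, ∀ u v, β ((g : Matrix (Fin 2) (Fin 2) F) *ᵥ u) ((g : Matrix (Fin 2) (Fin 2) F) *ᵥ v) = β u v) :
    ∃ γ : F →+ A, ∀ u v, β u v = γ (det2 u v) := by
  have hskew : ∀ u v, β u v = -β v u := fun u v => by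
    have h := halt (u + v)
    simp only [map_add, AddMonoidHom.add_apply, halt, zero_add, add_zero] at h
    exact eq_neg_of_add_eq_zero_right h
  have hiso : ∀ x y : F, β ![x, 0] ![y, 0] = 0 ∧ β ![0, x] ![0, y] = 0 ∧ β ![x, 0] ![0, y] = β ![1, 0] ![0, x * y] := by
    intro x y
    rcases hcard with hc | hc
    · haveI : Fact (Nat.Prime 3) := ⟨Nat.prime_three⟩
      set e := ZMod.ringEquivOfPrime F Nat.prime_three hc
      have hnat : ∀ x : F, ∃ n : ℕ, (n : F) = x := fun x => by
        obtain ⟨q, rfl⟩ := e.surjective x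
        exact ⟨q.val, by rw [← map_natCast e, ZMod.natCast_zmod_val]⟩
      obtain ⟨m, rfl⟩ := hnat x
      obtain ⟨l, rfl⟩ := hnat y
      have e0 : ∀ j : ℕ, (![(j : F), 0] : Fin 2 → F) = j • ![1, 0] := fun j => by ext i; fin_cases i <;> simp
      have e1 : ∀ j : ℕ, (![0, (j : F)] : Fin 2 → F) = j • ![0, 1] := fun j => by ext i; fin_cases i <;> simp
      refine ⟨?_, ?_, ?_⟩
      · rw [e0 m, e0 l, map_nsmul, map_nsmul, AddMonoidHom.nsmul_apply, halt, smul_zero, smul_zero]
      · rw [e1 m, e1 l, map_nsmul, map_nsmul, AddMonoidHom.nsmul_apply, halt, smul_zero, smul_zero]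
      · rw [e0 m, e1 l, ← Nat.cast_mul, e1 (m * l), map_nsmul, map_nsmul, map_nsmul,
          AddMonoidHom.nsmul_apply, ← mul_smul, mul_comm]
    · have hall : ∀ g : SL(2, F), g ∈ R₀ := fun g => by rw [R_eq_top hc]; exact Subgroup.mem_top g
      have hu : ∀ x y t : F, β ![x, 0] ![y + t, 0] = β ![x, 0] ![y, 0] + β ![x, 0] ![t, 0] := fun x y t => by
        rw [← map_add]; simp
      have htop : ∀ x t : F, β ![x, 0] ![t, 0] = 0 := fun x t => by
        have h := hinv ⟨!![1, t; 0, 1], by simp [det_fin_two_of]⟩ (hall _) ![x, 0] ![0, 1]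
        have e1 : (!![1, t; 0, 1] : Matrix (Fin 2) (Fin 2) F) *ᵥ ![x, 0] = ![x, 0] := by
          ext i; fin_cases i <;> simp
        have e2 : (!![1, t; 0, 1] : Matrix (Fin 2) (Fin 2) F) *ᵥ ![0, 1] = ![t, 0] + ![0, 1] := by
          ext i; fin_cases i <;> simp
        change β ((!![1, t; 0, 1] : Matrix (Fin 2) (Fin 2) F) *ᵥ ![x, 0])
          ((!![1, t; 0, 1] : Matrix (Fin 2) (Fin 2) F) *ᵥ ![0, 1]) = _ at h
        rw [e1, e2, map_add] at h
        simpa using h
      refine ⟨htop x y, ?_, ?_⟩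
      · have h := hinv (sI F) (hall _) ![0, x] ![0, y]
        have e : ∀ z : F, (sI F : Matrix (Fin 2) (Fin 2) F) *ᵥ ![0, z] = ![-z, 0] := fun z => by
          ext i; fin_cases i <;> simp [sI]
        rw [e, e, htop] at h
        exact h.symm
      · by_cases hx : x = 0
        · subst hx
          have : (![0, 0] : Fin 2 → F) = 0 := by ext i; fin_cases i <;> simp
          rw [zero_mul, this]; simp
        · have h := hinv ⟨!![x⁻¹, 0; 0, x], by simp [det_fin_two_of, hx]⟩ (hall _) ![x, 0] ![0, y]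
          have e1 : (!![x⁻¹, 0; 0, x] : Matrix (Fin 2) (Fin 2) F) *ᵥ ![x, 0] = ![1, 0] := by
            ext i; fin_cases i <;> simp [hx]
          have e2 : (!![x⁻¹, 0; 0, x] : Matrix (Fin 2) (Fin 2) F) *ᵥ ![0, y] = ![0, x * y] := by
            ext i; fin_cases i <;> simp [mul_comm]
          change β ((!![x⁻¹, 0; 0, x] : Matrix (Fin 2) (Fin 2) F) *ᵥ ![x, 0])
            ((!![x⁻¹, 0; 0, x] : Matrix (Fin 2) (Fin 2) F) *ᵥ ![0, y]) = _ at h
          rw [e1, e2] at h
          exact h.symm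
  let γ : F →+ A := (β ![1, 0]).comp
    { toFun := fun t => ![0, t]
      map_zero' := by ext i; fin_cases i <;> simp
      map_add' := fun a b => by ext i; fin_cases i <;> simp }
  refine ⟨γ, fun u v => ?_⟩
  have hu : u = ![u 0, 0] + ![0, u 1] := by ext i; fin_cases i <;> simp
  have hv : v = ![v 0, 0] + ![0, v 1] := by ext i; fin_cases i <;> simp
  conv_lhs => rw [hu, hv]
  simp only [map_add, AddMonoidHom.add_apply]
  rw [(hiso (u 0) (v 0)).1, (hiso (u 1) (v 1)).2.1, (hiso (u 0) (v 1)).2.2, hskew ![0, u 1] ![v 0, 0],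
    (hiso (v 0) (u 1)).2.2]
  show _ = γ (u 0 * v 1 - u 1 * v 0)
  rw [map_sub, zero_add, add_zero, mul_comm (u 1) (v 0), sub_eq_add_neg, add_comm]
  rfl

end finite

/-- Unipotent maps commuting with the transvections fixing a line are quadratic for that line. -/
theorem unipotent_of_commute [Finite F] [CharP F 3] (f : (Fin 2 → F) →+ (Fin 2 → F)) (m : ℕ)
    (hf : ∀ v, f^[3 ^ m] v = v)
    (hcomm : ∀ (t : F) (v : Fin 2 → F), f ![v 0 + t * v 1, v 1] = ![f v 0 + t * f v 1, f v 1]) :
    (∀ a : F, f ![a, 0] = ![a, 0]) ∧ ∀ v, f v 1 = v 1 := by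
  have h1 : ∀ a : F, f ![a, 0] 1 = 0 := fun a => by
    have h := congrFun (hcomm 1 ![a, 0]) 0
    simp at h
    exact h
  set d := f ![0, 1] 1
  have hA : ∀ t : F, f ![t, 0] 0 = t * d := fun t => by
    have h := congrFun (hcomm t ![0, 1]) 0
    simp only [cons_val_zero, cons_val_one, mul_one, zero_add] at h
    have e : (![t, 1] : Fin 2 → F) = ![t, 0] + ![0, 1] := by ext i; fin_cases i <;> simp
    rw [e, map_add, Pi.add_apply] at h
    linear_combination h
  have hD : ∀ c : F, f ![0, c] 1 = c * d := fun c => by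
    have h := congrFun (hcomm 1 ![0, c]) 0
    simp only [cons_val_zero, cons_val_one, one_mul, zero_add] at h
    have e : (![c, c] : Fin 2 → F) = ![c, 0] + ![0, c] := by ext i; fin_cases i <;> simp
    rw [e, map_add, Pi.add_apply, hA c] at h
    linear_combination -h
  have hd : d = 1 := by
    have hit : ∀ j : ℕ, f^[j] ![1, 0] = ![d ^ j, 0] := by
      intro j
      induction j with
      | zero => simp
      | succ j ih =>
        rw [Function.iterate_succ_apply', ih]
        ext i; fin_cases i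
        · simp [hA, pow_succ]
        · simp [h1]
    have h := congrFun (hit (3 ^ m)) 0
    rw [hf] at h
    simp at h
    haveI : Fact (Nat.Prime 3) := ⟨Nat.prime_three⟩
    exact sub_eq_zero.1 (pow_eq_zero_iff (pow_ne_zero m (by norm_num : (3 : ℕ) ≠ 0)) |>.1
      (by rw [sub_pow_char_pow, one_pow, ← h, sub_self]))
  refine ⟨fun a => ?_, fun v => ?_⟩
  · ext i; fin_cases i
    · simp [hA, hd]
    · simp [h1]
  · have e : v = ![v 0, 0] + ![0, v 1] := by ext i; fin_cases i <;> simp
    conv_lhs => rw [e, map_add, Pi.add_apply, h1, hD, hd, mul_one, zero_add]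

end CfsgLib.FFModules.BlockCentralizer
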