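import Cfsg.Agent.Lib.TwoGroupTricks.BlockFacts
import Cfsg.Agent.Lib.CoprimeAction.Basic
import Cfsg.Agent.Lib.NormalPComplement.Reduction

/-!
Stabilisers of sections of `O_p(G)`, and the two lemmas through which such a stabiliser shows that the centraliser
of the module of a block normalises the block.
-/

set_option autoImplicit false

namespace CfsgLib.FFModules.BlockCentralizer

open Cfsg
open scoped commutatorElement

variable {G : Type*} [Group G]

/-- The elements normalising `A` and `B` and trivial on `A` modulo `B`. -/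
def stab (A B : Subgroup G) : Subgroup G where
  carrier := {g | (g ∈ Subgroup.normalizer (A : Set G) ∧ g ∈ Subgroup.normalizer (B : Set G)) ∧
    ∀ a ∈ A, a⁻¹ * (g * a * g⁻¹) ∈ B}
  one_mem' := ⟨⟨one_mem _, one_mem _⟩, fun a _ => by simp⟩
  mul_mem' := by
    rintro g h ⟨⟨hgA, hgB⟩, hg⟩ ⟨⟨hhA, hhB⟩, hh⟩
    refine ⟨⟨mul_mem hgA hhA, mul_mem hgB hhB⟩, fun a ha => ?_⟩
    rw [show a⁻¹ * (g * h * a * (g * h)⁻¹) = (a⁻¹ * (g * a * g⁻¹)) * (g * (a⁻¹ * (h * a * h⁻¹)) * g⁻¹) by group]
    exact mul_mem (hg a ha) ((Subgroup.mem_normalizer_iff.1 hgB _).1 (hh a ha))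
  inv_mem' := by
    rintro g ⟨⟨hgA, hgB⟩, hg⟩
    refine ⟨⟨inv_mem hgA, inv_mem hgB⟩, fun a ha => ?_⟩
    have ha' : g⁻¹ * a * g ∈ A := (Subgroup.mem_normalizer_iff''.1 hgA a).1 ha
    have h1 := inv_mem (hg _ ha')
    have h2 := (Subgroup.mem_normalizer_iff''.1 hgB _).1 h1
    convert (Subgroup.mem_normalizer_iff''.1 hgB _).1 ((Subgroup.mem_normalizer_iff.1 hgB _).1 h1) using 1
    group

theorem stab_left {A B : Subgroup G} {g : G} (h : g ∈ stab A B) : g ∈ Subgroup.normalizer (A : Set G) := h.1.1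

theorem stab_right {A B : Subgroup G} {g : G} (h : g ∈ stab A B) : g ∈ Subgroup.normalizer (B : Set G) := h.1.2

theorem stab_spec {A B : Subgroup G} {g : G} (h : g ∈ stab A B) {a : G} (ha : a ∈ A) :
    a⁻¹ * (g * a * g⁻¹) ∈ B := h.2 a ha

/-- Whoever normalises both terms of a section normalises its stabiliser. -/
theorem conj_mem_stab {A B : Subgroup G} {x g : G} (hxA : x ∈ Subgroup.normalizer (A : Set G))
    (hxB : x ∈ Subgroup.normalizer (B : Set G)) (hg : g ∈ stab A B) : x * g * x⁻¹ ∈ stab A B := by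
  refine ⟨⟨mul_mem (mul_mem hxA hg.1.1) (inv_mem hxA), mul_mem (mul_mem hxB hg.1.2) (inv_mem hxB)⟩,
    fun a ha => ?_⟩
  have h1 := (Subgroup.mem_normalizer_iff.1 hxB _).1 (hg.2 _ ((Subgroup.mem_normalizer_iff''.1 hxA a).1 ha))
  convert h1 using 1
  group

theorem normalizer_le_normalizer_stab [Finite G] (A B : Subgroup G) :
    Subgroup.normalizer (A : Set G) ⊓ Subgroup.normalizer (B : Set G) ≤
      Subgroup.normalizer (stab A B : Set G) := fun _ hx =>
  Subgroup.mem_normalizer_fintype fun _ hg => conj_mem_stab hx.1 hx.2 hg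

theorem mem_stab_of_commutator_le {A B E : Subgroup G} (hEA : E ≤ Subgroup.normalizer (A : Set G))
    (hEB : E ≤ Subgroup.normalizer (B : Set G)) (h : ⁅A, E⁆ ≤ B) : E ≤ stab A B := fun e he =>
  ⟨⟨hEA he, hEB he⟩, fun a ha => by
    have := h (Subgroup.commutator_mem_commutator (inv_mem ha) he)
    simpa [commutatorElement_def, mul_assoc] using this⟩

theorem stab_bot {A : Subgroup G} {g : G} (hg : g ∈ stab A ⊥) {a : G} (ha : a ∈ A) : g * a = a * g := by
  have := Subgroup.mem_bot.1 (hg.2 a ha)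
  rw [inv_mul_eq_one, eq_mul_inv_iff_mul_eq] at this
  exact this.symm

theorem mem_stab_bot [Finite G] {A : Subgroup G} {g : G} (h : g ∈ Subgroup.centralizer (A : Set G)) :
    g ∈ stab A ⊥ :=
  ⟨⟨Subgroup.centralizer_le_normalizer _ h, by rw [Subgroup.normalizer_eq_top]; exact Subgroup.mem_top g⟩,
    fun a ha => by rw [← Subgroup.mem_centralizer_iff.1 h a ha]; simp⟩

variable [Finite G] {p : ℕ} [Fact p.Prime]

/-- A `p'`-element trivial on two consecutive sections of a `p`-group is trivial on their join. -/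
theorem stab_trans {A B D : Subgroup G} [D.Normal] (hB : IsPGroup p B) (hBA : B ≤ A)
    {g : G} (hg : (orderOf g).Coprime p) (hAB : g ∈ stab A B) (hBD : g ∈ stab B D) : g ∈ stab A D := by
  set π := QuotientGroup.mk' D
  have hzB : ∀ a ∈ Subgroup.zpowers (π g), ∀ b ∈ B.map π, b * a = a * b := by
    rintro _ ⟨i, rfl⟩ _ ⟨b, hb, rfl⟩
    have h1 := (zpow_mem hBD i : g ^ i ∈ stab B D).2 b hb
    rw [← QuotientGroup.eq_one_iff] at h1
    change π (b⁻¹ * (g ^ i * b * (g ^ i)⁻¹)) = 1 at h1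
    rw [map_mul, map_mul, map_mul, map_inv, map_inv, inv_mul_eq_one, eq_mul_inv_iff_mul_eq] at h1
    show π b * π g ^ i = π g ^ i * π b
    rw [← map_zpow]
    exact h1
  have hcent := CoprimeAction.le_centralizer_of_series (A := Subgroup.zpowers (π g)) (K := A.map π)
    (N := B.map π) (Subgroup.map_mono hBA) (by
      obtain ⟨k, hk⟩ := IsPGroup.iff_card.1 (hB.map π)
      rw [Nat.card_zpowers, hk]
      exact (Nat.Coprime.coprime_dvd_left (orderOf_map_dvd π g) hg).pow_right k)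
    (fun a ha => Subgroup.mem_centralizer_iff.2 fun b hb => hzB a ha b hb) (by
      rintro _ ⟨i, rfl⟩ _ ⟨a, ha, rfl⟩
      refine ⟨_, (zpow_mem hAB i : g ^ i ∈ stab A B).2 a ha, ?_⟩
      rw [map_mul, map_mul, map_mul, map_inv, map_inv, map_zpow])
  refine ⟨⟨hAB.1.1, hBD.1.2⟩, fun a ha => ?_⟩
  rw [← QuotientGroup.eq_one_iff]
  show π (a⁻¹ * (g * a * g⁻¹)) = 1
  have := Subgroup.mem_centralizer_iff.1 (hcent (Subgroup.mem_zpowers (π g))) (π a) (Subgroup.mem_map_of_mem π ha)
  rw [map_mul, map_mul, map_mul, map_inv, map_inv, inv_mul_eq_one, eq_mul_inv_iff_mul_eq]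
  exact this

/-- A subgroup whose `p'`-elements centralise `O_p(G)` is a `p`-group. -/
theorem isPGroup_of_centralizes (hG : Subgroup.centralizer (pCore p G : Set G) ≤ pCore p G)
    {X : Subgroup G} (h : ∀ g ∈ X, (orderOf g).Coprime p → g ∈ stab (pCore p G) ⊥) : IsPGroup p X := by
  refine NormalPComplement.isPGroup_of_forall_coprime fun g hg hcop => ?_
  have hgQ : g ∈ pCore p G := hG (Subgroup.mem_centralizer_iff.2 fun a ha => (stab_bot (h g hg hcop) ha).symm)
  obtain ⟨k, hk⟩ := CfsgLib.Cores.isPGroup_pCore p G ⟨g, hgQ⟩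
  rw [← orderOf_eq_one_iff]
  exact Nat.Coprime.eq_one_of_dvd (hcop.pow_right k) (orderOf_dvd_of_pow_eq_one (congrArg Subtype.val hk))

/-- The exit: `E ^ c ≤ E X` for a `p`-group `X` invariant under `E` and the Baumann subgroup. -/
theorem mem_normalizer_of_conj (T : Sylow p G) {E : Subgroup G} (hres : pResidualOf p E = E)
    (hEB : ⁅E, baumannSubgroupOf p (T : Subgroup G)⁆ = E) {X : Subgroup G} (hX : IsPGroup p X)
    (hEX : E ≤ Subgroup.normalizer (X : Set G))
    (hBX : baumannSubgroupOf p (T : Subgroup G) ≤ Subgroup.normalizer (X : Set G)) {c : G}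
    (h : ∀ e ∈ E, c * e * c⁻¹ * e⁻¹ ∈ X) : c ∈ Subgroup.normalizer (E : Set G) := by
  have hXE := TwoGroupTricks.le_normalizer_of_block T hres hEB hX hBX hEX
  refine Subgroup.mem_normalizer_fintype fun e he => ?_
  have hgen : E ≤ E.comap (MulAut.conj c).toMonoidHom := by
    nth_rewrite 1 [← hres]
    rw [pResidualOf, pResidual, MonoidHom.map_closure]
    refine (Subgroup.closure_le _).2 ?_
    rintro _ ⟨e, he, rfl⟩
    show c * (e : G) * c⁻¹ ∈ E
    -- `c e c⁻¹ = x e` is a `p'`-element of `X E`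
    set N := Subgroup.normalizer (E : Set G)
    have hx : c * (e : G) * c⁻¹ * (e : G)⁻¹ ∈ X := h e e.2
    let u : N := ⟨c * (e : G) * c⁻¹,
      by simpa using mul_mem (hXE hx) (Subgroup.le_normalizer e.2)⟩
    haveI : (E.subgroupOf N).Normal := Subgroup.normal_in_normalizer
    have hxN : (⟨_, hXE hx⟩ : N) * ⟨(e : G), Subgroup.le_normalizer e.2⟩ = u :=
      Subtype.ext (by simp [u])
    obtain ⟨k, hk⟩ := hX ⟨_, hx⟩
    have h1 : (QuotientGroup.mk' (E.subgroupOf N) u) ^ p ^ k = 1 := by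
      have he1 : QuotientGroup.mk' (E.subgroupOf N) ⟨(e : G), Subgroup.le_normalizer e.2⟩ = 1 :=
        (QuotientGroup.eq_one_iff _).2 e.2
      rw [← hxN, map_mul, he1, mul_one, ← map_pow,
        show (⟨_, hXE hx⟩ : N) ^ p ^ k = 1 from Subtype.ext (by simpa using congrArg Subtype.val hk), map_one]
    have h2 : (orderOf u).Coprime p := by
      rw [← Subgroup.orderOf_coe]
      show (orderOf (c * (e : G) * c⁻¹)).Coprime p
      rw [← MulAut.conj_apply, MulEquiv.orderOf_eq, Subgroup.orderOf_coe]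
      exact he
    have h3 := pow_gcd_eq_one.mpr ⟨h1, (by rw [← map_pow, pow_orderOf_eq_one, map_one] :
      (QuotientGroup.mk' (E.subgroupOf N) u) ^ orderOf u = 1)⟩
    rw [(h2.symm.pow_left k).gcd_eq_one, pow_one] at h3
    exact (QuotientGroup.eq_one_iff u).1 h3
  exact hgen he

end CfsgLib.FFModules.BlockCentralizer
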