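import Cfsg.Agent.Lib.Replacement.Block.Sections
import Cfsg.Agent.Lib.Replacement.Block.Tools
import Cfsg.Agent.Lib.FFModules.BlockCentralizer.SLFacts
import Cfsg.Agent.Lib.FFModules.BlockCentralizer.Series

/-!
The data of an exceptional block whose core lies in `O_p(G)`, and its elementary consequences.
-/

set_option autoImplicit false

open Matrix
open scoped MatrixGroups commutatorElement

namespace CfsgLib.FFModules.BlockCentralizer

open Cfsg
open CfsgLib.Replacement.Block (blockW blockWE blockZ coreU coreU_le coreU_normal blockW_le blockW_comm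
  omegaOneCenter_pow coreU_comm)

variable {G : Type*} [Group G] [Finite G]

omit [Finite G] in
theorem mem_normalizer_of_normal {N : Subgroup G} [N.Normal] (g : G) : g ∈ Subgroup.normalizer (N : Set G) := by
  rw [Subgroup.normalizer_eq_top]; exact Subgroup.mem_top g

/-- A natural section, with the two maps extended to the whole group. -/
structure NatSec (p : ℕ) (F : Type*) [Field F] (E V V₀ : Subgroup G) where
  ρ : G → SL(2, F)
  ψ : G → (Fin 2 → F)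
  normE : E ≤ Subgroup.normalizer (V : Set G)
  le : V₀ ≤ V
  ρ_mem : ∀ e ∈ E, ρ e ∈ _root_.commutator SL(2, F)
  ρ_mul : ∀ e ∈ E, ∀ f ∈ E, ρ (e * f) = ρ e * ρ f
  ρ_surj : ∀ g ∈ _root_.commutator SL(2, F), ∃ e ∈ E, ρ e = g
  ρ_ker : ∀ e ∈ E, (ρ e = 1 ↔ e ∈ pCoreOf p E)
  ψ_mul : ∀ u ∈ V, ∀ v ∈ V, ψ (u * v) = ψ u + ψ v
  ψ_surj : ∀ a, ∃ v ∈ V, ψ v = a
  ψ_ker : ∀ v ∈ V, (ψ v = 0 ↔ v ∈ V₀)
  ψ_conj : ∀ e ∈ E, ∀ v ∈ V, ψ (e * v * e⁻¹) = (ρ e : Matrix (Fin 2) (Fin 2) F) *ᵥ ψ v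

namespace NatSec

variable {p : ℕ} {F : Type*} [Field F] {E V V₀ : Subgroup G} (s : NatSec p F E V V₀)
include s

omit [Finite G] in
theorem ρ_one : s.ρ 1 = 1 := by
  have h := s.ρ_mul 1 (one_mem E) 1 (one_mem E)
  rw [one_mul] at h
  exact left_eq_mul.1 h

omit [Finite G] in
theorem ρ_inv {e : G} (he : e ∈ E) : s.ρ e⁻¹ = (s.ρ e)⁻¹ := by
  rw [eq_inv_iff_mul_eq_one, ← s.ρ_mul _ (inv_mem he) _ he, inv_mul_cancel, s.ρ_one]

omit [Finite G] in
theorem ρ_pow {e : G} (he : e ∈ E) : ∀ k : ℕ, s.ρ (e ^ k) = s.ρ e ^ k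
  | 0 => by rw [pow_zero, pow_zero, s.ρ_one]
  | k + 1 => by rw [pow_succ, pow_succ, s.ρ_mul _ (pow_mem he k) _ he, ρ_pow he k]

omit [Finite G] in
theorem ψ_one : s.ψ 1 = 0 := (s.ψ_ker 1 (one_mem V)).2 (one_mem V₀)

omit [Finite G] in
theorem ψ_inv {v : G} (hv : v ∈ V) : s.ψ v⁻¹ = -s.ψ v := by
  rw [eq_neg_iff_add_eq_zero, ← s.ψ_mul _ (inv_mem hv) _ hv, inv_mul_cancel, s.ψ_one]

omit [Finite G] in
theorem ψ_eq_iff {u v : G} (hu : u ∈ V) (hv : v ∈ V) : s.ψ u = s.ψ v ↔ u⁻¹ * v ∈ V₀ := by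
  rw [← s.ψ_ker _ (mul_mem (inv_mem hu) hv), s.ψ_mul _ (inv_mem hu) _ hv, s.ψ_inv hu,
    neg_add_eq_zero]

end NatSec

theorem natSec_of_acts {p : ℕ} [Fact p.Prime] {F : Type*} [Field F] [Fintype F] {E V V₀ : Subgroup G}
    (φ : ↥E ⧸ pCore p ↥E ≃* ↥(_root_.commutator SL(2, F)))
    (hact : ActsAsSL2OnSection F (_root_.commutator SL(2, F)) E V V₀)
    (htriv : ∀ q ∈ pCoreOf p E, ∀ v ∈ V, q * v * q⁻¹ * v⁻¹ ∈ V₀) :
    Nonempty (NatSec p F E V V₀) := by
  classical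
  obtain ⟨hEV, hle, ρ, ψ, hR, hsurj, hker, hac⟩ := hact
  have hρq : pCore p E ≤ ρ.ker := by
    intro q hq
    rw [MonoidHom.mem_ker]
    have hfix : ∀ a : Fin 2 → F, ((ρ q : SL(2, F)) : Matrix (Fin 2) (Fin 2) F).mulVec a = a := by
      intro a
      obtain ⟨u, hu⟩ := hsurj (Multiplicative.ofAdd a)
      obtain ⟨w, hw, hψ⟩ := hac q u
      have h1 : ψ (w * u⁻¹) = 1 :=
        (hker _).2 (by simpa [hw] using htriv q ⟨q, hq, rfl⟩ u u.2)
      rw [map_mul, map_inv, mul_inv_eq_one] at h1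
      rw [h1, hu, toAdd_ofAdd] at hψ
      exact hψ.symm
    refine Subtype.ext (Matrix.ext fun i j => ?_)
    have := congrFun (hfix (Pi.single j 1)) i
    simpa [Matrix.mulVec_single, Matrix.one_apply, Pi.single_apply] using this
  have hidx : ρ.ker = pCore p E := by
    refine (Subgroup.eq_of_le_of_card_ge hρq ?_).symm
    have h1 : ρ.ker.index = (pCore p E).index := by
      rw [Subgroup.index_ker, hR]
      exact (Nat.card_congr φ.toEquiv).symm.trans (Subgroup.index_eq_card _).symm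
    have h2 := (Subgroup.card_mul_index ρ.ker).trans (Subgroup.card_mul_index (pCore p E)).symm
    rw [h1] at h2
    exact (Nat.eq_of_mul_eq_mul_right (Nat.pos_of_ne_zero Subgroup.index_ne_zero_of_finite) h2).le
  refine ⟨{
    ρ := fun g => if h : g ∈ E then ρ ⟨g, h⟩ else 1
    ψ := fun g => if h : g ∈ V then Multiplicative.toAdd (ψ ⟨g, h⟩) else 0
    normE := hEV
    le := hle
    ρ_mem := fun e he => by rw [dif_pos he, ← hR]; exact ⟨_, rfl⟩
    ρ_mul := fun e he f hf => by rw [dif_pos he, dif_pos hf, dif_pos (mul_mem he hf), ← map_mul]; rfl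
    ρ_surj := fun g hg => by
      rw [← hR] at hg
      obtain ⟨e, rfl⟩ := hg
      exact ⟨e, e.2, dif_pos e.2⟩
    ρ_ker := fun e he => by
      rw [dif_pos he, ← MonoidHom.mem_ker, hidx]
      exact ⟨fun h => ⟨_, h, rfl⟩, fun ⟨y, hy, hye⟩ => (show y = ⟨e, he⟩ from Subtype.ext hye) ▸ hy⟩
    ψ_mul := fun u hu v hv => by
      rw [dif_pos hu, dif_pos hv, dif_pos (mul_mem hu hv), ← toAdd_mul, ← map_mul]; rfl
    ψ_surj := fun a => by
      obtain ⟨u, hu⟩ := hsurj (Multiplicative.ofAdd a)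
      exact ⟨u, u.2, by rw [dif_pos u.2, Subtype.coe_eta, hu, toAdd_ofAdd]⟩
    ψ_ker := fun v hv => by
      rw [dif_pos hv]
      exact ⟨fun h => (hker ⟨v, hv⟩).1 (Multiplicative.toAdd.injective h),
        fun h => by rw [(hker ⟨v, hv⟩).2 h, toAdd_one]⟩
    ψ_conj := fun e he v hv => by
      obtain ⟨w, hw, hψ⟩ := hac ⟨e, he⟩ ⟨v, hv⟩
      have hwe : e * v * e⁻¹ ∈ V := hw ▸ w.2
      rw [dif_pos he, dif_pos hv, dif_pos hwe, ← hψ]
      exact congrArg (fun x => Multiplicative.toAdd (ψ x)) (Subtype.ext hw.symm) }⟩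

/-- An exceptional block with core inside `O_3(G)`. -/
structure Ctx (G : Type*) [Group G] [Finite G] (F : Type*) [Field F] [Fintype F] where
  hG : Subgroup.centralizer (pCore 3 G : Set G) ≤ pCore 3 G
  T : Sylow 3 G
  E : Subgroup G
  hE : IsBaumannBlock 3 (T : Subgroup G) E
  hQle : pCoreOf 3 E ≤ pCore 3 G
  n : ℕ
  hF : Fintype.card F = 3 ^ n
  hn : n ≠ 0
  sW : NatSec 3 F E (blockW 3 E) (blockZ 3 E)
  sQ : NatSec 3 F E (pCoreOf 3 E) (blockW 3 E)
  hQQ : ⁅pCoreOf 3 E, pCoreOf 3 E⁆ = blockZ 3 E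
  hZE : E ⊓ Subgroup.centralizer (E : Set G) = blockZ 3 E
  hZcard : Nat.card ↥(blockZ 3 E) = 3 ^ n
  hnq : ∀ b : G, b ∈ baumannSubgroupOf 3 (T : Subgroup G) →
    b ∉ Subgroup.centralizer (blockW 3 E : Set G) →
    ¬ ⁅⁅pCoreOf 3 E, Subgroup.zpowers b⁆, Subgroup.zpowers b⁆ ≤ blockZ 3 E

namespace Ctx

variable {F : Type*} [Field F] [Fintype F] (K : Ctx G F)

/-- `O_3(E)`. -/
abbrev Q : Subgroup G := pCoreOf 3 K.E
/-- `Ω₁(Z(O_3(E)))`. -/
abbrev W : Subgroup G := blockW 3 K.E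
/-- `[W, E]`. -/
abbrev WE : Subgroup G := blockWE 3 K.E
/-- `C_W(E)`. -/
abbrev Z : Subgroup G := blockZ 3 K.E
/-- `O_3(G)`. -/
abbrev Q0 (_ : Ctx G F) : Subgroup G := pCore 3 G
/-- `Ω₁(Z(O_3(G)))`. -/
abbrev U (_ : Ctx G F) : Subgroup G := coreU 3 G
/-- The Baumann subgroup. -/
abbrev B : Subgroup G := baumannSubgroupOf 3 (K.T : Subgroup G)
/-- The centralizer of the module. -/
abbrev C : Subgroup G := Subgroup.centralizer (K.WE : Set G)

include K

theorem h3 : (3 : F) = 0 := by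
  have h := FiniteField.cast_card_eq_zero F
  rw [K.hF] at h
  push_cast at h
  exact (pow_eq_zero_iff K.hn).1 h

theorem hcard : Fintype.card F = 3 ∨ 4 ≤ Fintype.card F := by
  rw [K.hF]
  rcases Nat.lt_or_ge K.n 2 with h | h
  · exact Or.inl (by rw [show K.n = 1 by have := K.hn; omega, pow_one])
  · exact Or.inr (le_trans (by norm_num : 4 ≤ 3 ^ 2) (Nat.pow_le_pow_right (by norm_num) h))

theorem E_res : pResidualOf 3 K.E = K.E := K.hE.1

theorem E_B : ⁅K.E, K.B⁆ = K.E := K.hE.2.1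

theorem B_le_normalizer : K.B ≤ Subgroup.normalizer (K.E : Set G) :=
  TwoGroupTricks.le_normalizer_of_commutator_eq K.E_B

theorem Q0_le_normalizer : K.Q0 ≤ Subgroup.normalizer (K.E : Set G) :=
  TwoGroupTricks.pCore_le_normalizer_block K.T K.hE

theorem norm_Q : Subgroup.normalizer (K.E : Set G) ≤ Subgroup.normalizer (K.Q : Set G) :=
  Cores.normalizer_le_normalizer_map_subtype K.E (pCore 3 K.E)

theorem norm_W : Subgroup.normalizer (K.E : Set G) ≤ Subgroup.normalizer (K.W : Set G) :=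
  K.norm_Q.trans (TwoGroupTricks.normalizer_le_normalizer_omegaOneCenter _)

theorem norm_WE : Subgroup.normalizer (K.E : Set G) ≤ Subgroup.normalizer (K.WE : Set G) := fun _ hg =>
  TwoGroupTricks.normalizer_le_normalizer_commutator_left hg (K.norm_W hg)

theorem Q_le_E : K.Q ≤ K.E := Subgroup.map_subtype_le _

theorem W_le_Q : K.W ≤ K.Q := blockW_le

theorem Z_le_W : K.Z ≤ K.W := inf_le_left

theorem WE_le_W : K.WE ≤ K.W := (TwoGroupTricks.block_module_facts K.hE).2.1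

theorem W_comm {q w : G} (hq : q ∈ K.Q) (hw : w ∈ K.W) : q * w = w * q := blockW_comm hq hw

theorem W_pow {w : G} (hw : w ∈ K.W) : w ^ 3 = 1 := omegaOneCenter_pow _ hw

theorem U_le_Q0 : K.U ≤ K.Q0 := coreU_le

theorem U_comm {q u : G} (hq : q ∈ K.Q0) (hu : u ∈ K.U) : q * u = u * q := coreU_comm hq hu

theorem U_pow {u : G} (hu : u ∈ K.U) : u ^ 3 = 1 := omegaOneCenter_pow _ hu

theorem comm_le : ⁅K.Q0, K.E⁆ ≤ K.Q := by
  refine le_trans (le_inf (CoprimeAction.commutator_le_left (by rw [Subgroup.normalizer_eq_top]; exact le_top))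
    (by rw [Subgroup.commutator_comm]; exact CoprimeAction.commutator_le_left K.Q0_le_normalizer))
    (TwoGroupTricks.inf_le_pCoreOf (CfsgLib.Cores.isPGroup_pCore 3 G)
      (by rw [Subgroup.normalizer_eq_top]; exact le_top))

theorem WE_le_U : K.WE ≤ K.U := TwoGroupTricks.commutator_le_omegaOneCenter_pCore K.hG K.T K.hE

theorem WE_sup_Z : K.WE ⊔ K.Z = K.W := (TwoGroupTricks.block_module_facts K.hE).2.2.2

theorem W_le_normalizer {X : Subgroup G} (hX : X ≤ K.Q) : K.W ≤ Subgroup.normalizer (X : Set G) :=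
  fun _ hw => Subgroup.centralizer_le_normalizer _
    (Subgroup.mem_centralizer_iff.2 fun _ hx => K.W_comm (hX hx) hw)

theorem irredQ {X : Subgroup G} (h1 : K.W ≤ X) (h2 : X ≤ K.Q)
    (h3 : K.E ≤ Subgroup.normalizer (X : Set G)) : X = K.W ∨ X = K.Q := by
  refine (TwoGroupTricks.irreducibleSection_of_hom (Z := K.W) (W := K.Q) K.sQ.normE K.W_le_Q
    (MonoidHom.mk' (fun v : K.Q => Multiplicative.ofAdd (K.sQ.ψ v))
      (fun u v => by rw [Subgroup.coe_mul, K.sQ.ψ_mul _ u.2 _ v.2]; rfl))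
    (fun u => (Multiplicative.ofAdd.apply_eq_iff_eq).trans (K.sQ.ψ_ker _ u.2))
    (fun e a => (K.sQ.ρ e : Matrix (Fin 2) (Fin 2) F) *ᵥ a)
    (fun e u => ⟨⟨(e : G) * u * (e : G)⁻¹, (Subgroup.mem_normalizer_iff.1 (K.sQ.normE e.2) _).1 u.2⟩, rfl,
      K.sQ.ψ_conj _ e.2 _ u.2⟩) (fun S _ hS => ?_) ?_).irred X h1 h2 h3
  · rcases TwoGroupTricks.NaturalModules.eq_bot_or_eq_top (S := S) (fun g hg v hv => by
        obtain ⟨e, he, rfl⟩ := K.sQ.ρ_surj g hg
        exact hS ⟨e, he⟩ v hv) with h | h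
    · exact Or.inl fun a ha => by simpa [h] using ha
    · exact Or.inr fun u => h ▸ AddSubgroup.mem_top _
  · obtain ⟨g, hg, hgne⟩ := TwoGroupTricks.NaturalModules.exists_moved (F := F)
    obtain ⟨e, he, rfl⟩ := K.sQ.ρ_surj g hg
    obtain ⟨v, hv, hψ⟩ := K.sQ.ψ_surj ![1, 0]
    exact ⟨⟨e, he⟩, ⟨v, hv⟩, by simpa [hψ] using hgne⟩

theorem Z_ne_bot : K.Z ≠ ⊥ := by
  intro h
  have h1 := K.hZcard
  change Nat.card ↥(K.Z) = _ at h1
  rw [h, Subgroup.card_bot] at h1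
  exact absurd h1.symm (Nat.one_lt_pow K.hn (by norm_num)).ne'

theorem Q_ne_W : K.Q ≠ K.W := by
  intro h
  obtain ⟨v, hv, hψ⟩ := K.sQ.ψ_surj ![1, 0]
  have h0 := (K.sQ.ψ_ker v hv).2 (show v ∈ K.W from h ▸ hv)
  rw [hψ] at h0
  simpa using congrFun h0 0

theorem QQ0_le : ⁅K.Q, K.Q0⁆ ≤ K.W := by
  have hQN : K.Q0 ≤ Subgroup.normalizer (K.Q : Set G) := K.Q0_le_normalizer.trans K.norm_Q
  have hQW : K.Q0 ≤ Subgroup.normalizer (K.W : Set G) := K.Q0_le_normalizer.trans K.norm_W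
  set X := ⁅K.Q, K.Q0⁆ ⊔ K.W with hX
  have hXle : X ≤ K.Q := sup_le (CoprimeAction.commutator_le_left hQN) K.W_le_Q
  have hEX : K.E ≤ Subgroup.normalizer (X : Set G) := fun e he => Replacement.Block.inf_normalizer_le_sup _ _
    ⟨TwoGroupTricks.normalizer_le_normalizer_commutator_left (mem_normalizer_of_normal e)
      (K.sQ.normE he), K.norm_W (Subgroup.le_normalizer he)⟩
  rcases K.irredQ le_sup_right hXle hEX with h | h
  · exact le_sup_left.trans h.le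
  · exfalso
    refine K.Q_ne_W (le_antisymm ?_ K.W_le_Q)
    exact Replacement.Block.le_of_le_commutator_sup ((CfsgLib.Cores.isPGroup_pCore 3 K.E).map K.E.subtype)
      (CfsgLib.Cores.isPGroup_pCore 3 G) hQN hQW (fun q hq => Subgroup.centralizer_le_normalizer _
          (Subgroup.mem_centralizer_iff.2 fun _ hw => (K.W_comm hq hw).symm))
      K.W_le_Q h.ge

theorem Z_central {z r : G} (hz : z ∈ K.Z) (hr : r ∈ K.Q0) : r * z = z * r := by
  have hd : ⁅⁅K.Q, K.Q0⁆, K.Q⁆ = ⊥ := by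
    rw [Subgroup.commutator_eq_bot_iff_le_centralizer]
    exact fun x hx => Subgroup.mem_centralizer_iff.2 fun q hq => K.W_comm hq (K.QQ0_le hx)
  have h := Subgroup.commutator_commutator_eq_bot_of_rotate (H₁ := K.Q) (H₂ := K.Q) (H₃ := K.Q0) hd
    (by rw [Subgroup.commutator_comm K.Q0 K.Q]; exact hd)
  rw [Subgroup.commutator_eq_bot_iff_le_centralizer] at h
  exact Subgroup.mem_centralizer_iff.1 (h (K.hQQ.ge hz)) r hr

theorem W_le_U : K.W ≤ K.U := by
  rw [← K.WE_sup_Z]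
  refine sup_le K.WE_le_U fun z hz => ?_
  exact ThompsonJ.mem_omegaOne ⟨K.hQle (K.W_le_Q (K.Z_le_W hz)),
    Subgroup.mem_centralizer_iff.2 fun r hr => K.Z_central hz hr⟩ (K.W_pow (K.Z_le_W hz))

end Ctx

end CfsgLib.FFModules.BlockCentralizer
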