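import Cfsg.Agent.Lib.FFModules.BlockCentralizer.Basic

/-!
The involution of an exceptional block and the complement of its core in `O_3(G)` modulo the module.
-/

set_option autoImplicit false

open Matrix
open scoped MatrixGroups commutatorElement

namespace CfsgLib.FFModules.BlockCentralizer

open Cfsg

variable {G : Type*} [Group G]

/-- An element whose square is a `p`-element has an odd power squaring to one. -/
theorem exists_odd_pow {Y : Subgroup G} (hY : IsPGroup 3 Y) {g : G} (h : g * g ∈ Y) :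
    ∃ k : ℕ, g ^ 3 ^ k * g ^ 3 ^ k = 1 := by
  obtain ⟨k, hk⟩ := hY ⟨_, h⟩
  refine ⟨k, ?_⟩
  rw [← (Commute.refl g).mul_pow]
  exact congrArg Subtype.val hk

theorem neg_one_pow_three {M : Type*} [Monoid M] [HasDistribNeg M] (k : ℕ) : (-1 : M) ^ 3 ^ k = -1 :=
  (Odd.neg_one_pow (Odd.pow (by decide)))

theorem eq_one_of_sq_of_cube {x : G} (h2 : x * x = 1) (h3 : x ^ 3 = 1) : x = 1 := by
  rwa [pow_succ, pow_two, h2, one_mul] at h3

namespace Ctx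

variable [Finite G] {F : Type*} [Field F] [Fintype F] (K : Ctx G F)
include K

theorem U_inf_Q {x : G} (hx : x ∈ K.Q) (hxU : x ∈ K.U) : x ∈ K.W :=
  ThompsonJ.mem_omegaOne ⟨hx, Subgroup.mem_centralizer_iff.2 fun q hq => K.U_comm (K.hQle hq) hxU⟩
    (K.U_pow hxU)

theorem U_comm_E : ⁅K.U, K.E⁆ ≤ K.WE := by
  have hN : K.E ≤ Subgroup.normalizer (K.U : Set G) := fun e _ => mem_normalizer_of_normal e
  have h1 : ⁅K.U, K.E⁆ ≤ K.W := fun x hx =>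
    K.U_inf_Q (K.comm_le (Subgroup.commutator_mono K.U_le_Q0 le_rfl hx))
      (CoprimeAction.commutator_le_left hN hx)
  exact Replacement.Block.commutator_le_of_commutator_commutator K.E_res
    ((CfsgLib.Cores.isPGroup_pCore 3 G).to_le K.U_le_Q0) hN
    (fun e he => K.norm_WE (Subgroup.le_normalizer he)) (Subgroup.commutator_mono h1 le_rfl)

theorem E_stab_U : K.E ≤ stab K.U K.WE :=
  mem_stab_of_commutator_le (fun e _ => mem_normalizer_of_normal e)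
    (fun e he => K.norm_WE (Subgroup.le_normalizer he)) K.U_comm_E

theorem Q_pow {q : G} (hq : q ∈ K.Q) : q ^ 3 ∈ K.W := by
  rw [← K.sQ.ψ_ker _ (pow_mem hq 3), pow_succ, pow_two, K.sQ.ψ_mul _ (mul_mem hq hq) _ hq,
    K.sQ.ψ_mul _ hq _ hq]
  funext i
  simp only [Pi.add_apply, Pi.zero_apply]
  linear_combination (K.sQ.ψ q i) * K.h3

theorem ρQ_eq_one {e : G} (he : e ∈ K.E) : K.sQ.ρ e = 1 ↔ K.sW.ρ e = 1 := by
  rw [K.sQ.ρ_ker e he, K.sW.ρ_ker e he]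

theorem exists_z : ∃ z ∈ K.E, z * z = 1 ∧ K.sW.ρ z = -1 ∧ K.sQ.ρ z = -1 := by
  obtain ⟨e, he, hρ⟩ := K.sW.ρ_surj (-1) (neg_one_mem K.h3)
  have hee : e * e ∈ K.Q := by
    rw [← K.sW.ρ_ker _ (mul_mem he he), K.sW.ρ_mul _ he _ he, hρ, neg_mul_neg, one_mul]
  obtain ⟨k, hk⟩ := exists_odd_pow ((CfsgLib.Cores.isPGroup_pCore 3 K.E).map K.E.subtype) hee
  have hz := pow_mem he (3 ^ k)
  have hW : K.sW.ρ (e ^ 3 ^ k) = -1 := by rw [K.sW.ρ_pow he, hρ, neg_one_pow_three]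
  refine ⟨_, hz, hk, hW, ?_⟩
  refine (eq_one_or_neg_one_of_sq K.h3 ?_).resolve_left fun h => ?_
  · rw [← K.sQ.ρ_mul _ hz _ hz, hk, K.sQ.ρ_one]
  · rw [K.ρQ_eq_one hz, hW] at h
    exact neg_one_ne_one K.h3 h

/-- The involution of the block. -/
noncomputable def z : G := K.exists_z.choose

theorem z_mem : K.z ∈ K.E := K.exists_z.choose_spec.1
theorem z_sq : K.z * K.z = 1 := K.exists_z.choose_spec.2.1
theorem ρW_z : K.sW.ρ K.z = -1 := K.exists_z.choose_spec.2.2.1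
theorem ρQ_z : K.sQ.ρ K.z = -1 := K.exists_z.choose_spec.2.2.2

theorem z_Z {t : G} (ht : t ∈ K.Z) : K.z * t * K.z⁻¹ = t := by
  rw [Subgroup.mem_centralizer_iff.1 ht.2 K.z K.z_mem, mul_inv_cancel_right]

/-- `W = (inverted part) · Z`. -/
theorem exists_inverted {w : G} (hw : w ∈ K.W) :
    ∃ v ∈ K.W, v⁻¹ * w ∈ K.Z ∧ K.z * v * K.z⁻¹ = v⁻¹ := by
  have hzW : K.z * w * K.z⁻¹ ∈ K.W := (Subgroup.mem_normalizer_iff.1 (K.sW.normE K.z_mem) w).1 hw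
  set a := K.z * w * K.z⁻¹ * w with ha
  have haW : a ∈ K.W := mul_mem hzW hw
  have haZ : a ∈ K.Z := by
    rw [← K.sW.ψ_ker _ haW, ha, K.sW.ψ_mul _ hzW _ hw, K.sW.ψ_conj _ K.z_mem _ hw, K.ρW_z]
    simp [Matrix.neg_mulVec]
  have hcomm : a * w = w * a := K.W_comm (K.W_le_Q haW) hw
  refine ⟨w * a, mul_mem hw haW, ?_, ?_⟩
  · rw [_root_.mul_inv_rev, inv_mul_cancel_right]; exact inv_mem haZ
  · calc K.z * (w * a) * K.z⁻¹ = (K.z * w * K.z⁻¹) * (K.z * a * K.z⁻¹) := by group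
      _ = a * w⁻¹ * a := by rw [K.z_Z haZ, ha]; group
      _ = w⁻¹ * (a * a) := by
        rw [show a * w⁻¹ = w⁻¹ * a from (Commute.inv_right (show Commute a w from hcomm)).eq, mul_assoc]
      _ = w⁻¹ * a⁻¹ := by
        congr 1
        refine eq_inv_of_mul_eq_one_left ?_
        rw [← pow_two, ← pow_succ]; exact K.W_pow haW
      _ = (w * a)⁻¹ := by
        rw [← hcomm]; exact (_root_.mul_inv_rev a w).symm

theorem WE_inverted {w : G} (hw : w ∈ K.WE) : K.z * w * K.z⁻¹ = w⁻¹ := by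
  let S : Subgroup G :=
    { carrier := {v | v ∈ K.W ∧ K.z * v * K.z⁻¹ = v⁻¹}
      one_mem' := ⟨one_mem _, by simp⟩
      mul_mem' := fun {a b} ha hb => ⟨mul_mem ha.1 hb.1, by
        rw [show K.z * (a * b) * K.z⁻¹ = (K.z * a * K.z⁻¹) * (K.z * b * K.z⁻¹) by group, ha.2, hb.2,
          ← _root_.mul_inv_rev, K.W_comm (K.W_le_Q hb.1) ha.1]⟩
      inv_mem' := fun {a} ha => ⟨inv_mem ha.1, by
        rw [show K.z * a⁻¹ * K.z⁻¹ = (K.z * a * K.z⁻¹)⁻¹ by group, ha.2]⟩ }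
  suffices K.WE ≤ S from (this hw).2
  refine Subgroup.commutator_le.2 fun w hw e he => ?_
  obtain ⟨v, hv, hvZ, hvi⟩ := K.exists_inverted hw
  set t := v⁻¹ * w
  have hwt : w = v * t := by simp [t]
  have ht : ⁅w, e⁆ = v * (e * v⁻¹ * e⁻¹) := by
    have h1 : t * e = e * t := (Subgroup.mem_centralizer_iff.1 hvZ.2 e he).symm
    rw [commutatorElement_def, hwt, _root_.mul_inv_rev, mul_assoc v t e, h1]
    group
  rw [ht]
  refine S.mul_mem ⟨hv, hvi⟩ ⟨(Subgroup.mem_normalizer_iff.1 (K.sW.normE he) _).1 (inv_mem hv), ?_⟩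
  have hvi' : K.z * v⁻¹ * K.z⁻¹ = v := by
    rw [show K.z * v⁻¹ * K.z⁻¹ = (K.z * v * K.z⁻¹)⁻¹ by group, hvi, inv_inv]
  set q := K.z⁻¹ * e⁻¹ * K.z * e
  have hqE : q ∈ K.E := mul_mem (mul_mem (mul_mem (inv_mem K.z_mem) (inv_mem he)) K.z_mem) he
  have hq : q ∈ K.Q := by
    rw [← K.sW.ρ_ker q hqE, K.sW.ρ_mul _ (mul_mem (mul_mem (inv_mem K.z_mem) (inv_mem he)) K.z_mem) _ he,
      K.sW.ρ_mul _ (mul_mem (inv_mem K.z_mem) (inv_mem he)) _ K.z_mem,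
      K.sW.ρ_mul _ (inv_mem K.z_mem) _ (inv_mem he), K.sW.ρ_inv K.z_mem, K.sW.ρ_inv he, K.ρW_z]
    simp
  calc K.z * (e * v⁻¹ * e⁻¹) * K.z⁻¹ = e * (K.z * (q * v⁻¹ * q⁻¹) * K.z⁻¹) * e⁻¹ := by
        simp only [q]; group
    _ = e * v * e⁻¹ := by
        rw [show q * v⁻¹ * q⁻¹ = v⁻¹ by rw [K.W_comm hq (inv_mem hv), mul_inv_cancel_right], hvi']
    _ = (e * v⁻¹ * e⁻¹)⁻¹ := by group

theorem WE_inf_Z : K.WE ⊓ K.Z = ⊥ := by
  refine (Subgroup.eq_bot_iff_forall _).2 fun x hx => eq_one_of_sq_of_cube ?_ (K.W_pow (K.WE_le_W hx.1))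
  have h := K.WE_inverted hx.1
  rw [K.z_Z hx.2] at h
  nth_rewrite 2 [h]
  exact mul_inv_cancel x

theorem exists_mul {w : G} (hw : w ∈ K.W) : ∃ v ∈ K.WE, ∃ t ∈ K.Z, v * t = w := by
  have hw' : w ∈ ((K.WE ⊔ K.Z : Subgroup G) : Set G) := by rw [K.WE_sup_Z]; exact hw
  rw [Subgroup.coe_mul_of_left_le_normalizer_right _ _
    (K.WE_le_W.trans (K.W_le_normalizer (K.Z_le_W.trans K.W_le_Q)))] at hw'
  exact hw'

theorem WE_of_inverted {w : G} (hw : w ∈ K.W) (h : K.z * w * K.z⁻¹ = w⁻¹) : w ∈ K.WE := by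
  obtain ⟨v, hv, t, ht, rfl⟩ := K.exists_mul hw
  have hc : t * v = v * t := K.W_comm (K.W_le_Q (K.Z_le_W ht)) (K.WE_le_W hv)
  have h1 : v⁻¹ * t = v⁻¹ * t⁻¹ :=
    calc v⁻¹ * t = (K.z * v * K.z⁻¹) * (K.z * t * K.z⁻¹) := by rw [K.WE_inverted hv, K.z_Z ht]
      _ = K.z * (v * t) * K.z⁻¹ := by group
      _ = (v * t)⁻¹ := h
      _ = v⁻¹ * t⁻¹ := by rw [← hc, _root_.mul_inv_rev]
  have h2 := mul_left_cancel h1
  rw [show t = 1 from eq_one_of_sq_of_cube (by nth_rewrite 2 [h2]; exact mul_inv_cancel t)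
    (K.W_pow (K.Z_le_W ht)), mul_one]
  exact hv

theorem ψW_surj_WE (a : Fin 2 → F) : ∃ v ∈ K.WE, K.sW.ψ v = a := by
  obtain ⟨w, hw, rfl⟩ := K.sW.ψ_surj a
  obtain ⟨v, hv, t, ht, rfl⟩ := K.exists_mul hw
  refine ⟨v, hv, ?_⟩
  rw [K.sW.ψ_mul _ (K.WE_le_W hv) _ (K.Z_le_W ht), (K.sW.ψ_ker t (K.Z_le_W ht)).2 ht, add_zero]

theorem fix_WE_iff {e : G} (he : e ∈ K.E) : (∀ w ∈ K.WE, e * w * e⁻¹ = w) ↔ K.sW.ρ e = 1 := by
  constructor
  · intro h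
    refine Subtype.ext (Matrix.ext_of_mulVec_single fun j => ?_)
    obtain ⟨v, hv, hψ⟩ := K.ψW_surj_WE (Pi.single j 1)
    have h1 := K.sW.ψ_conj e he v (K.WE_le_W hv)
    rw [h v hv, hψ] at h1
    rw [Matrix.SpecialLinearGroup.coe_one, Matrix.one_mulVec]
    exact h1.symm
  · intro h w hw
    rw [K.W_comm ((K.sW.ρ_ker e he).1 h) (K.WE_le_W hw), mul_inv_cancel_right]

/-- `[x, r s] = [x, r] [x, s]`. -/
theorem comm_mul_right {x r s : G} (hx : x ∈ K.Q) (hr : r ∈ K.Q0) (hs : s ∈ K.Q0) :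
    ⁅x, r * s⁆ = ⁅x, r⁆ * ⁅x, s⁆ := by
  have h := K.U_comm hr (K.W_le_U (K.QQ0_le (Subgroup.commutator_mem_commutator hx hs)))
  rw [show ⁅x, r * s⁆ = ⁅x, r⁆ * (r * ⁅x, s⁆ * r⁻¹) by simp [commutatorElement_def, mul_assoc],
    h, mul_inv_cancel_right]

/-- `[x y, r] = [x, r] [y, r]`. -/
theorem comm_mul_left {x y r : G} (hx : x ∈ K.Q) (hy : y ∈ K.Q) (hr : r ∈ K.Q0) :
    ⁅x * y, r⁆ = ⁅x, r⁆ * ⁅y, r⁆ := by
  have hyr := K.QQ0_le (Subgroup.commutator_mem_commutator hy hr)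
  rw [show ⁅x * y, r⁆ = x * ⁅y, r⁆ * x⁻¹ * ⁅x, r⁆ by simp [commutatorElement_def, mul_assoc],
    K.W_comm hx hyr, mul_inv_cancel_right,
    K.W_comm (K.W_le_Q hyr) (K.QQ0_le (Subgroup.commutator_mem_commutator hx hr))]

theorem comm_W {x w : G} (hx : x ∈ K.Q) (hw : w ∈ K.W) : ⁅x, w⁆ = 1 :=
  commutatorElement_eq_one_iff_mul_comm.2 (K.W_comm hx hw)

theorem W_comm_Q0 {w r : G} (hw : w ∈ K.W) (hr : r ∈ K.Q0) : ⁅w, r⁆ = 1 :=
  commutatorElement_eq_one_iff_mul_comm.2 (K.U_comm hr (K.W_le_U hw)).symm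

/-- `C_{O_3(G)}(O_3(E) mod W_E)`. -/
def R : Subgroup G where
  carrier := {r | r ∈ K.Q0 ∧ ∀ x ∈ K.Q, ⁅x, r⁆ ∈ K.WE}
  one_mem' := ⟨one_mem _, fun x _ => by rw [commutatorElement_one_right]; exact one_mem _⟩
  mul_mem' := fun {a b} ha hb => ⟨mul_mem ha.1 hb.1, fun x hx => by
    rw [K.comm_mul_right hx ha.1 hb.1]; exact mul_mem (ha.2 x hx) (hb.2 x hx)⟩
  inv_mem' := fun {a} ha => ⟨inv_mem ha.1, fun x hx => by
    have h := K.comm_mul_right hx ha.1 (inv_mem ha.1)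
    rw [mul_inv_cancel, commutatorElement_one_right] at h
    rw [eq_inv_of_mul_eq_one_right h.symm]
    exact inv_mem (ha.2 x hx)⟩

theorem R_le : K.R ≤ K.Q0 := fun _ h => h.1

theorem W_le_R : K.W ≤ K.R := fun w hw => ⟨K.U_le_Q0 (K.W_le_U hw), fun x hx => by
  rw [K.comm_W hx hw]; exact one_mem _⟩

theorem U_le_R : K.U ≤ K.R := fun u hu => ⟨K.U_le_Q0 hu, fun x hx => by
  rw [commutatorElement_eq_one_iff_mul_comm.2 (K.U_comm (K.hQle hx) hu)]; exact one_mem _⟩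

theorem norm_R : Subgroup.normalizer (K.E : Set G) ≤ Subgroup.normalizer (K.R : Set G) := fun g hg =>
  Subgroup.mem_normalizer_fintype fun r hr =>
    ⟨(Subgroup.mem_normalizer_iff.1 (mem_normalizer_of_normal g) r).1 hr.1, fun x hx => by
      have hx' : g⁻¹ * x * g ∈ K.Q := (Subgroup.mem_normalizer_iff''.1 (K.norm_Q hg) x).1 hx
      have h := (Subgroup.mem_normalizer_iff.1 (K.norm_WE hg) _).1 (hr.2 _ hx')
      convert h using 1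
      simp [commutatorElement_def, mul_assoc]⟩

theorem Q_inf_R : K.Q ⊓ K.R = K.W := by
  refine (K.irredQ (le_inf K.W_le_Q K.W_le_R) inf_le_left fun e he =>
    TwoGroupTricks.normalizer_inf_le ⟨K.sQ.normE he, K.norm_R (Subgroup.le_normalizer he)⟩).resolve_right
    fun h => K.Z_ne_bot ?_
  rw [eq_bot_iff, ← K.WE_inf_Z]
  refine le_inf ?_ le_rfl
  show Replacement.Block.blockZ 3 K.E ≤ K.WE
  rw [← K.hQQ, Subgroup.commutator_le]
  exact fun x hx y hy => (h.ge hy).2.2 x hx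

theorem exists_decomp {r : G} (hr : r ∈ K.Q0) : ∃ q ∈ K.Q, q⁻¹ * r ∈ K.R := by
  have hzN : K.z ∈ Subgroup.normalizer (K.E : Set G) := Subgroup.le_normalizer K.z_mem
  set q₁ := r⁻¹ * K.z * r * K.z⁻¹ with hq₁
  have hq1 : q₁ ∈ K.Q := by
    have h := K.comm_le (Subgroup.commutator_mem_commutator (inv_mem hr) K.z_mem)
    simpa [commutatorElement_def, mul_assoc, q₁] using h
  have hconj : r * (q₁ * q₁) * r⁻¹ ∈ K.Q :=
    (Subgroup.mem_normalizer_iff.1 (K.norm_Q (K.Q0_le_normalizer hr)) _).1 (mul_mem hq1 hq1)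
  refine ⟨(r * (q₁ * q₁) * r⁻¹)⁻¹, inv_mem hconj, ?_⟩
  rw [inv_inv, inv_mul_cancel_right]
  set r' := r * (q₁ * q₁) with hr'
  have hr'Q : r' ∈ K.Q0 := mul_mem hr (mul_mem (K.hQle hq1) (K.hQle hq1))
  refine ⟨hr'Q, fun x hx => ?_⟩
  have hψneg : ∀ q ∈ K.Q, K.sQ.ψ (K.z * q * K.z⁻¹) = -K.sQ.ψ q := fun q hq => by
    rw [K.sQ.ψ_conj _ K.z_mem _ hq, K.ρQ_z]; simp [Matrix.neg_mulVec]
  have hzQ : ∀ q ∈ K.Q, K.z * q * K.z⁻¹ ∈ K.Q := fun q hq =>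
    (Subgroup.mem_normalizer_iff.1 (K.sQ.normE K.z_mem) q).1 hq
  have hw' : r'⁻¹ * (K.z * r' * K.z⁻¹) ∈ K.W := by
    have h1 : r'⁻¹ * (K.z * r' * K.z⁻¹) = (q₁ * q₁)⁻¹ * q₁ * (K.z * (q₁ * q₁) * K.z⁻¹) := by
      simp only [hr', q₁]; group
    have hqq := mul_mem hq1 hq1
    rw [h1, ← K.sQ.ψ_ker _ (mul_mem (mul_mem (inv_mem hqq) hq1) (hzQ _ hqq)),
      K.sQ.ψ_mul _ (mul_mem (inv_mem hqq) hq1) _ (hzQ _ hqq), K.sQ.ψ_mul _ (inv_mem hqq) _ hq1,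
      K.sQ.ψ_inv hqq, hψneg _ hqq, K.sQ.ψ_mul _ hq1 _ hq1]
    funext i
    simp
    linear_combination -(K.sQ.ψ q₁ i) * K.h3
  have hxw : x * (K.z * x * K.z⁻¹) ∈ K.W := by
    rw [← K.sQ.ψ_ker _ (mul_mem hx (hzQ x hx)), K.sQ.ψ_mul _ hx _ (hzQ x hx), hψneg x hx, add_neg_cancel]
  have hxr := K.QQ0_le (Subgroup.commutator_mem_commutator hx hr'Q)
  refine K.WE_of_inverted hxr ?_
  have h2 : K.z * ⁅x, r'⁆ * K.z⁻¹ = ⁅K.z * x * K.z⁻¹, r' * (r'⁻¹ * (K.z * r' * K.z⁻¹))⁆ := by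
    simp [commutatorElement_def, mul_assoc]
  rw [h2, K.comm_mul_right (hzQ x hx) hr'Q (K.U_le_Q0 (K.W_le_U hw')), K.comm_W (hzQ x hx) hw', mul_one]
  refine eq_inv_of_mul_eq_one_right ?_
  rw [← K.comm_mul_left hx (hzQ x hx) hr'Q, K.W_comm_Q0 hxw hr'Q]

open Classical in
/-- The projection of `O_3(G)` on the natural module `O_3(E)/W`. -/
noncomputable def π (r : G) : Fin 2 → F :=
  if h : r ∈ K.Q0 then K.sQ.ψ (K.exists_decomp h).choose else 0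

theorem π_spec {r q : G} (hq : q ∈ K.Q) (hr : q⁻¹ * r ∈ K.R) : K.π r = K.sQ.ψ q := by
  have hrQ : r ∈ K.Q0 := by simpa using mul_mem (K.hQle hq) (K.R_le hr)
  unfold π
  rw [dif_pos hrQ]
  obtain ⟨h1, h2⟩ := (K.exists_decomp hrQ).choose_spec
  rw [K.sQ.ψ_eq_iff h1 hq]
  show _ ∈ K.W
  rw [← K.Q_inf_R]
  refine Subgroup.mem_inf.2 ⟨mul_mem (inv_mem h1) hq, ?_⟩
  simpa [mul_assoc] using mul_mem h2 (inv_mem hr)

theorem π_Q {q : G} (hq : q ∈ K.Q) : K.π q = K.sQ.ψ q :=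
  K.π_spec hq (by rw [inv_mul_cancel]; exact one_mem _)

theorem π_mul {r s : G} (hr : r ∈ K.Q0) (hs : s ∈ K.Q0) : K.π (r * s) = K.π r + K.π s := by
  obtain ⟨q, hq, hqr⟩ := K.exists_decomp hr
  obtain ⟨q', hq', hqs⟩ := K.exists_decomp hs
  rw [K.π_spec hq hqr, K.π_spec hq' hqs, ← K.sQ.ψ_mul _ hq _ hq']
  refine K.π_spec (mul_mem hq hq') ?_
  have h1 : q'⁻¹ * (q⁻¹ * r) * q' ∈ K.R :=
    (Subgroup.mem_normalizer_iff''.1 (K.norm_R (Subgroup.le_normalizer (K.Q_le_E hq'))) _).1 hqr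
  rw [show (q * q')⁻¹ * (r * s) = (q'⁻¹ * (q⁻¹ * r) * q') * (q'⁻¹ * s) by group]
  exact mul_mem h1 hqs

theorem π_ker {r : G} (hr : r ∈ K.Q0) : K.π r = 0 ↔ r ∈ K.R := by
  obtain ⟨q, hq, hqr⟩ := K.exists_decomp hr
  rw [K.π_spec hq hqr, K.sQ.ψ_ker q hq]
  constructor
  · intro h; simpa using mul_mem (K.W_le_R h) hqr
  · intro h
    show q ∈ K.W
    rw [← K.Q_inf_R]
    exact ⟨hq, by simpa using mul_mem h (inv_mem hqr)⟩

theorem π_conj {e r : G} (he : e ∈ K.E) (hr : r ∈ K.Q0) :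
    K.π (e * r * e⁻¹) = (K.sQ.ρ e : Matrix (Fin 2) (Fin 2) F) *ᵥ K.π r := by
  obtain ⟨q, hq, hqr⟩ := K.exists_decomp hr
  rw [K.π_spec hq hqr, ← K.sQ.ψ_conj e he q hq]
  refine K.π_spec ((Subgroup.mem_normalizer_iff.1 (K.sQ.normE he) q).1 hq) ?_
  rw [show (e * q * e⁻¹)⁻¹ * (e * r * e⁻¹) = e * (q⁻¹ * r) * e⁻¹ by group]
  exact (Subgroup.mem_normalizer_iff.1 (K.norm_R (Subgroup.le_normalizer he)) _).1 hqr

theorem E_stab_R : K.E ≤ stab K.R K.U := by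
  refine mem_stab_of_commutator_le (fun e he => K.norm_R (Subgroup.le_normalizer he))
    (fun e _ => mem_normalizer_of_normal e) (le_trans ?_ K.W_le_U)
  rw [← K.Q_inf_R]
  exact le_inf ((Subgroup.commutator_mono K.R_le le_rfl).trans K.comm_le)
    (CoprimeAction.commutator_le_left fun e he => K.norm_R (Subgroup.le_normalizer he))

end Ctx

end CfsgLib.FFModules.BlockCentralizer
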