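import Cfsg.Agent.Lib.FFModules.BlockCentralizer.Quadratic
import Cfsg.Agent.Lib.ThompsonJ.Basic

/-!
No element inverting the module of an exceptional block is trivial on the factors above it.
-/

set_option autoImplicit false

open Matrix
open scoped MatrixGroups commutatorElement

namespace CfsgLib.FFModules.BlockCentralizer

open Cfsg

variable {G : Type*} [Group G] [Finite G]

namespace Ctx

variable {F : Type*} [Field F] [Fintype F] (K : Ctx G F)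
include K

/-- The elements trivial on the three factors of `1 ≤ W_E ≤ U ≤ O_3(G)`. -/
def X0 : Subgroup G := stab K.WE ⊥ ⊓ stab K.U K.WE ⊓ stab K.Q0 K.U

theorem X0_isPGroup : IsPGroup 3 K.X0 := isPGroup_of_centralizes K.hG fun _ hg hcop =>
  stab_trans ((CfsgLib.Cores.isPGroup_pCore 3 G).to_le K.U_le_Q0) K.U_le_Q0 hcop hg.2
    (stab_trans ((CfsgLib.Cores.isPGroup_pCore 3 G).to_le (K.WE_le_U.trans K.U_le_Q0)) K.WE_le_U hcop
      hg.1.2 hg.1.1)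

theorem norm_X0 : Subgroup.normalizer (K.WE : Set G) ≤ Subgroup.normalizer (K.X0 : Set G) := fun x hx =>
  Subgroup.mem_normalizer_fintype fun _ hg =>
    ⟨⟨conj_mem_stab hx (mem_normalizer_of_normal x) hg.1.1,
      conj_mem_stab (mem_normalizer_of_normal x) hx hg.1.2⟩,
      conj_mem_stab (mem_normalizer_of_normal x) (mem_normalizer_of_normal x) hg.2⟩

/-- Whoever fixes `O_3(E)` modulo `W` fixes `Z`. -/
theorem fix_Z {g : G} (h : ∀ q ∈ K.Q, g * q * g⁻¹ ∈ K.Q ∧ q⁻¹ * (g * q * g⁻¹) ∈ K.W) {t : G}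
    (ht : t ∈ K.Z) : g * t * g⁻¹ = t := by
  suffices h1 : K.Z ≤ Subgroup.centralizer {g} by
    rw [← Subgroup.mem_centralizer_singleton_iff.1 (h1 ht), mul_inv_cancel_right]
  refine K.hQQ.ge.trans (Subgroup.commutator_le.2 fun x hx y hy => ?_)
  rw [Subgroup.mem_centralizer_singleton_iff]
  obtain ⟨hx1, hx2⟩ := h x hx
  obtain ⟨hy1, hy2⟩ := h y hy
  have hc : g * ⁅x, y⁆ * g⁻¹ = ⁅x, y⁆ := by
    set a := x⁻¹ * (g * x * g⁻¹)
    set b := y⁻¹ * (g * y * g⁻¹)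
    rw [show g * ⁅x, y⁆ * g⁻¹ = ⁅x * a, y * b⁆ by simp [a, b, commutatorElement_def, mul_assoc],
      K.comm_mul_left hx (K.W_le_Q hx2) (mul_mem (K.hQle hy) (K.hQle (K.W_le_Q hy2))),
      K.W_comm_Q0 hx2 (mul_mem (K.hQle hy) (K.hQle (K.W_le_Q hy2))), mul_one,
      K.comm_mul_right hx (K.hQle hy) (K.hQle (K.W_le_Q hy2)), K.comm_W hx hy2, mul_one]
  exact (mul_inv_eq_iff_eq_mul.1 hc).symm

theorem key {g : G} (hinv : ∀ w ∈ K.WE, g * w * g⁻¹ = w⁻¹) (hU : g ∈ stab K.U K.WE)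
    (hQ0 : g ∈ stab K.Q0 K.U) : False := by
  classical
  have hgWE : g ∈ Subgroup.normalizer (K.WE : Set G) := hU.1.2
  have hgg : g * g ∈ K.X0 := ⟨⟨⟨⟨mul_mem hgWE hgWE, mem_normalizer_of_normal _⟩, fun w hw => by
      rw [show w⁻¹ * (g * g * w * (g * g)⁻¹) = w⁻¹ * (g * (g * w * g⁻¹) * g⁻¹) by group, hinv w hw,
        hinv _ (inv_mem hw), inv_inv, inv_mul_cancel]
      exact one_mem _⟩,
    mul_mem hU hU⟩, mul_mem hQ0 hQ0⟩
  -- we may assume that `g` is an involution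
  obtain ⟨g, hU, hQ0, hinv, hsq⟩ : ∃ g : G, g ∈ stab K.U K.WE ∧ g ∈ stab K.Q0 K.U ∧
      (∀ w ∈ K.WE, g * w * g⁻¹ = w⁻¹) ∧ g * g = 1 := by
    obtain ⟨k, hk⟩ := exists_odd_pow K.X0_isPGroup hgg
    refine ⟨_, pow_mem hU _, pow_mem hQ0 _, fun w hw => ?_, hk⟩
    obtain ⟨j, hj⟩ : ∃ j, 3 ^ k = 2 * j + 1 := (Odd.pow (by decide) : Odd (3 ^ k))
    rw [hj, pow_succ, pow_mul, pow_two, show (g * g) ^ j * g * w * ((g * g) ^ j * g)⁻¹ =
      (g * g) ^ j * (g * w * g⁻¹) * ((g * g) ^ j)⁻¹ by group, hinv w hw,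
      stab_bot (pow_mem hgg j).1.1 (inv_mem hw), mul_inv_cancel_right]
  clear hgg hgWE
  have hgWE : g ∈ Subgroup.normalizer (K.WE : Set G) := hU.1.2
  have hginv : g⁻¹ = g := inv_eq_of_mul_eq_one_right hsq
  -- `g` normalises the Baumann subgroup
  have hBX : K.B ≤ Subgroup.normalizer (K.X0 : Set G) := (K.B_le_normalizer.trans K.norm_WE).trans K.norm_X0
  set P := K.B ⊔ K.X0
  have hP : IsPGroup 3 P := IsPGroup.to_sup_of_normal_right' K.B_isPGroup K.X0_isPGroup hBX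
  have hbg : ∀ b ∈ K.B, g * b * g⁻¹ * b⁻¹ ∈ K.X0 := by
    intro b hb
    have hbW : b ∈ Subgroup.normalizer (K.WE : Set G) := K.norm_WE (K.B_le_normalizer hb)
    rw [hginv, show g * b * g * b⁻¹ = g * (b * g * b⁻¹) by group]
    refine ⟨⟨⟨⟨mul_mem hgWE (mul_mem (mul_mem hbW hgWE) (inv_mem hbW)), mem_normalizer_of_normal _⟩,
      fun w hw => ?_⟩, mul_mem hU (conj_mem_stab (mem_normalizer_of_normal b) hbW hU)⟩,
      mul_mem hQ0 (conj_mem_stab (mem_normalizer_of_normal b) (mem_normalizer_of_normal b) hQ0)⟩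
    rw [show w⁻¹ * (g * (b * g * b⁻¹) * w * (g * (b * g * b⁻¹))⁻¹) =
      w⁻¹ * (g * (b * (g * (b⁻¹ * w * b) * g⁻¹) * b⁻¹) * g⁻¹) by group,
      hinv _ ((Subgroup.mem_normalizer_iff''.1 hbW w).1 hw),
      show b * (b⁻¹ * w * b)⁻¹ * b⁻¹ = w⁻¹ by group, hinv _ (inv_mem hw), inv_inv, inv_mul_cancel]
    exact one_mem _
  have hgP : g ∈ Subgroup.normalizer (P : Set G) := Subgroup.mem_normalizer_fintype fun x hx => by
    have hle : P ≤ P.comap (MulAut.conj g).toMonoidHom := sup_le (fun b hb => by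
        show g * b * g⁻¹ ∈ P
        simpa using mul_mem (Subgroup.mem_sup_right (hbg b hb)) (Subgroup.mem_sup_left hb))
      fun y hy => Subgroup.mem_sup_right ((Subgroup.mem_normalizer_iff.1 (K.norm_X0 hgWE) y).1 hy)
    exact hle hx
  obtain ⟨S, hPS⟩ := hP.exists_le_sylow
  have hBS : K.B ≤ (S : Subgroup G) := le_sup_left.trans hPS
  have hBeq := TwoGroupTricks.baumann_eq_of_le K.T S hBS
  have hJ : thompsonSubgroupOf 3 P = thompsonSubgroupOf 3 (S : Subgroup G) :=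
    ThompsonJ.thompsonSubgroupOf_eq_of_le hPS
      ((TwoGroupTricks.thompsonSubgroupOf_le_baumann _).trans (hBeq.le.trans le_sup_left))
  set ZJ := omegaOne 3 (centerThompsonOf 3 (S : Subgroup G))
  have hBP : P ⊓ Subgroup.centralizer (ZJ : Set G) = K.B := by
    refine le_antisymm ((inf_le_inf_right _ hPS).trans hBeq.le) (le_inf le_sup_left ?_)
    exact hBeq.ge.trans inf_le_right
  have hgB : g ∈ Subgroup.normalizer (K.B : Set G) := by
    rw [← hBP]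
    have hJ' : g ∈ Subgroup.normalizer (thompsonSubgroupOf 3 (S : Subgroup G) : Set G) :=
      hJ ▸ ThompsonJ.normalizer_le_normalizer_thompsonSubgroupOf 3 P hgP
    exact TwoGroupTricks.normalizer_inf_le ⟨hgP, TwoGroupTricks.normalizer_le_normalizer_centralizer' _
      (TwoGroupTricks.normalizer_le_normalizer_omegaOne' _ (TwoGroupTricks.normalizer_inf_le
        ⟨hJ', TwoGroupTricks.normalizer_le_normalizer_centralizer' _ hJ'⟩))⟩
  -- an element of the coset commuting with `g`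
  obtain ⟨b₀, hb₀, hb₀W, hquadQ, hquadW⟩ := K.exists_quadratic
  set D := K.B ⊓ K.X0
  set x := g * b₀ * g⁻¹ * b₀⁻¹
  have hx : x ∈ D :=
    Subgroup.mem_inf.2 ⟨mul_mem ((Subgroup.mem_normalizer_iff.1 hgB b₀).1 hb₀) (inv_mem hb₀), hbg b₀ hb₀⟩
  have hgD : g ∈ Subgroup.normalizer (D : Set G) := TwoGroupTricks.normalizer_inf_le ⟨hgB, K.norm_X0 hgWE⟩
  letI : Fintype D := Fintype.ofFinite D
  let σ : D → D := fun d => ⟨g * d * g⁻¹ * x, mul_mem ((Subgroup.mem_normalizer_iff.1 hgD _).1 d.2) hx⟩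
  have hσ : ∀ d, σ (σ d) = d := fun d => by
    refine Subtype.ext ?_
    show g * (g * d * g⁻¹ * x) * g⁻¹ * x = d
    simp only [x, hginv]
    calc g * (g * (d : G) * g * (g * b₀ * g * b₀⁻¹)) * g * (g * b₀ * g * b₀⁻¹)
        = (g * g) * d * (g * g) * b₀ * g * b₀⁻¹ * (g * g) * b₀ * g * b₀⁻¹ := by group
      _ = (d : G) := by rw [hsq]; simp [mul_assoc, ← mul_assoc g g, hsq]
  let σ' : Equiv.Perm D := ⟨σ, σ, hσ, hσ⟩
  haveI : Fact (Nat.Prime 2) := ⟨Nat.prime_two⟩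
  obtain ⟨d, hd⟩ := Equiv.Perm.exists_fixed_point_of_prime (p := 2) (n := 1) (σ := σ') (by
      obtain ⟨k, hk⟩ := IsPGroup.iff_card.1 (K.X0_isPGroup.to_le (inf_le_right : D ≤ K.X0))
      rw [← Nat.card_eq_fintype_card, hk]
      exact fun h => absurd (Nat.prime_two.dvd_of_dvd_pow h) (by decide))
    (Equiv.ext fun d => hσ d)
  have hd' : g * (d : G) * g⁻¹ * x = d := congrArg Subtype.val hd
  set b := (d : G) * b₀ with hbdef
  have hgb : g * b = b * g := by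
    rw [← mul_inv_eq_iff_eq_mul]
    calc g * b * g⁻¹ = (g * d * g⁻¹ * x) * b₀ := by simp only [x, b]; group
      _ = b := by rw [hd']
  have hbB : b ∈ K.B := mul_mem d.2.1 hb₀
  -- `D` is trivial on both sections, and fixes `W`
  have hDQ : ∀ d ∈ D, ∀ q ∈ K.Q, d * q * d⁻¹ ∈ K.Q ∧ q⁻¹ * (d * q * d⁻¹) ∈ K.W := by
    intro d hd q hq
    have h1 := (Subgroup.mem_normalizer_iff.1 (K.norm_Q (K.B_le_normalizer hd.1)) q).1 hq
    exact ⟨h1, K.U_inf_Q (mul_mem (inv_mem hq) h1) (stab_spec hd.2.2 (K.hQle hq))⟩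
  have hDW : ∀ d ∈ D, ∀ w ∈ K.W, d * w * d⁻¹ = w := by
    intro d hd w hw
    obtain ⟨v, hv, t, ht, rfl⟩ := K.exists_mul hw
    rw [show d * (v * t) * d⁻¹ = (d * v * d⁻¹) * (d * t * d⁻¹) by group, K.fix_Z (hDQ d hd) ht,
      stab_bot hd.2.1.1 hv, mul_inv_cancel_right]
  have hgQ : ∀ q ∈ K.Q, g * q * g⁻¹ ∈ K.Q ∧ ∃ v ∈ K.WE, q⁻¹ * (g * q * g⁻¹) = v := by
    intro q hq
    set u := q⁻¹ * (g * q * g⁻¹) with hu
    have huU : u ∈ K.U := stab_spec hQ0 (K.hQle hq)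
    have h1 : g * u * g⁻¹ = u⁻¹ := by
      simp only [hu, hginv]
      calc g * (q⁻¹ * (g * q * g)) * g = g * q⁻¹ * g * q * (g * g) := by group
        _ = _ := by rw [hsq]; simp [hginv, mul_assoc]
    have h2 := stab_spec hU huU
    rw [h1] at h2
    have huWE : u ∈ K.WE := by
      rwa [show u⁻¹ * u⁻¹ = u by
        rw [← _root_.mul_inv_rev, inv_eq_iff_mul_eq_one, ← pow_two, ← pow_succ, K.U_pow huU]] at h2
    exact ⟨by
      have := mul_mem hq (K.W_le_Q (K.WE_le_W huWE))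
      simpa [hu] using this, u, huWE, rfl⟩
  have hgZ : ∀ t ∈ K.Z, g * t * g⁻¹ = t := fun t ht =>
    K.fix_Z (fun q hq => ⟨(hgQ q hq).1, by obtain ⟨v, hv, h⟩ := (hgQ q hq).2; rw [h]; exact K.WE_le_W hv⟩) ht
  have hgfix : ∀ w ∈ K.W, g * w * g⁻¹ = w → w ∈ K.Z := by
    intro w hw hfix
    obtain ⟨v, hv, t, ht, rfl⟩ := K.exists_mul hw
    rw [show g * (v * t) * g⁻¹ = (g * v * g⁻¹) * (g * t * g⁻¹) by group, hinv v hv, hgZ t ht] at hfix
    rw [show v = 1 from eq_one_of_sq_of_cube (by nth_rewrite 1 [← mul_right_cancel hfix]; exact inv_mul_cancel v)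
      (K.W_pow (K.WE_le_W hv)), one_mul]
    exact ht
  -- `b` acts as `b₀`
  set P₀ := Subgroup.zpowers b₀
  have hP₀B : P₀ ≤ K.B := Subgroup.zpowers_le.2 hb₀
  have hP₀D : P₀ ≤ Subgroup.normalizer (D : Set G) := fun c hc =>
    TwoGroupTricks.normalizer_inf_le ⟨Subgroup.le_normalizer (hP₀B hc), hBX (hP₀B hc)⟩
  have hsplit : ∀ y ∈ Subgroup.zpowers b, ∃ c ∈ P₀, ∃ d ∈ D, c * d = y := by
    intro y hy
    have h1 : Subgroup.zpowers b ≤ P₀ ⊔ D := Subgroup.zpowers_le.2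
      (mul_mem (Subgroup.mem_sup_right d.2) (Subgroup.mem_sup_left (Subgroup.mem_zpowers b₀)))
    have h2 : y ∈ ((P₀ ⊔ D : Subgroup G) : Set G) := h1 hy
    rw [Subgroup.coe_mul_of_left_le_normalizer_right _ _ hP₀D] at h2
    exact h2
  have hgy : ∀ y ∈ Subgroup.zpowers b, g * y = y * g := by
    rintro y ⟨i, rfl⟩
    exact ((show Commute g b from hgb).zpow_right i).eq
  have hcN : ∀ c ∈ P₀, c ∈ Subgroup.normalizer (K.E : Set G) := fun c hc => K.B_le_normalizer (hP₀B hc)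
  have hnW : ∀ {a w : G}, a ∈ Subgroup.normalizer (K.E : Set G) → w ∈ K.W → a * w * a⁻¹ ∈ K.W :=
    fun ha hw => (Subgroup.mem_normalizer_iff.1 (K.norm_W ha) _).1 hw
  -- quadratic on `W`
  have hWy : ∀ w ∈ K.W, ∀ y ∈ Subgroup.zpowers b, ∀ y' ∈ Subgroup.zpowers b, ⁅⁅w, y⁆, y'⁆ ∈ K.Z := by
    intro w hw y hy y' hy'
    obtain ⟨c, hc, e, he, rfl⟩ := hsplit y hy
    obtain ⟨c', hc', e', he', rfl⟩ := hsplit y' hy'
    have hd1 : ∀ {a c e : G}, a ∈ K.W → e ∈ D → ⁅a, c * e⁆ = ⁅a, c⁆ := fun {a c e} ha he => by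
      have : e * a⁻¹ * e⁻¹ = a⁻¹ := hDW e he _ (inv_mem ha)
      calc ⁅a, c * e⁆ = a * c * (e * a⁻¹ * e⁻¹) * c⁻¹ := by simp [commutatorElement_def, mul_assoc]
        _ = ⁅a, c⁆ := by rw [this, commutatorElement_def]
    have hwc : ⁅w, c⁆ ∈ K.W := by
      rw [commutatorElement_def, show w * c * w⁻¹ * c⁻¹ = w * (c * w⁻¹ * c⁻¹) by group]
      exact mul_mem hw (hnW (hcN c hc) (inv_mem hw))
    rw [hd1 hw he, hd1 hwc he']
    exact hquadW (Subgroup.commutator_mem_commutator (Subgroup.commutator_mem_commutator hw hc) hc')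
  refine K.hnq b hbB (fun hbW => hb₀W (Subgroup.mem_centralizer_iff.2 fun w hw => ?_)) ?_
  · have h1 := Subgroup.mem_centralizer_iff.1 hbW w hw
    have h2 : (d : G) * w = w * d := mul_inv_eq_iff_eq_mul.1 (hDW _ d.2 w hw)
    rw [hbdef, ← mul_assoc, ← h2, mul_assoc, mul_assoc] at h1
    exact mul_left_cancel h1
  -- quadratic on `Q/Z`
  let Sq : Subgroup G :=
    { carrier := {q | q ∈ K.Q ∧ ∀ y' ∈ Subgroup.zpowers b, ⁅q, y'⁆ ∈ K.Z}
      one_mem' := ⟨one_mem _, fun y' _ => by rw [commutatorElement_one_left]; exact one_mem _⟩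
      mul_mem' := fun {p r} hp hr => ⟨mul_mem hp.1 hr.1, fun y' hy' => by
        rw [show ⁅p * r, y'⁆ = p * ⁅r, y'⁆ * p⁻¹ * ⁅p, y'⁆ by simp [commutatorElement_def, mul_assoc],
          K.W_comm hp.1 (K.Z_le_W (hr.2 y' hy')), mul_inv_cancel_right]
        exact mul_mem (hr.2 y' hy') (hp.2 y' hy')⟩
      inv_mem' := fun {p} hp => ⟨inv_mem hp.1, fun y' hy' => by
        have h := hp.2 y' hy'
        rw [show ⁅p⁻¹, y'⁆ = p⁻¹ * ⁅p, y'⁆⁻¹ * p by simp [commutatorElement_def, mul_assoc],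
          K.W_comm (inv_mem hp.1) (K.Z_le_W (inv_mem h)), inv_mul_cancel_right]
        exact inv_mem h⟩ }
  suffices hS : ⁅K.Q, Subgroup.zpowers b⁆ ≤ Sq from Subgroup.commutator_le.2 fun q hq y hy => (hS hq).2 y hy
  refine Subgroup.commutator_le.2 fun q hq y hy => ?_
  have hyN : y ∈ Subgroup.normalizer (K.E : Set G) := K.B_le_normalizer (Subgroup.zpowers_le.2 hbB hy)
  have hqy : ⁅q, y⁆ ∈ K.Q := by
    rw [commutatorElement_def, show q * y * q⁻¹ * y⁻¹ = q * (y * q⁻¹ * y⁻¹) by group]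
    exact mul_mem hq ((Subgroup.mem_normalizer_iff.1 (K.norm_Q hyN) _).1 (inv_mem hq))
  refine ⟨hqy, fun y' hy' => ?_⟩
  obtain ⟨hgq, v, hv, hqv⟩ := hgQ q hq
  -- `q = q' v` with `q'` fixed by `g`
  set q' := q * v⁻¹ with hq'def
  have hq' : q' ∈ K.Q := mul_mem hq (inv_mem (K.W_le_Q (K.WE_le_W hv)))
  have hq'g : g * q' * g⁻¹ = q' := by
    rw [hq'def, show g * (q * v⁻¹) * g⁻¹ = q * (q⁻¹ * (g * q * g⁻¹)) * (g * v⁻¹ * g⁻¹) by group, hqv,
      hinv _ (inv_mem hv), inv_inv, mul_assoc]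
    congr 1
    refine eq_inv_of_mul_eq_one_left ?_
    rw [← pow_two, ← pow_succ]; exact K.W_pow (K.WE_le_W hv)
  have hyW : ⁅v, y⁆ ∈ K.W := by
    rw [commutatorElement_def, show v * y * v⁻¹ * y⁻¹ = v * (y * v⁻¹ * y⁻¹) by group]
    exact mul_mem (K.WE_le_W hv) (hnW hyN (inv_mem (K.WE_le_W hv)))
  have e1 : ⁅q, y⁆ = ⁅v, y⁆ * ⁅q', y⁆ := by
    rw [show q = q' * v by simp [hq'def],
      show ⁅q' * v, y⁆ = q' * ⁅v, y⁆ * q'⁻¹ * ⁅q', y⁆ by simp [commutatorElement_def, mul_assoc],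
      K.W_comm hq' hyW, mul_inv_cancel_right]
  have hz1 := hWy v (K.WE_le_W hv) y hy y' hy'
  suffices hz2 : ⁅⁅q', y⁆, y'⁆ ∈ K.Z by
    rw [e1, show ⁅⁅v, y⁆ * ⁅q', y⁆, y'⁆ = ⁅v, y⁆ * ⁅⁅q', y⁆, y'⁆ * ⁅v, y⁆⁻¹ * ⁅⁅v, y⁆, y'⁆ by
      simp [commutatorElement_def, mul_assoc], K.W_comm (K.W_le_Q hyW) (K.Z_le_W hz2), mul_inv_cancel_right]
    exact mul_mem hz2 hz1
  refine hgfix _ ?_ ?_
  · obtain ⟨c, hc, e, he, rfl⟩ := hsplit y hy
    obtain ⟨c', hc', e', he', rfl⟩ := hsplit y' hy'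
    have hd1 : ∀ {p c e : G}, p ∈ K.Q → c ∈ P₀ → e ∈ D → ∃ w ∈ K.W, ⁅p, c * e⁆ = ⁅p, c⁆ * w :=
      fun {p c e} hp hc he => by
        refine ⟨c * ⁅p, e⁆ * c⁻¹, ?_, ?_⟩
        · refine hnW (hcN c hc) ?_
          have := (hDQ e he p⁻¹ (inv_mem hp)).2
          simpa [commutatorElement_def, mul_assoc] using this
        · simp [commutatorElement_def, mul_assoc]
    obtain ⟨w, hw, hqc⟩ := hd1 hq' hc he
    have hqcQ : ⁅q', c⁆ ∈ K.Q := by
      rw [commutatorElement_def, show q' * c * q'⁻¹ * c⁻¹ = q' * (c * q'⁻¹ * c⁻¹) by group]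
      exact mul_mem hq' ((Subgroup.mem_normalizer_iff.1 (K.norm_Q (hcN c hc)) _).1 (inv_mem hq'))
    obtain ⟨w', hw', hqc'⟩ := hd1 (mul_mem hqcQ (K.W_le_Q hw)) hc' he'
    rw [hqc, hqc', show ⁅⁅q', c⁆ * w, c'⁆ = ⁅q', c⁆ * ⁅w, c'⁆ * ⁅q', c⁆⁻¹ * ⁅⁅q', c⁆, c'⁆ by
      simp [commutatorElement_def, mul_assoc]]
    have hwc : ⁅w, c'⁆ ∈ K.W := by
      rw [commutatorElement_def, show w * c' * w⁻¹ * c'⁻¹ = w * (c' * w⁻¹ * c'⁻¹) by group]
      exact mul_mem hw (hnW (hcN c' hc') (inv_mem hw))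
    refine mul_mem (mul_mem ?_ (hquadQ (Subgroup.commutator_mem_commutator
      (Subgroup.commutator_mem_commutator hq' hc) hc'))) hw'
    rw [K.W_comm hqcQ hwc, mul_inv_cancel_right]
    exact hwc
  · have hgc : ∀ y ∈ Subgroup.zpowers b, MulAut.conj g y = y := fun y hy => by
      rw [MulAut.conj_apply, hgy y hy, mul_inv_cancel_right]
    rw [← MulAut.conj_apply, map_commutatorElement, map_commutatorElement, hgc y hy, hgc y' hy',
      MulAut.conj_apply, hq'g]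

end Ctx

end CfsgLib.FFModules.BlockCentralizer
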