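import Cfsg.Agent.Lib.FFModules.BlockCentralizer.Space

/-!
The centralizer of the module of an exceptional block normalises the block.
-/

set_option autoImplicit false
set_option linter.style.haveILetI false

open Matrix
open scoped MatrixGroups commutatorElement

namespace CfsgLib.FFModules.BlockCentralizer

open Cfsg

variable {G : Type*} [Group G] [Finite G]

namespace Ctx

variable {F : Type*} [Field F] [Fintype F] (K : Ctx G F)
include K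

set_option maxHeartbeats 800000 in
/-- The algebra: every `C(W_E)`-conjugate of the block acts on `HQ` modulo `S` as an element of the block. -/
theorem planar_step {c : G} (hc : c ∈ K.C) :
    (∀ x ∈ K.HQ, x ∈ K.R → c * x * c⁻¹ ∈ K.R) ∧ ∀ e ∈ K.E, ∃ e₁ ∈ K.E, ∀ x ∈ K.HQ,
      K.π (c * e * c⁻¹ * x * (c * e * c⁻¹)⁻¹) = (K.sQ.ρ e₁ : Matrix (Fin 2) (Fin 2) F) *ᵥ K.π x := by
  classical
  obtain ⟨Λ, γ, hγW, hγadd, hΛdec, hΛmul, hΛWE, hΛdet⟩ := K.exists_form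
  set M := K.U.subgroupOf K.HQ with hM
  haveI : M.Normal := K.U_normal_in_HQ
  letI : CommGroup (↥K.HQ ⧸ M) := { (inferInstance : Group (↥K.HQ ⧸ M)) with
    mul_comm := fun a b => by
      induction a using QuotientGroup.induction_on
      induction b using QuotientGroup.induction_on
      rename_i a b
      rw [← QuotientGroup.mk_mul, ← QuotientGroup.mk_mul, QuotientGroup.eq]
      show ((a : G) * b)⁻¹ * (b * a) ∈ K.U
      have := K.W_le_U (K.HQ_comm (inv_mem b.2) (inv_mem (K.HQ_le a.2)))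
      simpa [commutatorElement_def, mul_assoc] using this }
  let V := Additive (↥K.HQ ⧸ M)
  let cls : ↥K.HQ → V := fun x => Additive.ofMul (QuotientGroup.mk x)
  have cls_eq : ∀ x y : ↥K.HQ, (x : G)⁻¹ * y ∈ K.U → cls x = cls y := fun x y h =>
    congrArg Additive.ofMul (QuotientGroup.eq.2 h)
  have cls_mul : ∀ x y : ↥K.HQ, cls (x * y) = cls x + cls y := fun x y => rfl
  have cls_surj : ∀ v : V, ∃ x, cls x = v := fun v => by
    obtain ⟨x, hx⟩ := QuotientGroup.mk_surjective (Additive.toMul v)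
    exact ⟨x, by simp [cls, hx]⟩
  -- the action of `C(W_E)`
  let cj : ↥K.C → (↥K.HQ →* ↥K.HQ) := fun d =>
    { toFun := fun x => ⟨d * x * (d : G)⁻¹, (Subgroup.mem_normalizer_iff.1 (K.norm_HQ (Or.inr d.2)) _).1 x.2⟩
      map_one' := Subtype.ext (by simp)
      map_mul' := fun x y => Subtype.ext (by simp [mul_assoc]) }
  let cq : ↥K.C → ((↥K.HQ ⧸ M) →* (↥K.HQ ⧸ M)) := fun d => QuotientGroup.map M M (cj d) fun x hx =>
    (Subgroup.mem_normalizer_iff.1 (mem_normalizer_of_normal (N := K.U) (d : G)) (x : G)).1 hx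
  letI : SMul ↥K.C V := ⟨fun d v => Additive.ofMul (cq d (Additive.toMul v))⟩
  have smul_cls : ∀ (d : ↥K.C) (x : ↥K.HQ), d • cls x = cls (cj d x) := fun d x => rfl
  letI : DistribMulAction ↥K.C V :=
    { one_smul := fun v => by
        obtain ⟨x, rfl⟩ := cls_surj v
        rw [smul_cls]; exact congrArg cls (Subtype.ext (by simp [cj]))
      mul_smul := fun d d' v => by
        obtain ⟨x, rfl⟩ := cls_surj v
        rw [smul_cls, smul_cls, smul_cls]; exact congrArg cls (Subtype.ext (by simp [cj, mul_assoc]))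
      smul_zero := fun d => congrArg Additive.ofMul (map_one (cq d))
      smul_add := fun d u v => congrArg Additive.ofMul (map_mul (cq d) _ _) }
  -- the projection
  let πh : ↥K.HQ →* Multiplicative (Fin 2 → F) :=
    MonoidHom.mk' (fun x => Multiplicative.ofAdd (K.π x)) fun x y => by
      rw [Subgroup.coe_mul, K.π_mul (K.HQ_le x.2) (K.HQ_le y.2)]; rfl
  have hπM : M ≤ πh.ker := fun x hx => by
    rw [MonoidHom.mem_ker]
    show Multiplicative.ofAdd (K.π x) = 1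
    rw [(K.π_ker (K.HQ_le x.2)).2 (K.U_le_R hx)]; rfl
  let πq := QuotientGroup.lift M πh hπM
  let πV : V →+ (Fin 2 → F) := AddMonoidHom.mk' (fun v => Multiplicative.toAdd (πq (Additive.toMul v)))
    fun u v => by rw [toMul_add, map_mul, toAdd_mul]
  have πV_cls : ∀ x : ↥K.HQ, πV (cls x) = K.π x := fun x => rfl
  -- the plane
  choose sec hsec hψ using K.sQ.ψ_surj
  let ιV : (Fin 2 → F) →+ V := AddMonoidHom.mk' (fun u => cls ⟨sec u, K.Q_le_HQ (hsec u)⟩) fun u u' => by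
    rw [← cls_mul]
    refine cls_eq _ _ (K.W_le_U ?_)
    refine (K.sQ.ψ_eq_iff (hsec _) (mul_mem (hsec u) (hsec u'))).1 ?_
    rw [hψ, K.sQ.ψ_mul _ (hsec u) _ (hsec u'), hψ, hψ]
  have ιV_cls : ∀ q (hq : q ∈ K.Q), ιV (K.sQ.ψ q) = cls ⟨q, K.Q_le_HQ hq⟩ := fun q hq => by
    refine cls_eq _ _ (K.W_le_U ?_)
    exact (K.sQ.ψ_eq_iff (hsec _) hq).1 (hψ _)
  -- the form
  have hc2 : ∀ {x y : G}, x ∈ K.HQ → y ∈ K.Q0 → ⁅x, y⁆ ∈ K.W := fun hx hy => K.HQ_comm hx hy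
  have hcl : ∀ {x x' y : G}, x ∈ K.HQ → x' ∈ K.HQ → y ∈ K.HQ → ⁅x * x', y⁆ = ⁅x, y⁆ * ⁅x', y⁆ :=
    fun {x x' y} hx hx' hy => by
      rw [show ⁅x * x', y⁆ = x * ⁅x', y⁆ * x⁻¹ * ⁅x, y⁆ by simp [commutatorElement_def, mul_assoc],
        K.U_comm (K.HQ_le hx) (K.W_le_U (hc2 hx' (K.HQ_le hy))), mul_inv_cancel_right,
        K.W_comm (K.W_le_Q (hc2 hx' (K.HQ_le hy))) (hc2 hx (K.HQ_le hy))]
  have hcr : ∀ {x y y' : G}, x ∈ K.HQ → y ∈ K.HQ → y' ∈ K.HQ → ⁅x, y * y'⁆ = ⁅x, y⁆ * ⁅x, y'⁆ :=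
    fun {x y y'} hx hy hy' => by
      rw [show ⁅x, y * y'⁆ = ⁅x, y⁆ * (y * ⁅x, y'⁆ * y⁻¹) by simp [commutatorElement_def, mul_assoc],
        K.U_comm (K.HQ_le hy) (K.W_le_U (hc2 hx (K.HQ_le hy'))), mul_inv_cancel_right]
  have hcU : ∀ {x u : G}, x ∈ K.HQ → u ∈ K.U → ⁅x, u⁆ = 1 ∧ ⁅u, x⁆ = 1 := fun hx hu =>
    ⟨commutatorElement_eq_one_iff_mul_comm.2 (K.U_comm (K.HQ_le hx) hu),
      commutatorElement_eq_one_iff_mul_comm.2 (K.U_comm (K.HQ_le hx) hu).symm⟩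
  have hwd : ∀ {x x' y y' : ↥K.HQ}, cls x = cls x' → cls y = cls y' → ⁅(x : G), (y : G)⁆ = ⁅(x' : G), (y' : G)⁆ := by
    intro x x' y y' h1 h2
    have a1 : (x : G)⁻¹ * x' ∈ K.U := (QuotientGroup.eq (s := M)).1 (congrArg Additive.toMul h1)
    have a2 : (y : G)⁻¹ * y' ∈ K.U := (QuotientGroup.eq (s := M)).1 (congrArg Additive.toMul h2)
    rw [show (x' : G) = x * ((x : G)⁻¹ * x') by group, show (y' : G) = y * ((y : G)⁻¹ * y') by group,
      hcl x.2 (K.U_le_HQ a1) (mul_mem y.2 (K.U_le_HQ a2)),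
      (hcU (mul_mem y.2 (K.U_le_HQ a2)) a1).2, mul_one, hcr x.2 y.2 (K.U_le_HQ a2), (hcU x.2 a2).1, mul_one]
  let rep : V → ↥K.HQ := fun v => (cls_surj v).choose
  have hrep : ∀ v, cls (rep v) = v := fun v => (cls_surj v).choose_spec
  have βcls : ∀ x y : ↥K.HQ,
      Λ ⁅((rep (cls x) : ↥K.HQ) : G), ((rep (cls y) : ↥K.HQ) : G)⁆ = Λ ⁅(x : G), (y : G)⁆ := fun x y =>
    congrArg Λ (hwd (hrep _) (hrep _))
  let βV : V →+ V →+ F := AddMonoidHom.mk' (fun u => AddMonoidHom.mk'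
      (fun v => Λ ⁅((rep u : ↥K.HQ) : G), ((rep v : ↥K.HQ) : G)⁆) fun v v' => by
        rw [← hΛmul _ (hc2 (rep u).2 (K.HQ_le (rep v).2)) _ (hc2 (rep u).2 (K.HQ_le (rep v').2)),
          ← hcr (rep u).2 (rep v).2 (rep v').2, ← Subgroup.coe_mul]
        exact congrArg Λ (hwd rfl (by rw [hrep, cls_mul, hrep, hrep])))
    fun u u' => AddMonoidHom.ext fun v => by
      show Λ _ = Λ _ + Λ _
      rw [← hΛmul _ (hc2 (rep u).2 (K.HQ_le (rep v).2)) _ (hc2 (rep u').2 (K.HQ_le (rep v).2)),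
        ← hcl (rep u).2 (rep u').2 (rep v).2, ← Subgroup.coe_mul]
      exact congrArg Λ (hwd (by rw [hrep, cls_mul, hrep, hrep]) rfl)
  have β_cls : ∀ x y : ↥K.HQ, βV (cls x) (cls y) = Λ ⁅(x : G), (y : G)⁆ := βcls
  let D : Planar F V :=
    { ι := ιV
      π := πV
      β := βV
      π_ι := fun u => by
        show K.π (sec u) = u
        rw [K.π_Q (hsec u), hψ]
      β_ι := fun u v => by
        obtain ⟨⟨x, hx⟩, rfl⟩ := (⟨rep v, hrep v⟩ : ∃ x, cls x = v)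
        show βV (cls ⟨sec u, _⟩) (cls ⟨x, hx⟩) = det2 u (K.π x)
        rw [β_cls]
        obtain ⟨q, hq, hqx⟩ := K.exists_decomp (K.HQ_le hx)
        rw [K.π_spec hq hqx]
        show Λ ⁅sec u, x⁆ = _
        rw [show ⁅sec u, x⁆ = ⁅sec u, q * (q⁻¹ * x)⁆ by rw [mul_inv_cancel_left]]
        rw [K.comm_mul_right (hsec u) (K.hQle hq) (K.R_le hqx),
          hΛmul _ (K.QQ0_le (Subgroup.commutator_mem_commutator (hsec u) (K.hQle hq))) _
            (K.WE_le_W (hqx.2 _ (hsec u))), hΛWE _ (hqx.2 _ (hsec u)), add_zero, hΛdet _ (hsec u) _ hq, hψ]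
      skew := fun v w => by
        show Λ _ = -Λ _
        rw [eq_neg_iff_add_eq_zero, ← hΛmul _ (hc2 (rep v).2 (K.HQ_le (rep w).2)) _
          (hc2 (rep w).2 (K.HQ_le (rep v).2)), ← commutatorElement_inv, inv_mul_cancel]
        exact hΛWE 1 (one_mem _) }
  have hEhat : ∀ e (he : e ∈ K.E) (x : ↥K.HQ),
      D.hatFun (K.sQ.ρ e) (cls x) = cls ⟨e * x * e⁻¹,
        (Subgroup.mem_normalizer_iff.1 (K.norm_HQ (Or.inl (Subgroup.le_normalizer he))) _).1 x.2⟩ := by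
    intro e he x
    obtain ⟨q, hq, hqx⟩ := K.exists_decomp (K.HQ_le x.2)
    have heq : e * q * e⁻¹ ∈ K.Q := (Subgroup.mem_normalizer_iff.1 (K.sQ.normE he) q).1 hq
    have hs : q⁻¹ * x ∈ K.HQ := mul_mem (inv_mem (K.Q_le_HQ hq)) x.2
    have hses : e * (q⁻¹ * x) * e⁻¹ ∈ K.HQ :=
      (Subgroup.mem_normalizer_iff.1 (K.norm_HQ (Or.inl (Subgroup.le_normalizer he))) _).1 hs
    have h1 : cls ⟨e * (q⁻¹ * x) * e⁻¹, hses⟩ = cls ⟨q⁻¹ * x, hs⟩ :=
      (cls_eq _ _ (stab_spec (K.E_stab_R he) hqx)).symm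
    have hx : cls x = cls ⟨q, K.Q_le_HQ hq⟩ + cls ⟨q⁻¹ * x, hs⟩ := by
      rw [← cls_mul]; exact congrArg cls (Subtype.ext (by simp))
    rw [show (⟨e * x * e⁻¹, _⟩ : ↥K.HQ) = ⟨e * q * e⁻¹, K.Q_le_HQ heq⟩ * ⟨e * (q⁻¹ * x) * e⁻¹, hses⟩ from
      Subtype.ext (by simp), cls_mul, h1, ← ιV_cls _ heq, K.sQ.ψ_conj e he q hq]
    unfold Planar.hatFun
    show cls x + ιV (_ - _) = _
    rw [map_sub]
    show cls x + (ιV (_ *ᵥ K.π x) - ιV (K.π x)) = _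
    rw [K.π_spec hq hqx, ιV_cls q hq, hx]
    abel
  have hnorm : ∀ g ∈ _root_.commutator SL(2, F), ∀ d : ↥K.C, ∃ d' : ↥K.C,
      ∀ v : V, d' • v = D.hatFun g (d • D.hatFun g⁻¹ v) := by
    intro g hg d
    obtain ⟨e, he, rfl⟩ := K.sQ.ρ_surj g hg
    refine ⟨⟨e * d * e⁻¹, (Subgroup.mem_normalizer_iff.1 (TwoGroupTricks.normalizer_le_normalizer_centralizer' _
      (K.norm_WE (Subgroup.le_normalizer he))) _).1 d.2⟩, fun v => ?_⟩
    obtain ⟨x, rfl⟩ := (⟨rep v, hrep v⟩ : ∃ x, cls x = v)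
    rw [← K.sQ.ρ_inv he, hEhat _ (inv_mem he) x, smul_cls, smul_cls, hEhat e he]
    exact congrArg cls (Subtype.ext (by simp [cj, mul_assoc]))
  have hsim : ∀ d : ↥K.C, ∃ τ : F →+ F, ∀ u v : V, D.β (d • u) (d • v) = τ (D.β u v) := by
    intro d
    refine ⟨AddMonoidHom.mk' (fun t => Λ ((d : G) * γ t * (d : G)⁻¹)) fun a b => ?_, fun u v => ?_⟩
    · rw [← hΛmul _ (K.conj_W d.2 (hγW a)) _ (K.conj_W d.2 (hγW b)), hγadd]
      exact congrArg Λ (by group)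
    · obtain ⟨x, rfl⟩ := (⟨rep u, hrep u⟩ : ∃ x, cls x = u)
      obtain ⟨y, rfl⟩ := (⟨rep v, hrep v⟩ : ∃ x, cls x = v)
      show βV (d • cls x) (d • cls y) = Λ ((d : G) * γ (βV (cls x) (cls y)) * (d : G)⁻¹)
      rw [smul_cls, smul_cls, β_cls, β_cls]
      set w := ⁅(x : G), (y : G)⁆ with hwdef
      have hw : w ∈ K.W := hc2 x.2 (K.HQ_le y.2)
      obtain ⟨v, hv, hvw⟩ := hΛdec w hw
      have e1 : ⁅((cj d x : ↥K.HQ) : G), ((cj d y : ↥K.HQ) : G)⁆ = v * ((d : G) * γ (Λ w) * (d : G)⁻¹) := by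
        calc _ = (d : G) * w * (d : G)⁻¹ := by simp [cj, hwdef, commutatorElement_def, mul_assoc]
          _ = ((d : G) * v * (d : G)⁻¹) * ((d : G) * γ (Λ w) * (d : G)⁻¹) := by
            nth_rewrite 1 [← hvw]; group
          _ = _ := by rw [K.C_conj d.2 hv]
      rw [e1, hΛmul _ (K.WE_le_W hv) _ (K.conj_W d.2 (hγW _)), hΛWE v hv, zero_add]
  have horth : ∀ d : ↥K.C, ∃ u, D.π (d • D.ι u) ≠ 0 := by
    intro d
    by_contra! h
    refine K.orth d.2 fun x hx y hy => ?_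
    have h1 := h (K.sQ.ψ y)
    change πV (d • ιV (K.sQ.ψ y)) = 0 at h1
    rw [ιV_cls y hy, smul_cls, πV_cls] at h1
    exact ((K.π_ker (K.HQ_le (cj d _).2)).1 h1).2 x hx
  have hgen : AddSubgroup.closure {v : V | ∃ d : ↥K.C, ∃ u, d • D.ι u = v} = ⊤ := by
    refine (AddSubgroup.eq_top_iff' _).2 fun v => ?_
    obtain ⟨⟨x, hx⟩, rfl⟩ := (⟨rep v, hrep v⟩ : ∃ x, cls x = v)
    have hx' := hx
    induction hx' using Subgroup.closure_induction with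
    | mem y hy =>
      rcases hy with hy | ⟨d, hd, q, hq, rfl⟩
      · rw [show cls ⟨y, hx⟩ = 0 from congrArg Additive.ofMul ((QuotientGroup.eq_one_iff _).2 hy)]
        exact zero_mem _
      · refine AddSubgroup.subset_closure ⟨⟨d, hd⟩, K.sQ.ψ q, ?_⟩
        show _ • ιV _ = _
        rw [ιV_cls q hq, smul_cls]
        rfl
    | one =>
      rw [show (⟨1, hx⟩ : ↥K.HQ) = 1 from rfl]
      exact (AddSubgroup.zero_mem _ : (0 : V) ∈ _)
    | mul a b ha hb iha ihb =>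
      rw [show (⟨a * b, hx⟩ : ↥K.HQ) = ⟨a, ha⟩ * ⟨b, hb⟩ from rfl, cls_mul]
      exact add_mem (iha ha) (ihb hb)
    | inv a ha iha =>
      rw [show cls ⟨a⁻¹, hx⟩ = -cls ⟨a, ha⟩ from rfl]
      exact neg_mem (iha ha)
  obtain ⟨hker, hθ⟩ := planar_main D K.h3 (_root_.commutator SL(2, F) : Set SL(2, F)) (neg_one_mem K.h3)
    (fun g hg => neg_mem_R K.h3 hg) (htr K.h3 K.hcard) (hspan K.h3) hnorm hsim horth hgen ⟨c, hc⟩
  refine ⟨fun x hx hxR => ?_, fun e he => ?_⟩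
  · have h1 := hker (cls ⟨x, hx⟩) (by show πV _ = 0; rw [πV_cls]; exact (K.π_ker (K.HQ_le hx)).2 hxR)
    change πV (_ • cls _) = 0 at h1
    rw [smul_cls, πV_cls] at h1
    exact (K.π_ker (K.HQ_le (cj _ _).2)).1 h1
  · obtain ⟨θ, hθ1, hθ2⟩ := hθ _ (K.sQ.ρ_mem e he)
    obtain ⟨e₁, he₁, rfl⟩ := K.sQ.ρ_surj θ (mem_R_of_hom K.hcard (K.sQ.ρ_mem e he) hθ2)
    refine ⟨e₁, he₁, fun x hx => ?_⟩
    have h1 := hθ1 (cls ⟨x, hx⟩)
    rw [smul_cls, hEhat e he, smul_cls] at h1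
    change K.π _ = _ *ᵥ K.π x at h1
    rw [← h1]
    refine congrArg K.π ?_
    simp [cj, mul_assoc]

end Ctx

end CfsgLib.FFModules.BlockCentralizer
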