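import Cfsg.Agent.Lib.FFModules.BlockCentralizer.Main
import Cfsg.Agent.Lib.Replacement.Block.Exceptional

/-!
The centralizer of the module of a block normalises the block.
-/

set_option autoImplicit false
set_option linter.style.haveILetI false

open Matrix
open scoped MatrixGroups commutatorElement

namespace CfsgLib.FFModules.BlockCentralizer

open Cfsg

variable {G : Type*} [Group G] [Finite G]

/-- An odd power of an element squaring into a stabiliser inverts what the element inverts. -/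
theorem inverts_pow_odd {g w : G} (h : g * w * g⁻¹ = w⁻¹) :
    ∀ j : ℕ, g ^ (2 * j + 1) * w * (g ^ (2 * j + 1))⁻¹ = w⁻¹
  | 0 => by simpa using h
  | j + 1 => by
    have h' : g * w⁻¹ * g⁻¹ = w := by
      calc g * w⁻¹ * g⁻¹ = (g * w * g⁻¹)⁻¹ := by group
        _ = w := by rw [h, inv_inv]
    calc g ^ (2 * (j + 1) + 1) * w * (g ^ (2 * (j + 1) + 1))⁻¹
        = g * (g * (g ^ (2 * j + 1) * w * (g ^ (2 * j + 1))⁻¹) * g⁻¹) * g⁻¹ := by
          rw [show 2 * (j + 1) + 1 = (2 * j + 1) + 1 + 1 by ring, pow_succ', pow_succ']; group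
      _ = g * w * g⁻¹ := by rw [inverts_pow_odd h j, h']
      _ = w⁻¹ := h

namespace Ctx

variable {F : Type*} [Field F] [Fintype F] (K : Ctx G F)
include K

/-- The stabiliser of the factors of `U ≤ S ≤ HQ ≤ O_3(G)` and of `U/W_E`. -/
def X' : Subgroup G := stab K.U K.WE ⊓ stab K.Q0 K.HQ ⊓ stab K.HQ K.S ⊓ stab K.S K.U

theorem X'_trans {g : G} (hg : g ∈ K.X') (hcop : (orderOf g).Coprime 3) : g ∈ stab K.Q0 K.U := by
  have hp : IsPGroup 3 K.HQ := (CfsgLib.Cores.isPGroup_pCore 3 G).to_le K.HQ_le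
  exact stab_trans hp K.HQ_le hcop hg.1.1.2 (stab_trans (hp.to_le K.S_le) K.S_le hcop hg.1.2 hg.2)

theorem not_inverts {g : G} (hg : g ∈ K.X') (h : ∀ w ∈ K.WE, g * w * g⁻¹ = w⁻¹) : False := by
  obtain ⟨e, he⟩ := NormalPComplement.exists_pow_coprime_orderOf (p := 3) (isOfFinOrder_of_finite g)
  obtain ⟨j, hj⟩ : ∃ j, 3 ^ e = 2 * j + 1 := (Odd.pow (by decide) : Odd (3 ^ e))
  have hg' := pow_mem hg (3 ^ e)
  refine K.key (fun w hw => ?_) hg'.1.1.1 (K.X'_trans hg' he)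
  rw [hj]
  exact inverts_pow_odd (h w hw) j

theorem norm_X' : Subgroup.normalizer (K.E : Set G) ≤ Subgroup.normalizer (K.X' : Set G) := fun x hx =>
  Subgroup.mem_normalizer_fintype fun _ hg =>
    ⟨⟨⟨conj_mem_stab (mem_normalizer_of_normal x) (K.norm_WE hx) hg.1.1.1,
      conj_mem_stab (mem_normalizer_of_normal x) (K.norm_HQ (Or.inl hx)) hg.1.1.2⟩,
      conj_mem_stab (K.norm_HQ (Or.inl hx)) (K.norm_S hx) hg.1.2⟩,
      conj_mem_stab (K.norm_S hx) (mem_normalizer_of_normal x) hg.2⟩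

theorem centralizer_le : K.C ≤ Subgroup.normalizer (K.E : Set G) := by
  have hEN : K.E ≤ Subgroup.normalizer (K.WE : Set G) := fun e he => K.norm_WE (Subgroup.le_normalizer he)
  -- `C(W_E)` normalises `S`
  have hCS : ∀ c ∈ K.C, c ∈ Subgroup.normalizer (K.S : Set G) := fun c hc =>
    Subgroup.mem_normalizer_fintype fun x hx =>
      ⟨(Subgroup.mem_normalizer_iff.1 (K.norm_HQ (Or.inr hc)) x).1 hx.1, (K.planar_step hc).1 x hx.1 hx.2⟩
  set X := K.C ⊓ K.X'
  have hX : IsPGroup 3 X := isPGroup_of_centralizes K.hG fun g hg hcop => by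
    have hU3 : IsPGroup 3 K.U := (CfsgLib.Cores.isPGroup_pCore 3 G).to_le K.U_le_Q0
    exact stab_trans hU3 K.U_le_Q0 hcop (K.X'_trans hg.2 hcop)
      (stab_trans (hU3.to_le K.WE_le_U) K.WE_le_U hcop hg.2.1.1.1 (mem_stab_bot hg.1))
  have hNX : Subgroup.normalizer (K.E : Set G) ≤ Subgroup.normalizer (X : Set G) := fun x hx =>
    TwoGroupTricks.normalizer_inf_le
      ⟨TwoGroupTricks.normalizer_le_normalizer_centralizer' _ (K.norm_WE hx), K.norm_X' hx⟩
  intro c hc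
  refine mem_normalizer_of_conj K.T K.E_res K.E_B hX (Subgroup.le_normalizer.trans hNX)
    (K.B_le_normalizer.trans hNX) fun e he => ?_
  -- the other layers
  have hcN : c ∈ Subgroup.normalizer (K.WE : Set G) := Subgroup.centralizer_le_normalizer _ hc
  have hEQ0 : K.E ≤ stab K.Q0 K.HQ :=
    mem_stab_of_commutator_le (fun e _ => mem_normalizer_of_normal e)
      (fun e he => K.norm_HQ (Or.inl (Subgroup.le_normalizer he))) (K.comm_le.trans K.Q_le_HQ)
  have hES : K.E ≤ stab K.S K.U := fun e he =>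
    ⟨⟨K.norm_S (Subgroup.le_normalizer he), mem_normalizer_of_normal e⟩,
      fun a ha => stab_spec (K.E_stab_R he) ha.2⟩
  have layer : ∀ e₁ ∈ K.E, (∀ x ∈ K.HQ, K.π (c * e * c⁻¹ * x * (c * e * c⁻¹)⁻¹) =
      (K.sQ.ρ e₁ : Matrix (Fin 2) (Fin 2) F) *ᵥ K.π x) → c * e * c⁻¹ * e₁⁻¹ ∈ K.X' := by
    intro e₁ he₁ hπ
    have hl : c * e * c⁻¹ * e₁⁻¹ ∈ Subgroup.normalizer (K.HQ : Set G) :=
      mul_mem (mul_mem (mul_mem (K.norm_HQ (Or.inr hc)) (K.norm_HQ (Or.inl (Subgroup.le_normalizer he))))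
        (inv_mem (K.norm_HQ (Or.inr hc)))) (inv_mem (K.norm_HQ (Or.inl (Subgroup.le_normalizer he₁))))
    refine Subgroup.mem_inf.2 ⟨Subgroup.mem_inf.2 ⟨Subgroup.mem_inf.2 ⟨mul_mem (conj_mem_stab (mem_normalizer_of_normal c) hcN (K.E_stab_U he))
          (inv_mem (K.E_stab_U he₁)),
        mul_mem (conj_mem_stab (mem_normalizer_of_normal c) (K.norm_HQ (Or.inr hc)) (hEQ0 he))
          (inv_mem (hEQ0 he₁))⟩,
        ⟨⟨hl, mul_mem (mul_mem (mul_mem (hCS c hc) (K.norm_S (Subgroup.le_normalizer he))) (inv_mem (hCS c hc)))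
          (inv_mem (K.norm_S (Subgroup.le_normalizer he₁)))⟩, fun x hx => ?_⟩⟩,
      mul_mem (conj_mem_stab (hCS c hc) (mem_normalizer_of_normal c) (hES he)) (inv_mem (hES he₁))⟩
    have hy : e₁⁻¹ * x * e₁ ∈ K.HQ :=
      (Subgroup.mem_normalizer_iff''.1 (K.norm_HQ (Or.inl (Subgroup.le_normalizer he₁))) x).1 hx
    have hlx := (Subgroup.mem_normalizer_iff.1 hl x).1 hx
    have hπx : K.π (c * e * c⁻¹ * e₁⁻¹ * x * (c * e * c⁻¹ * e₁⁻¹)⁻¹) = K.π x := by
      rw [show c * e * c⁻¹ * e₁⁻¹ * x * (c * e * c⁻¹ * e₁⁻¹)⁻¹ =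
        c * e * c⁻¹ * (e₁⁻¹ * x * e₁) * (c * e * c⁻¹)⁻¹ by group, hπ _ hy,
        ← K.π_conj he₁ (K.HQ_le hy)]
      exact congrArg K.π (by group)
    refine Subgroup.mem_inf.2 ⟨mul_mem (inv_mem hx) hlx, (K.π_ker (K.HQ_le (mul_mem (inv_mem hx) hlx))).1 ?_⟩
    have h0 : K.π 1 = 0 := (K.π_ker (one_mem _)).2 (one_mem _)
    have hinv : K.π x⁻¹ + K.π x = 0 := by
      rw [← K.π_mul (inv_mem (K.HQ_le hx)) (K.HQ_le hx), inv_mul_cancel, h0]
    rw [K.π_mul (inv_mem (K.HQ_le hx)) (K.HQ_le hlx), hπx, hinv]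
  obtain ⟨e₁, he₁, hπ⟩ := (K.planar_step hc).2 e he
  have hcomm : c * e * c⁻¹ * e⁻¹ ∈ K.C := by
    have he' : e * c⁻¹ * e⁻¹ ∈ K.C :=
      (Subgroup.mem_normalizer_iff.1 (TwoGroupTricks.normalizer_le_normalizer_centralizer' _ (hEN he)) _).1
        (inv_mem hc)
    rw [show c * e * c⁻¹ * e⁻¹ = c * (e * c⁻¹ * e⁻¹) by group]
    exact mul_mem hc he'
  by_cases hρ : K.sQ.ρ e₁ = K.sQ.ρ e
  · exact ⟨hcomm, layer e he (fun x hx => by rw [hπ x hx, hρ])⟩
  exfalso
  -- the elements of the block realised by elements trivial on the layers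
  let N : Subgroup SL(2, F) :=
    { carrier := {r | ∃ f ∈ K.E, K.sW.ρ f = r ∧ ∃ g ∈ K.X', ∀ w ∈ K.WE, g * w * g⁻¹ = f * w * f⁻¹}
      one_mem' := ⟨1, one_mem _, K.sW.ρ_one, 1, one_mem _, fun w _ => rfl⟩
      mul_mem' := by
        rintro a b ⟨f, hf, rfl, g, hg, h⟩ ⟨f', hf', rfl, g', hg', h'⟩
        refine ⟨f * f', mul_mem hf hf', K.sW.ρ_mul _ hf _ hf', g * g', mul_mem hg hg', fun w hw => ?_⟩
        rw [show g * g' * w * (g * g')⁻¹ = g * (g' * w * g'⁻¹) * g⁻¹ by group, h' w hw,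
          h _ ((Subgroup.mem_normalizer_iff.1 (hEN hf') w).1 hw)]
        group
      inv_mem' := by
        rintro a ⟨f, hf, rfl, g, hg, h⟩
        refine ⟨f⁻¹, inv_mem hf, K.sW.ρ_inv hf, g⁻¹, inv_mem hg, fun w hw => ?_⟩
        have h1 := h _ ((Subgroup.mem_normalizer_iff''.1 (hEN hf) w).1 hw)
        rw [show f * (f⁻¹ * w * f) * f⁻¹ = w by group] at h1
        calc g⁻¹ * w * g⁻¹⁻¹ = g⁻¹ * (g * (f⁻¹ * w * f) * g⁻¹) * g⁻¹⁻¹ := by rw [h1]
          _ = f⁻¹ * w * f⁻¹⁻¹ := by group }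
  have hNR : N ≤ _root_.commutator SL(2, F) := by
    rintro r ⟨f, hf, rfl, -⟩; exact K.sW.ρ_mem f hf
  have hNn : ∀ r ∈ _root_.commutator SL(2, F), ∀ n ∈ N, r * n * r⁻¹ ∈ N := by
    rintro r hr n ⟨f, hf, rfl, g, hg, h⟩
    obtain ⟨x, hx, rfl⟩ := K.sW.ρ_surj r hr
    refine ⟨x * f * x⁻¹, mul_mem (mul_mem hx hf) (inv_mem hx), ?_, x * g * x⁻¹,
      (Subgroup.mem_normalizer_iff.1 (K.norm_X' (Subgroup.le_normalizer hx)) g).1 hg, fun w hw => ?_⟩
    · rw [K.sW.ρ_mul _ (mul_mem hx hf) _ (inv_mem hx), K.sW.ρ_mul _ hx _ hf, K.sW.ρ_inv hx]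
    · rw [show x * g * x⁻¹ * w * (x * g * x⁻¹)⁻¹ = x * (g * (x⁻¹ * w * x) * g⁻¹) * x⁻¹ by group,
        h _ ((Subgroup.mem_normalizer_iff''.1 (hEN hx) w).1 hw)]
      group
  have hmem : K.sW.ρ (e * e₁⁻¹) ∈ N := by
    refine ⟨e * e₁⁻¹, mul_mem he (inv_mem he₁), rfl, c * e * c⁻¹ * e₁⁻¹, layer e₁ he₁ hπ, fun w hw => ?_⟩
    have w1 : e₁⁻¹ * w * e₁ ∈ K.WE := (Subgroup.mem_normalizer_iff''.1 (hEN he₁) w).1 hw
    calc _ = c * (e * (c⁻¹ * (e₁⁻¹ * w * e₁) * c⁻¹⁻¹) * e⁻¹) * c⁻¹ := by group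
      _ = e * e₁⁻¹ * w * (e * e₁⁻¹)⁻¹ := by
        rw [K.C_conj (inv_mem hc) w1, K.C_conj hc ((Subgroup.mem_normalizer_iff.1 (hEN he) _).1 w1)]
        group
  have hne : N ≠ ⊥ := fun h => by
    rw [h, Subgroup.mem_bot, ← K.ρQ_eq_one (mul_mem he (inv_mem he₁)), K.sQ.ρ_mul _ he _ (inv_mem he₁),
      K.sQ.ρ_inv he₁, mul_inv_eq_one] at hmem
    exact hρ hmem.symm
  obtain ⟨f, hf, hρf, g, hg, h⟩ := neg_one_mem_of_normal K.h3 K.hcard hNR hNn hne
  exact K.not_inverts hg fun w hw => by rw [h w hw, K.conj_inverts hf hρf hw]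

end Ctx

/-- The centralizer of the module of a block normalises the block. -/
theorem centralizer_le_normalizer {p : ℕ} [Fact p.Prime]
    (hG : Subgroup.centralizer (pCore p G : Set G) ≤ pCore p G) (T : Sylow p G) {E : Subgroup G}
    (hE : IsBaumannBlock p (T : Subgroup G) E) :
    Subgroup.centralizer ((⁅omegaOneCenter p (pCoreOf p E), E⁆ : Subgroup G) : Set G) ≤
      Subgroup.normalizer (E : Set G) := by
  classical
  have hPE := TwoGroupTricks.pCore_le_normalizer_block T hE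
  have hB := TwoGroupTricks.le_normalizer_of_commutator_eq hE.2.1
  have hsec := TwoGroupTricks.irreducibleSection_of_block hE
  have hWE : ∀ g ∈ Subgroup.normalizer (E : Set G),
      g ∈ Subgroup.normalizer ((⁅omegaOneCenter p (pCoreOf p E), E⁆ : Subgroup G) : Set G) := fun g hg =>
    TwoGroupTricks.normalizer_le_normalizer_commutator_left hg
      (((Cores.normalizer_le_normalizer_map_subtype E (pCore p E)).trans
        (TwoGroupTricks.normalizer_le_normalizer_omegaOneCenter _)) hg)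
  have hQ0N : E ≤ Subgroup.normalizer (pCore p G : Set G) := fun e _ => mem_normalizer_of_normal e
  have hcomm : ⁅pCore p G, E⁆ ≤ pCore p G ⊓ pCoreOf p E := le_inf (CoprimeAction.commutator_le_left hQ0N)
    (le_trans (le_inf (CoprimeAction.commutator_le_left hQ0N)
      (by rw [Subgroup.commutator_comm]; exact CoprimeAction.commutator_le_left hPE))
      (TwoGroupTricks.inf_le_pCoreOf (CfsgLib.Cores.isPGroup_pCore p G) hQ0N))
  -- the block centralizing `O_p(G)/W_E`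
  have easy : ⁅pCore p G, E⁆ ≤ omegaOneCenter p (pCoreOf p E) →
      Subgroup.centralizer ((⁅omegaOneCenter p (pCoreOf p E), E⁆ : Subgroup G) : Set G) ≤
        Subgroup.normalizer (E : Set G) := by
    intro h0
    set WE := ⁅omegaOneCenter p (pCoreOf p E), E⁆
    have hE1 : E ≤ stab (pCore p G) WE := mem_stab_of_commutator_le hQ0N
      (fun e he => hWE e (Subgroup.le_normalizer he))
      (Replacement.Block.commutator_le_of_commutator_commutator hE.1 (CfsgLib.Cores.isPGroup_pCore p G) hQ0N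
        (fun e he => hWE e (Subgroup.le_normalizer he)) (Subgroup.commutator_mono h0 le_rfl))
    have hWEle : WE ≤ pCore p G := (TwoGroupTricks.commutator_le_omegaOneCenter_pCore hG T hE).trans
      ((TwoGroupTricks.omegaOneCenter_le _).trans inf_le_left)
    set X := Subgroup.centralizer (WE : Set G) ⊓ stab (pCore p G) WE
    have hX : IsPGroup p X := isPGroup_of_centralizes hG fun g hg hcop =>
      stab_trans ((CfsgLib.Cores.isPGroup_pCore p G).to_le hWEle) hWEle hcop hg.2 (mem_stab_bot hg.1)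
    have hNX : Subgroup.normalizer (E : Set G) ≤ Subgroup.normalizer (X : Set G) := fun x hx =>
      TwoGroupTricks.normalizer_inf_le ⟨TwoGroupTricks.normalizer_le_normalizer_centralizer' _ (hWE x hx),
        normalizer_le_normalizer_stab _ _ ⟨mem_normalizer_of_normal x, hWE x hx⟩⟩
    intro c hc
    refine mem_normalizer_of_conj T hE.1 hE.2.1 hX (Subgroup.le_normalizer.trans hNX) (hB.trans hNX) fun e he => Subgroup.mem_inf.2 ⟨?_, ?_⟩
    · rw [show c * e * c⁻¹ * e⁻¹ = c * (e * c⁻¹ * e⁻¹) by group]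
      exact mul_mem hc ((Subgroup.mem_normalizer_iff.1 (TwoGroupTricks.normalizer_le_normalizer_centralizer' _
        (hWE e (Subgroup.le_normalizer he))) _).1 (inv_mem hc))
    · exact mul_mem (conj_mem_stab (mem_normalizer_of_normal c) (Subgroup.centralizer_le_normalizer _ hc) (hE1 he))
        (inv_mem (hE1 he))
  rcases hE.2.2.2.2 with ⟨F, iF, iFt, n, hF, ⟨φ⟩, hactW, hd⟩ | ⟨-, m, -, -, hq⟩
  · rcases hd with hq | ⟨rfl, hactQ, hQQ, -, hZE, hZcard, hnq⟩
    · exact easy (hcomm.trans (inf_le_right.trans hq.le))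
    have hW : omegaOneCenter 3 (pCoreOf 3 E) ≤ pCoreOf 3 E :=
      (TwoGroupTricks.omegaOneCenter_le _).trans inf_le_left
    have htrivW : ∀ q ∈ pCoreOf 3 E, ∀ v ∈ omegaOneCenter 3 (pCoreOf 3 E),
        q * v * q⁻¹ * v⁻¹ ∈ omegaOneCenter 3 (pCoreOf 3 E) ⊓ Subgroup.centralizer (E : Set G) := fun q hq v hv => by
      rw [(TwoGroupTricks.omegaOneCenter_le _ hv).2 q hq, mul_inv_cancel_right, mul_inv_cancel]
      exact one_mem _
    have htrivQ : ∀ q ∈ pCoreOf 3 E, ∀ v ∈ pCoreOf 3 E, q * v * q⁻¹ * v⁻¹ ∈ omegaOneCenter 3 (pCoreOf 3 E) :=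
      fun q hq v hv => by
        have h := hQQ.le (Subgroup.commutator_mem_commutator hq hv)
        rw [commutatorElement_def] at h
        exact h.1
    obtain ⟨sW⟩ := natSec_of_acts φ hactW htrivW
    obtain ⟨sQ⟩ := natSec_of_acts φ hactQ htrivQ
    -- `⁅O_3(G), E⁆` lies in `W`, or `O_3(E)` lies in `O_3(G)`
    set W := omegaOneCenter 3 (pCoreOf 3 E)
    set Y := ⁅pCore 3 G, E⁆ ⊔ W
    have hEW : E ≤ Subgroup.normalizer (W : Set G) := hsec.normalizes
    have hsecQ : TwoGroupTricks.IrreducibleSection E (pCoreOf 3 E) W := by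
      refine TwoGroupTricks.irreducibleSection_of_hom sQ.normE hW
        (MonoidHom.mk' (fun v : pCoreOf 3 E => Multiplicative.ofAdd (sQ.ψ v))
          (fun u v => by rw [Subgroup.coe_mul, sQ.ψ_mul _ u.2 _ v.2]; rfl))
        (fun u => (Multiplicative.ofAdd.apply_eq_iff_eq).trans (sQ.ψ_ker _ u.2))
        (fun e a => (sQ.ρ e : Matrix (Fin 2) (Fin 2) F) *ᵥ a)
        (fun e u => ⟨⟨(e : G) * u * (e : G)⁻¹, (Subgroup.mem_normalizer_iff.1 (sQ.normE e.2) _).1 u.2⟩, rfl,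
          sQ.ψ_conj _ e.2 _ u.2⟩) (fun S _ hS => ?_) ?_
      · rcases TwoGroupTricks.NaturalModules.eq_bot_or_eq_top (S := S) (fun g hg v hv => by
            obtain ⟨e, he, rfl⟩ := sQ.ρ_surj g hg
            exact hS ⟨e, he⟩ v hv) with h | h
        · exact Or.inl fun a ha => by simpa [h] using ha
        · exact Or.inr fun u => h ▸ AddSubgroup.mem_top _
      · obtain ⟨g, hg, hgne⟩ := TwoGroupTricks.NaturalModules.exists_moved (F := F)
        obtain ⟨e, he, rfl⟩ := sQ.ρ_surj g hg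
        obtain ⟨v, hv, hψ⟩ := sQ.ψ_surj ![1, 0]
        exact ⟨⟨e, he⟩, ⟨v, hv⟩, by simpa [hψ] using hgne⟩
    rcases hsecQ.irred Y le_sup_right (sup_le (hcomm.trans inf_le_right) hW)
      (fun e he => Replacement.Block.inf_normalizer_le_sup _ _
        ⟨(le_sup_right.trans (CoprimeAction.sup_le_normalizer_commutator E (pCore 3 G))) he, hEW he⟩) with h | h
    · exact easy (le_sup_left.trans h.le)
    have hWEle : ⁅W, E⁆ ≤ pCore 3 G := (TwoGroupTricks.commutator_le_omegaOneCenter_pCore hG T hE).trans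
      ((TwoGroupTricks.omegaOneCenter_le _).trans inf_le_left)
    have hYN : ⁅pCore 3 G, E⁆ ≤ Subgroup.normalizer (W : Set G) := fun x hx =>
      ((Cores.normalizer_le_normalizer_map_subtype E (pCore 3 E)).trans
        (TwoGroupTricks.normalizer_le_normalizer_omegaOneCenter _)) (hPE (hcomm hx).1)
    have hZle : W ⊓ Subgroup.centralizer (E : Set G) ≤ pCore 3 G := by
      refine hQQ.ge.trans (Subgroup.commutator_le.2 fun a ha b hb => ?_)
      have ha' : a ∈ ((⁅pCore 3 G, E⁆ ⊔ W : Subgroup G) : Set G) := h.ge ha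
      rw [Subgroup.coe_mul_of_left_le_normalizer_right _ _ hYN] at ha'
      have hb' : b ∈ ((⁅pCore 3 G, E⁆ ⊔ W : Subgroup G) : Set G) := h.ge hb
      rw [Subgroup.coe_mul_of_left_le_normalizer_right _ _ hYN] at hb'
      obtain ⟨a₁, ha₁, w, hw, rfl⟩ := ha'
      obtain ⟨b₁, hb₁, w', hw', rfl⟩ := hb'
      have hcw : ∀ {x y : G}, x ∈ pCoreOf 3 E → y ∈ W → x * y = y * x := fun hx hy =>
        (TwoGroupTricks.omegaOneCenter_le _ hy).2 _ hx
      rw [Replacement.Block.commutatorElement_mul_central (hcw (hcomm hb₁).2 hw).symm (hcw (hW hw') hw).symm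
        (hcw (hcomm ha₁).2 hw').symm]
      have ha₀ := (Subgroup.mem_inf.1 (hcomm ha₁)).1
      have hb₀ := (Subgroup.mem_inf.1 (hcomm hb₁)).1
      have := mul_mem (mul_mem (mul_mem ha₀ hb₀) (inv_mem ha₀)) (inv_mem hb₀)
      rwa [← commutatorElement_def] at this
    have hQle : pCoreOf 3 E ≤ pCore 3 G := by
      rw [← h]
      refine sup_le (CoprimeAction.commutator_le_left hQ0N) ?_
      rw [← show ⁅W, E⁆ ⊔ (W ⊓ Subgroup.centralizer (E : Set G)) = W from
        (TwoGroupTricks.block_module_facts hE).2.2.2]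
      exact sup_le hWEle hZle
    have hn : n ≠ 0 := fun h => by
      rw [h, pow_zero] at hF
      exact Fintype.one_lt_card.ne' hF
    exact (Ctx.centralizer_le
      { hG := hG, T := T, E := E, hE := hE, hQle := hQle, n := n, hF := hF, hn := hn, sW := sW, sQ := sQ
        hQQ := hQQ, hZE := hZE, hZcard := by rw [hZE] at hZcard; exact hZcard
        hnq := fun b hb hbW hle => hnq b hb hbW (hle.trans hZE.ge) })
  · exact easy (hcomm.trans (inf_le_right.trans hq.le))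

end CfsgLib.FFModules.BlockCentralizer
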