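import Cfsg.Agent.Lib.FFModules.BlockCentralizer.Key

/-!
No conjugate of the core of an exceptional block under `C(W_E)` is orthogonal to it, and `C(W_E)` normalises `W`.
-/

set_option autoImplicit false

open Matrix
open scoped MatrixGroups commutatorElement

namespace CfsgLib.FFModules.BlockCentralizer

open Cfsg

variable {G : Type*} [Group G] [Finite G]

namespace Ctx

variable {F : Type*} [Field F] [Fintype F] (K : Ctx G F)
include K

theorem C_conj {c w : G} (hc : c ∈ K.C) (hw : w ∈ K.WE) : c * w * c⁻¹ = w := by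
  rw [← Subgroup.mem_centralizer_iff.1 hc w hw, mul_inv_cancel_right]

theorem conj_inverts {e : G} (he : e ∈ K.E) (h : K.sW.ρ e = -1) {w : G} (hw : w ∈ K.WE) :
    e * w * e⁻¹ = w⁻¹ := by
  have h1 : K.sW.ρ (K.z⁻¹ * e) = 1 := by
    rw [K.sW.ρ_mul _ (inv_mem K.z_mem) _ he, K.sW.ρ_inv K.z_mem, K.ρW_z, h, inv_mul_cancel]
  have h2 := (K.fix_WE_iff (mul_mem (inv_mem K.z_mem) he)).2 h1 w hw
  calc e * w * e⁻¹ = K.z * ((K.z⁻¹ * e) * w * (K.z⁻¹ * e)⁻¹) * K.z⁻¹ := by group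
    _ = w⁻¹ := by rw [h2, K.WE_inverted hw]

theorem orth {c : G} (hc : c ∈ K.C) (h : ∀ x ∈ K.Q, ∀ y ∈ K.Q, ⁅x, c * y * c⁻¹⁆ ∈ K.WE) : False := by
  obtain ⟨e, he, hρe⟩ := K.sW.ρ_surj _ (sI_mem K.h3)
  obtain ⟨f, hf, hρf⟩ := K.sW.ρ_surj _ (sJ_mem K.h3)
  set f' := c * f * c⁻¹ with hf'def
  have hcWE : c ∈ Subgroup.normalizer (K.WE : Set G) := Subgroup.centralizer_le_normalizer _ hc
  have heU : e ∈ stab K.U K.WE := K.E_stab_U he
  have hfU : f' ∈ stab K.U K.WE := conj_mem_stab (mem_normalizer_of_normal c) hcWE (K.E_stab_U hf)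
  have hU : ∀ {a b : G}, a ∈ K.U → b * a * b⁻¹ ∈ K.U := fun ha =>
    (Subgroup.mem_normalizer_iff.1 (mem_normalizer_of_normal _) _).1 ha
  have hQ0 : ∀ {a b : G}, a ∈ K.Q0 → b * a * b⁻¹ ∈ K.Q0 := fun ha =>
    (Subgroup.mem_normalizer_iff.1 (mem_normalizer_of_normal _) _).1 ha
  have hEQ : ∀ x ∈ K.E, ∀ r ∈ K.Q0, r⁻¹ * (x * r * x⁻¹) ∈ K.Q := fun x hx r hr => by
    simpa [commutatorElement_def, mul_assoc] using K.comm_le (Subgroup.commutator_mem_commutator (inv_mem hr) hx)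
  have hdiff : ∀ r ∈ K.Q0, (f' * e * r * (f' * e)⁻¹)⁻¹ * (e * f' * r * (e * f')⁻¹) ∈ K.U := by
    intro r hr
    set a := r⁻¹ * (e * r * e⁻¹) with ha
    have haQ : a ∈ K.Q := hEQ e he r hr
    have hr' : c⁻¹ * r * c ∈ K.Q0 := by simpa using hQ0 (b := c⁻¹) hr
    set y := (c⁻¹ * r * c)⁻¹ * (f * (c⁻¹ * r * c) * f⁻¹) with hy
    have hyQ : y ∈ K.Q := hEQ f hf _ hr'
    set b := r⁻¹ * (f' * r * f'⁻¹) with hb
    have hbdef : b = c * y * c⁻¹ := by simp only [b, y, hf'def]; group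
    have hbR : b ∈ K.R := ⟨hbdef ▸ hQ0 (K.hQle hyQ), fun x hx => hbdef ▸ h x hx y hyQ⟩
    have haR : c⁻¹ * a * c ∈ K.R := ⟨by simpa using hQ0 (b := c⁻¹) (K.hQle haQ), fun x hx => by
      have h1 := inv_mem (h a haQ x hx)
      rw [commutatorElement_inv] at h1
      have h2 := (Subgroup.mem_normalizer_iff''.1 hcWE _).1 h1
      convert h2 using 1
      simp [commutatorElement_def, mul_assoc]⟩
    -- the two perturbations
    have u2 : b⁻¹ * (e * b * e⁻¹) ∈ K.U := stab_spec (K.E_stab_R he) hbR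
    have u1 : a⁻¹ * (f' * a * f'⁻¹) ∈ K.U := by
      have h1 := hU (b := c) (stab_spec (K.E_stab_R hf) haR)
      convert h1 using 1
      simp only [hf'def]; group
    have hab : a⁻¹ * b⁻¹ * a * b ∈ K.U := by
      have h1 := h a⁻¹ (inv_mem haQ) y⁻¹ (inv_mem hyQ)
      rw [show c * y⁻¹ * c⁻¹ = b⁻¹ by rw [hbdef]; group] at h1
      have h2 := K.WE_le_U h1
      simpa [commutatorElement_def, mul_assoc] using h2
    rw [show (f' * e * r * (f' * e)⁻¹)⁻¹ * (e * f' * r * (e * f')⁻¹) =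
      (a⁻¹ * (f' * a * f'⁻¹))⁻¹ * ((a⁻¹ * b⁻¹ * a * b) * (b⁻¹ * (e * b * e⁻¹))) by
      simp only [a, b]; group]
    exact mul_mem (inv_mem u1) (mul_mem hab u2)
  set g := e * f' * e⁻¹ * f'⁻¹
  have hgU : g ∈ stab K.U K.WE := mul_mem (mul_mem (mul_mem heU hfU) (inv_mem heU)) (inv_mem hfU)
  have hgQ : g ∈ stab K.Q0 K.U := by
    refine ⟨⟨mem_normalizer_of_normal g, mem_normalizer_of_normal g⟩, fun r hr => ?_⟩
    have hr' : (f' * e)⁻¹ * r * (f' * e) ∈ K.Q0 := by simpa using hQ0 (b := (f' * e)⁻¹) hr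
    have h1 := hdiff _ hr'
    convert h1 using 1
    simp only [g]; group
  refine K.key (fun w hw => ?_) hgU hgQ
  have hEW : ∀ x ∈ K.E, ∀ v ∈ K.WE, x * v * x⁻¹ ∈ K.WE := fun x hx v hv =>
    (Subgroup.mem_normalizer_iff.1 (K.norm_WE (Subgroup.le_normalizer hx)) v).1 hv
  have hf'act : ∀ x ∈ K.E, ∀ v ∈ K.WE, (c * x * c⁻¹) * v * (c * x * c⁻¹)⁻¹ = x * v * x⁻¹ := fun x hx v hv => by
    calc _ = c * (x * (c⁻¹ * v * c) * x⁻¹) * c⁻¹ := by group
      _ = _ := by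
        rw [show c⁻¹ * v * c = v by simpa using K.C_conj (inv_mem hc) hv, K.C_conj hc (hEW x hx v hv)]
  have h1 : g * w * g⁻¹ = ⁅e, f⁆ * w * ⁅e, f⁆⁻¹ := by
    have hfi : f'⁻¹ = c * f⁻¹ * c⁻¹ := by simp only [hf'def]; group
    have w1 : f⁻¹ * w * f ∈ K.WE := by simpa using hEW _ (inv_mem hf) w hw
    have w2 : e⁻¹ * (f⁻¹ * w * f) * e ∈ K.WE := by simpa using hEW _ (inv_mem he) _ w1
    calc g * w * g⁻¹ = e * (f' * (e⁻¹ * (f'⁻¹ * w * f'⁻¹⁻¹) * e) * f'⁻¹) * e⁻¹ := by simp only [g]; group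
      _ = e * (f' * (e⁻¹ * (f⁻¹ * w * f) * e) * f'⁻¹) * e⁻¹ := by
        rw [hfi, hf'act _ (inv_mem hf) w hw, inv_inv]
      _ = e * (f * (e⁻¹ * (f⁻¹ * w * f) * e) * f⁻¹) * e⁻¹ := by rw [hf'def, hf'act f hf _ w2]
      _ = _ := by rw [commutatorElement_def]; group
  rw [h1]
  have hef : e * f ∈ K.E := mul_mem he hf
  have hcomE : ⁅e, f⁆ ∈ K.E := by
    rw [commutatorElement_def]; exact mul_mem (mul_mem hef (inv_mem he)) (inv_mem hf)
  refine K.conj_inverts hcomE ?_ hw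
  rw [commutatorElement_def, K.sW.ρ_mul _ (mul_mem hef (inv_mem he)) _ (inv_mem hf),
    K.sW.ρ_mul _ hef _ (inv_mem he), K.sW.ρ_mul _ he _ hf, K.sW.ρ_inv he, K.sW.ρ_inv hf, hρe, hρf,
    ← commutatorElement_def, commutator_sI_sJ K.h3]

theorem conj_W {c w : G} (hc : c ∈ K.C) (hw : w ∈ K.W) : c * w * c⁻¹ ∈ K.W := by
  have key : ∀ c ∈ K.C, K.W ≤ K.W.comap (MulAut.conj c⁻¹).toMonoidHom := by
    intro c hc
    by_contra hne
    set Y := K.W ⊓ K.W.comap (MulAut.conj c⁻¹).toMonoidHom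
    have hWEY : K.WE ≤ Y := le_inf K.WE_le_W fun v hv => by
      show c⁻¹ * v * c⁻¹⁻¹ ∈ K.W
      rw [K.C_conj (inv_mem hc) hv]
      exact K.WE_le_W hv
    have hEY : ∀ e ∈ K.E, ∀ v ∈ Y, e * v * e⁻¹ ∈ Y := fun e he v hv => by
      have h1 : v⁻¹ * (e * v * e⁻¹) ∈ K.WE := by
        have := Subgroup.commutator_mem_commutator (inv_mem hv.1 : v⁻¹ ∈ K.W) he
        simpa [commutatorElement_def, mul_assoc] using this
      simpa using mul_mem hv (hWEY h1)
    let RY : Subgroup G :=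
      { carrier := {x | x ∈ K.Q ∧ ∀ y ∈ K.Q, ⁅y, x⁆ ∈ Y}
        one_mem' := ⟨one_mem _, fun y _ => by rw [commutatorElement_one_right]; exact one_mem _⟩
        mul_mem' := fun {a b} ha hb => ⟨mul_mem ha.1 hb.1, fun y hy => by
          rw [K.comm_mul_right hy (K.hQle ha.1) (K.hQle hb.1)]; exact mul_mem (ha.2 y hy) (hb.2 y hy)⟩
        inv_mem' := fun {a} ha => ⟨inv_mem ha.1, fun y hy => by
          have h := K.comm_mul_right hy (K.hQle ha.1) (inv_mem (K.hQle ha.1))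
          rw [mul_inv_cancel, commutatorElement_one_right] at h
          rw [eq_inv_of_mul_eq_one_right h.symm]
          exact inv_mem (ha.2 y hy)⟩ }
    have hWR : K.W ≤ RY := fun v hv => ⟨K.W_le_Q hv, fun y hy => by rw [K.comm_W hy hv]; exact one_mem _⟩
    have hER : K.E ≤ Subgroup.normalizer (RY : Set G) := fun e he => Subgroup.mem_normalizer_fintype fun x hx =>
      ⟨(Subgroup.mem_normalizer_iff.1 (K.sQ.normE he) x).1 hx.1, fun y hy => by
        have hy' : e⁻¹ * y * e ∈ K.Q := (Subgroup.mem_normalizer_iff''.1 (K.sQ.normE he) y).1 hy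
        convert hEY e he _ (hx.2 _ hy') using 1
        simp [commutatorElement_def, mul_assoc]⟩
    rcases K.irredQ hWR (fun x hx => hx.1) hER with hR | hR
    · refine K.orth hc fun x hx y hy => ?_
      have hr : c * y * c⁻¹ ∈ K.Q0 :=
        (Subgroup.mem_normalizer_iff.1 (mem_normalizer_of_normal c) y).1 (K.hQle hy)
      obtain ⟨q, hq, hqr⟩ := K.exists_decomp hr
      have hxr : ∀ x ∈ K.Q, ⁅x, c * y * c⁻¹⁆ ∈ Y := fun x hx => ⟨K.QQ0_le (Subgroup.commutator_mem_commutator hx hr), by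
        show c⁻¹ * ⁅x, c * y * c⁻¹⁆ * c⁻¹⁻¹ ∈ K.W
        have hx' : c⁻¹ * x * c ∈ K.Q0 :=
          (Subgroup.mem_normalizer_iff''.1 (mem_normalizer_of_normal c) x).1 (K.hQle hx)
        have h1 := inv_mem (K.QQ0_le (Subgroup.commutator_mem_commutator hy hx'))
        rw [commutatorElement_inv] at h1
        convert h1 using 1
        simp [commutatorElement_def, mul_assoc]⟩
      have hsplit : ∀ x ∈ K.Q, ⁅x, c * y * c⁻¹⁆ = ⁅x, q⁆ * ⁅x, q⁻¹ * (c * y * c⁻¹)⁆ := fun x hx => by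
        rw [← K.comm_mul_right hx (K.hQle hq) (K.R_le hqr), mul_inv_cancel_left]
      have hqW : q ∈ K.W := by
        rw [← hR]
        refine ⟨hq, fun x hx => ?_⟩
        have h1 := mul_mem (hxr x hx) (inv_mem (hWEY (hqr.2 x hx)))
        rwa [hsplit x hx, mul_inv_cancel_right] at h1
      rw [hsplit x hx, K.comm_W hx hqW, one_mul]
      exact hqr.2 x hx
    · refine hne fun v hv => ?_
      have hZY : K.Z ≤ Y := by
        refine K.hQQ.ge.trans (Subgroup.commutator_le.2 fun a ha b hb => ?_)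
        exact ((hR.ge hb : b ∈ RY)).2 a ha
      have : K.W ≤ Y := by rw [← K.WE_sup_Z]; exact sup_le hWEY hZY
      exact (this hv).2
  have := key c⁻¹ (inv_mem hc) hw
  simpa using this

theorem C_le_normalizer_W : K.C ≤ Subgroup.normalizer (K.W : Set G) := fun c hc =>
  Subgroup.mem_normalizer_fintype fun _ hw => K.conj_W hc hw

end Ctx

end CfsgLib.FFModules.BlockCentralizer
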