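import Cfsg.Agent.Lib.FFModules.BlockCentralizer.Frame
import Cfsg.Agent.Lib.StronglyPEmbedded.Helpers

/-!
The Baumann subgroup contains an element moving the module which acts quadratically on both natural sections.
-/

set_option autoImplicit false

open Matrix
open scoped MatrixGroups commutatorElement

namespace CfsgLib.FFModules.BlockCentralizer

open Cfsg

variable {G : Type*} [Group G] [Finite G]

/-- The upper transvection. -/
def transv {F : Type*} [Field F] (t : F) : SL(2, F) := ⟨!![1, t; 0, 1], by simp [det_fin_two_of]⟩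

theorem transv_coe {F : Type*} [Field F] (t : F) :
    (transv t : Matrix (Fin 2) (Fin 2) F) = !![1, t; 0, 1] := rfl

namespace NatSec

variable {p : ℕ} {F : Type*} [Field F] {E V V₀ : Subgroup G} (s : NatSec p F E V V₀)
include s

theorem card_eq [Fintype F] : Nat.card V = Fintype.card F ^ 2 * Nat.card V₀ := by
  rw [Replacement.Block.card_eq_of_section s.le
    (MonoidHom.mk' (fun v : V => Multiplicative.ofAdd (s.ψ v))
      (fun u v => by rw [Subgroup.coe_mul, s.ψ_mul _ u.2 _ v.2]; rfl))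
    (fun u => (Multiplicative.ofAdd.apply_eq_iff_eq).trans (s.ψ_ker _ u.2))]
  congr 1
  rw [MonoidHom.range_eq_top.2 (fun a => by
      obtain ⟨v, hv, hψ⟩ := s.ψ_surj (Multiplicative.toAdd a)
      exact ⟨⟨v, hv⟩, by simp [hψ]⟩), Subgroup.card_top,
    show Nat.card (Multiplicative (Fin 2 → F)) = Nat.card (Fin 2 → F) from rfl,
    Nat.card_fun, Nat.card_fin, Nat.card_eq_fintype_card]

/-- A `3`-group commuting modulo `O_p(E)` with a full set of transvections is quadratic on the section. -/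
theorem quadratic [Finite F] [CharP F 3] (hVV₀ : V ≤ Subgroup.normalizer (V₀ : Set G)) {P : Subgroup G} {h : SL(2, F)}
    (hP : IsPGroup 3 P) (hPV : P ≤ Subgroup.normalizer (V : Set G))
    (hPV₀ : P ≤ Subgroup.normalizer (V₀ : Set G))
    (hcomm : ∀ c ∈ P, ∀ t : F, ∃ x ∈ E, s.ρ x = h * transv t * h⁻¹ ∧
      ∃ q ∈ pCoreOf p E, c * x = q * (x * c)) :
    ⁅⁅V, P⁆, P⁆ ≤ V₀ := by
  classical
  have hcV : ∀ c ∈ P, ∀ v ∈ V, c * v * c⁻¹ ∈ V := fun c hc v hv =>
    (Subgroup.mem_normalizer_iff.1 (hPV hc) v).1 hv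
  have hwd : ∀ c ∈ P, ∀ u ∈ V, ∀ v ∈ V, s.ψ u = s.ψ v → s.ψ (c * u * c⁻¹) = s.ψ (c * v * c⁻¹) := by
    intro c hc u hu v hv h
    rw [s.ψ_eq_iff (hcV c hc u hu) (hcV c hc v hv)]
    have h1 := (Subgroup.mem_normalizer_iff.1 (hPV₀ hc) _).1 ((s.ψ_eq_iff hu hv).1 h)
    convert h1 using 1
    group
  choose sec hsecV hsecψ using s.ψ_surj
  set H : Matrix (Fin 2) (Fin 2) F := (h : Matrix (Fin 2) (Fin 2) F) with hH
  set H' : Matrix (Fin 2) (Fin 2) F := ((h⁻¹ : SL(2, F)) : Matrix (Fin 2) (Fin 2) F) with hH'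
  have hHH : ∀ a, H' *ᵥ (H *ᵥ a) = a := fun a => by
    rw [Matrix.mulVec_mulVec, hH, hH', ← Matrix.SpecialLinearGroup.coe_mul, inv_mul_cancel,
      Matrix.SpecialLinearGroup.coe_one, Matrix.one_mulVec]
  have hHH' : ∀ a, H *ᵥ (H' *ᵥ a) = a := fun a => by
    rw [Matrix.mulVec_mulVec, hH, hH', ← Matrix.SpecialLinearGroup.coe_mul, mul_inv_cancel,
      Matrix.SpecialLinearGroup.coe_one, Matrix.one_mulVec]
  -- the action of `c` in the coordinates given by `h`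
  have key : ∀ c ∈ P, ∀ v ∈ V, ∃ b : F, H' *ᵥ s.ψ (c * v * c⁻¹) - H' *ᵥ s.ψ v = ![b, 0] ∧
      ∀ a : F, ∀ w ∈ V, H' *ᵥ s.ψ w = ![a, 0] → s.ψ (c * w * c⁻¹) = s.ψ w := by
    intro c hc v hv
    let f : (Fin 2 → F) →+ (Fin 2 → F) :=
      { toFun := fun a => H' *ᵥ s.ψ (c * sec (H *ᵥ a) * c⁻¹)
        map_zero' := by
          rw [Matrix.mulVec_zero, hwd c hc _ (hsecV 0) 1 (one_mem V) (by rw [hsecψ, s.ψ_one]), mul_one,
            mul_inv_cancel, s.ψ_one, Matrix.mulVec_zero]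
        map_add' := fun a b => by
          rw [hwd c hc _ (hsecV _) (sec (H *ᵥ a) * sec (H *ᵥ b)) (mul_mem (hsecV _) (hsecV _))
            (by rw [hsecψ, s.ψ_mul _ (hsecV _) _ (hsecV _), hsecψ, hsecψ, Matrix.mulVec_add]),
            show c * (sec (H *ᵥ a) * sec (H *ᵥ b)) * c⁻¹ =
              (c * sec (H *ᵥ a) * c⁻¹) * (c * sec (H *ᵥ b) * c⁻¹) by group,
            s.ψ_mul _ (hcV c hc _ (hsecV _)) _ (hcV c hc _ (hsecV _)), Matrix.mulVec_add] }
    have hf : ∀ w ∈ V, f (H' *ᵥ s.ψ w) = H' *ᵥ s.ψ (c * w * c⁻¹) := fun w hw => by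
      show H' *ᵥ s.ψ (c * sec (H *ᵥ (H' *ᵥ s.ψ w)) * c⁻¹) = _
      rw [hwd c hc _ (hsecV _) w hw (by rw [hsecψ, hHH'])]
    obtain ⟨m, hm⟩ := hP ⟨c, hc⟩
    have hcm : c ^ 3 ^ m = 1 := congrArg Subtype.val hm
    have hiter : ∀ (j : ℕ), ∀ w ∈ V, f^[j] (H' *ᵥ s.ψ w) = H' *ᵥ s.ψ (c ^ j * w * (c ^ j)⁻¹) := by
      intro j
      induction j with
      | zero => intro w _; simp
      | succ j ih =>
        intro w hw
        rw [Function.iterate_succ_apply', ih w hw, hf _ (hcV _ (pow_mem hc j) w hw), pow_succ']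
        congr 2
        group
    obtain ⟨hline, hquot⟩ := unipotent_of_commute f m (fun a => by
        have h1 := hiter (3 ^ m) _ (hsecV (H *ᵥ a))
        rwa [hsecψ, hHH, hcm, one_mul, inv_one, mul_one, hsecψ, hHH] at h1) fun t a => by
      obtain ⟨x, hx, hρ, q, hq, hcx⟩ := hcomm c hc t
      have hu : ∀ b : Fin 2 → F,
          (![b 0 + t * b 1, b 1] : Fin 2 → F) = (!![1, t; 0, 1] : Matrix (Fin 2) (Fin 2) F) *ᵥ b := fun b => by
        ext i; fin_cases i <;> simp [Matrix.mulVec, dotProduct, Fin.sum_univ_two]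
      set w := sec (H *ᵥ a)
      have hwV : w ∈ V := hsecV _
      have hxw : x * w * x⁻¹ ∈ V := (Subgroup.mem_normalizer_iff.1 (s.normE hx) w).1 hwV
      have hxmat : (s.ρ x : Matrix (Fin 2) (Fin 2) F) = H * !![1, t; 0, 1] * H' := by
        rw [hρ, Matrix.SpecialLinearGroup.coe_mul, Matrix.SpecialLinearGroup.coe_mul, transv_coe]
      have e1 : H' *ᵥ s.ψ (x * w * x⁻¹) = (!![1, t; 0, 1] : Matrix (Fin 2) (Fin 2) F) *ᵥ a := by
        rw [s.ψ_conj x hx w hwV, hsecψ, hxmat, ← Matrix.mulVec_mulVec, ← Matrix.mulVec_mulVec, hHH, hHH]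
      rw [hu, hu, ← e1, hf _ hxw]
      have hcxw : c * (x * w * x⁻¹) * c⁻¹ = q * (x * (c * w * c⁻¹) * x⁻¹) * q⁻¹ := by
        rw [show c * (x * w * x⁻¹) * c⁻¹ = (c * x) * w * (c * x)⁻¹ by group, hcx]; group
      have hqE : q ∈ E := Subgroup.map_subtype_le _ hq
      rw [hcxw, s.ψ_conj q hqE _ ((Subgroup.mem_normalizer_iff.1 (s.normE hx) _).1 (hcV c hc w hwV)),
        (s.ρ_ker q hqE).2 hq, Matrix.SpecialLinearGroup.coe_one, Matrix.one_mulVec,
        s.ψ_conj x hx _ (hcV c hc w hwV), hxmat, ← Matrix.mulVec_mulVec, ← Matrix.mulVec_mulVec, hHH]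
      show (!![1, t; 0, 1] : Matrix (Fin 2) (Fin 2) F) *ᵥ (H' *ᵥ s.ψ (c * w * c⁻¹)) = _
      rfl
    refine ⟨(f (H' *ᵥ s.ψ v) - H' *ᵥ s.ψ v) 0, ?_, fun a w hw hwa => ?_⟩
    · rw [← hf v hv]
      ext i; fin_cases i
      · simp
      · simp [hquot]
    · have h1 := hf w hw
      rw [hwa, hline, ← hwa] at h1
      rw [← hHH' (s.ψ (c * w * c⁻¹)), ← h1, hHH']
  -- commutators with `P` fall into the line, and `P` fixes the line
  let S : Subgroup G :=
    { carrier := {x | x ∈ V ∧ ∀ c ∈ P, s.ψ (c * x * c⁻¹) = s.ψ x}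
      one_mem' := ⟨one_mem V, fun c _ => by rw [mul_one, mul_inv_cancel]⟩
      mul_mem' := fun {a b} ha hb => ⟨mul_mem ha.1 hb.1, fun c hc => by
        rw [show c * (a * b) * c⁻¹ = (c * a * c⁻¹) * (c * b * c⁻¹) by group,
          s.ψ_mul _ (hcV c hc a ha.1) _ (hcV c hc b hb.1), ha.2 c hc, hb.2 c hc, ← s.ψ_mul _ ha.1 _ hb.1]⟩
      inv_mem' := fun {a} ha => ⟨inv_mem ha.1, fun c hc => by
        rw [show c * a⁻¹ * c⁻¹ = (c * a * c⁻¹)⁻¹ by group, s.ψ_inv (hcV c hc a ha.1), ha.2 c hc,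
          s.ψ_inv ha.1]⟩ }
  have h1 : ⁅V, P⁆ ≤ S := by
    refine Subgroup.commutator_le.2 fun v hv c hc => ?_
    have hw : ⁅v, c⁆ ∈ V := by
      rw [commutatorElement_def, show v * c * v⁻¹ * c⁻¹ = v * (c * v⁻¹ * c⁻¹) by group]
      exact mul_mem hv (hcV c hc _ (inv_mem hv))
    have hψw : s.ψ ⁅v, c⁆ = -(s.ψ (c * v * c⁻¹) - s.ψ v) := by
      rw [commutatorElement_def, show v * c * v⁻¹ * c⁻¹ = v * (c * v * c⁻¹)⁻¹ by group,
        s.ψ_mul _ hv _ (inv_mem (hcV c hc v hv)), s.ψ_inv (hcV c hc v hv)]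
      abel
    obtain ⟨b, hb, -⟩ := key c hc v hv
    refine ⟨hw, fun c' hc' => ?_⟩
    obtain ⟨-, -, hfix⟩ := key c' hc' v hv
    refine hfix (-b) _ hw ?_
    rw [hψw, Matrix.mulVec_neg, Matrix.mulVec_sub, hb]
    ext i; fin_cases i <;> simp
  refine Subgroup.commutator_le.2 fun x hx c hc => ?_
  obtain ⟨hxV, hxfix⟩ := h1 hx
  rw [commutatorElement_def, show x * c * x⁻¹ * c⁻¹ = x * (c * x * c⁻¹)⁻¹ by group]
  have h3 := (s.ψ_eq_iff (hcV c hc x hxV) hxV).1 (hxfix c hc)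
  have h4 := (Subgroup.mem_normalizer_iff.1 (hVV₀ (hcV c hc x hxV)) _).1 h3
  convert h4 using 1
  group

end NatSec

namespace Ctx

variable {F : Type*} [Field F] [Fintype F] (K : Ctx G F)
include K

theorem B_le_T : K.B ≤ K.T := inf_le_left

theorem B_isPGroup : IsPGroup 3 K.B := K.T.2.to_le K.B_le_T

theorem B_le_NW : K.B ≤ Subgroup.normalizer (K.W : Set G) := K.B_le_normalizer.trans K.norm_W

theorem norm_Z : Subgroup.normalizer (K.E : Set G) ≤ Subgroup.normalizer (K.Z : Set G) := fun _ hg =>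
  TwoGroupTricks.normalizer_inf_le ⟨K.norm_W hg, TwoGroupTricks.normalizer_le_normalizer_centralizer' _ hg⟩

theorem exists_moving : ∃ b ∈ K.B, b ∉ Subgroup.centralizer (K.W : Set G) := by
  by_contra! h
  refine TwoGroupTricks.commutator_thompson_ne_bot K.hG K.T K.hE ?_
  rw [Subgroup.commutator_eq_bot_iff_le_centralizer]
  exact fun w hw => Subgroup.mem_centralizer_iff.2 fun j hj =>
    (Subgroup.mem_centralizer_iff.1 (h j (TwoGroupTricks.thompsonSubgroupOf_le_baumann _ hj)) w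
      (K.WE_le_W hw)).symm

theorem exists_quadratic : ∃ b ∈ K.B, b ∉ Subgroup.centralizer (K.W : Set G) ∧
    ⁅⁅K.Q, Subgroup.zpowers b⁆, Subgroup.zpowers b⁆ ≤ K.W ∧
    ⁅⁅K.W, Subgroup.zpowers b⁆, Subgroup.zpowers b⁆ ≤ K.Z := by
  have hQW : K.Q ≤ Subgroup.normalizer (K.W : Set G) := fun q hq => Subgroup.centralizer_le_normalizer _
    (Subgroup.mem_centralizer_iff.2 fun _ hw => (K.W_comm hq hw).symm)
  have hWZ : K.W ≤ Subgroup.normalizer (K.Z : Set G) := K.W_le_normalizer (K.Z_le_W.trans K.W_le_Q)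
  have hQp : IsPGroup 3 K.Q := (CfsgLib.Cores.isPGroup_pCore 3 K.E).map K.E.subtype
  rcases K.hcard with hc | hc
  · obtain ⟨b, hb, hbW⟩ := K.exists_moving
    have hbN : Subgroup.zpowers b ≤ Subgroup.normalizer (K.E : Set G) :=
      Subgroup.zpowers_le.2 (K.B_le_normalizer hb)
    have hbP : IsPGroup 3 (Subgroup.zpowers b) := K.B_isPGroup.to_le (Subgroup.zpowers_le.2 hb)
    refine ⟨b, hb, hbW, ?_, ?_⟩
    · refine Replacement.Block.quad_le hQp hbP (hbN.trans K.norm_Q) (hbN.trans K.norm_W) hQW K.W_le_Q ?_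
      rw [K.sQ.card_eq, hc]
    · refine Replacement.Block.quad_le (hQp.to_le K.W_le_Q) hbP (hbN.trans K.norm_W) (hbN.trans K.norm_Z) hWZ
        K.Z_le_W ?_
      rw [K.sW.card_eq, hc]
  classical
  haveI : CharP F 3 := (CharP.charP_iff_prime_eq_zero Nat.prime_three).2 K.h3
  set N := Subgroup.normalizer (K.E : Set G)
  -- a Sylow subgroup of the normalizer over the Baumann subgroup
  obtain ⟨P, hBP⟩ := (K.B_isPGroup.comap_subtype (K := N)).exists_le_sylow
  set PG := (P : Subgroup N).map N.subtype with hPG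
  have hPGp : IsPGroup 3 PG := P.2.map _
  have hBPG : K.B ≤ PG := fun b hb => ⟨⟨b, K.B_le_normalizer hb⟩, hBP hb, rfl⟩
  have hPN : PG ≤ N := Subgroup.map_subtype_le _
  obtain ⟨S, hPS⟩ := hPGp.exists_le_sylow
  have hPB : PG ≤ Subgroup.normalizer (K.B : Set G) := by
    have h := TwoGroupTricks.baumann_eq_of_le K.T S (hBPG.trans hPS)
    show PG ≤ Subgroup.normalizer ((baumannSubgroupOf 3 (K.T : Subgroup G) : Subgroup G) : Set G)
    rw [← h]
    exact hPS.trans (TwoGroupTricks.le_normalizer_baumann_self _)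
  -- a minimal invariant subgroup moving the module
  set CW := Subgroup.centralizer (K.W : Set G)
  have hPCW : PG ≤ Subgroup.normalizer (CW : Set G) :=
    hPN.trans (K.norm_W.trans (TwoGroupTricks.normalizer_le_normalizer_centralizer' _))
  obtain ⟨B', ⟨hB'B, hPB', hB'C⟩, hmin⟩ := (Set.toFinite {X : Subgroup G | X ≤ K.B ∧
      PG ≤ Subgroup.normalizer (X : Set G) ∧ ¬ X ≤ CW}).exists_minimal
    ⟨K.B, le_rfl, hPB, fun h => by obtain ⟨b, hb, hbW⟩ := K.exists_moving; exact hbW (h hb)⟩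
  have hcomm : ⁅B', PG⁆ ≤ CW := by
    by_contra hne
    set V₀ := B' ⊓ CW
    have hV₀ : PG ≤ Subgroup.normalizer (V₀ : Set G) := fun x hx =>
      TwoGroupTricks.normalizer_inf_le ⟨hPB' hx, hPCW hx⟩
    have hle : B' ≤ ⁅B', PG⁆ ⊔ V₀ := by
      refine hmin ⟨(sup_le (CoprimeAction.commutator_le_left hPB') inf_le_left).trans hB'B, fun x hx =>
        Replacement.Block.inf_normalizer_le_sup _ _
          ⟨(le_sup_right.trans (CoprimeAction.sup_le_normalizer_commutator PG B')) hx, hV₀ hx⟩,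
        fun h => hne (le_sup_left.trans h)⟩ (sup_le (CoprimeAction.commutator_le_left hPB') inf_le_left)
    exact hB'C ((Replacement.Block.le_of_le_commutator_sup (hPGp.to_le (hB'B.trans hBPG)) hPGp hPB' hV₀
      ((hB'B.trans hBPG).trans hV₀) inf_le_left hle).trans inf_le_right)
  obtain ⟨b, hb, hbW⟩ := SetLike.not_le_iff_exists.1 hB'C
  -- the image of a Sylow subgroup of `E`
  obtain ⟨P₀, hP₀⟩ := StronglyPEmbedded.exists_sylow_subgroupOf_eq P (A := K.E.subgroupOf N)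
    (Subgroup.Normal.isSubnormal Subgroup.normal_in_normalizer)
  have htop := R_eq_top (F := F) hc
  let U : Subgroup SL(2, F) :=
    { carrier := {g | ∃ t : F, (g : Matrix (Fin 2) (Fin 2) F) = !![1, t; 0, 1]}
      one_mem' := ⟨0, by ext i j; fin_cases i <;> fin_cases j <;> simp⟩
      mul_mem' := fun {a b} ⟨s, hs⟩ ⟨t, ht⟩ => ⟨s + t, by
        rw [Matrix.SpecialLinearGroup.coe_mul, hs, ht]
        ext i j; fin_cases i <;> fin_cases j <;> simp [Matrix.mul_apply, Fin.sum_univ_two, add_comm]⟩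
      inv_mem' := fun {a} ⟨s, hs⟩ => ⟨-s, by
        rw [Matrix.SpecialLinearGroup.coe_inv, Matrix.adjugate_fin_two, hs]
        ext i j; fin_cases i <;> fin_cases j <;> simp⟩ }
  have hU : IsPGroup 3 U := fun g => ⟨1, by
    obtain ⟨g, t, ht⟩ := g
    refine Subtype.ext (Subtype.ext ?_)
    rw [SubgroupClass.coe_pow, pow_one, Matrix.SpecialLinearGroup.coe_pow]
    show (g : Matrix (Fin 2) (Fin 2) F) ^ 3 = _
    rw [ht, pow_succ, pow_two]
    ext i j; fin_cases i <;> fin_cases j <;> simp [Matrix.mul_apply, Fin.sum_univ_two]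
    linear_combination t * K.h3⟩
  have hsec : ∀ {V V₀ : Subgroup G} (s : NatSec 3 F K.E V V₀), V ≤ Subgroup.normalizer (V₀ : Set G) →
      N ≤ Subgroup.normalizer (V : Set G) → N ≤ Subgroup.normalizer (V₀ : Set G) →
      ⁅⁅V, Subgroup.zpowers b⁆, Subgroup.zpowers b⁆ ≤ V₀ := by
    intro V V₀ s hVV₀ hNV hNV₀
    let ρ : ↥(K.E.subgroupOf N) →* SL(2, F) :=
      MonoidHom.mk' (fun x => s.ρ (x : N)) fun x y => by
        exact s.ρ_mul _ x.2 _ y.2
    have hρ : Function.Surjective ρ := fun g => by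
      obtain ⟨e, he, rfl⟩ := s.ρ_surj g (by rw [htop]; exact Subgroup.mem_top g)
      exact ⟨⟨⟨e, Subgroup.le_normalizer he⟩, he⟩, rfl⟩
    obtain ⟨S₁, hS₁⟩ := hU.exists_le_sylow
    obtain ⟨g, hg⟩ := MulAction.exists_smul_eq SL(2, F) S₁ (P₀.mapSurjective hρ)
    have hbN : Subgroup.zpowers b ≤ N := Subgroup.zpowers_le.2 (K.B_le_normalizer (hB'B hb))
    refine s.quadratic hVV₀ (h := g) (K.B_isPGroup.to_le (Subgroup.zpowers_le.2 (hB'B hb)))
      (hbN.trans hNV) (hbN.trans hNV₀) fun c hc t => ?_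
    have hut : transv t ∈ (S₁ : Subgroup SL(2, F)) :=
      hS₁ ⟨t, rfl⟩
    have hmem : g * transv t * g⁻¹ ∈
        (P₀ : Subgroup (K.E.subgroupOf N)).map ρ := by
      rw [← Sylow.coe_mapSurjective hρ, ← hg, Sylow.coe_subgroup_smul, Subgroup.mem_pointwise_smul_iff_inv_smul_mem]
      simpa [MulAut.smul_def, mul_assoc, inv_mul_cancel_left] using hut
    obtain ⟨⟨⟨x, hxN⟩, hxE⟩, hxP, hx⟩ := hmem
    refine ⟨x, hxE, hx, c * x * c⁻¹ * x⁻¹, ?_, by group⟩
    have hxPG : x ∈ PG := ⟨⟨x, hxN⟩, by rw [hP₀] at hxP; exact hxP, rfl⟩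
    have hcB' : c ∈ B' := (Subgroup.zpowers_le.2 hb) hc
    have hE : c * x * c⁻¹ * x⁻¹ ∈ K.E :=
      mul_mem ((Subgroup.mem_normalizer_iff.1 (K.B_le_normalizer (hB'B hcB')) x).1 hxE) (inv_mem hxE)
    have hC : c * x * c⁻¹ * x⁻¹ ∈ CW := by
      have := hcomm (Subgroup.commutator_mem_commutator hcB' hxPG)
      rwa [commutatorElement_def] at this
    rw [← K.sW.ρ_ker _ hE, ← K.fix_WE_iff hE]
    intro w hw
    rw [← Subgroup.mem_centralizer_iff.1 hC w (K.WE_le_W hw), mul_inv_cancel_right]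
  exact ⟨b, hB'B hb, hbW, hsec K.sQ hQW K.norm_Q K.norm_W, hsec K.sW hWZ K.norm_W K.norm_Z⟩

end Ctx

end CfsgLib.FFModules.BlockCentralizer
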