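import Cfsg.Agent.Lib.FFModules.BlockCentralizer.Orth

/-!
The space spanned by the conjugates of the core of an exceptional block under `C(W_E)`, and its alternating form.
-/

set_option autoImplicit false

open Matrix
open scoped MatrixGroups commutatorElement

namespace CfsgLib.FFModules.BlockCentralizer

open Cfsg

variable {G : Type*} [Group G] [Finite G]

namespace Ctx

variable {F : Type*} [Field F] [Fintype F] (K : Ctx G F)

/-- `⟨Q ^ c | c ∈ C(W_E)⟩ U`. -/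
def HQ : Subgroup G :=
  Subgroup.closure {x | x ∈ K.U ∨ ∃ c ∈ K.C, ∃ q ∈ K.Q, c * q * c⁻¹ = x}

/-- The kernel of the projection on `HQ`. -/
def S : Subgroup G := K.HQ ⊓ K.R

include K

theorem U_le_HQ : K.U ≤ K.HQ := fun _ hu => Subgroup.subset_closure (Or.inl hu)

theorem conj_Q_mem {c q : G} (hc : c ∈ K.C) (hq : q ∈ K.Q) : c * q * c⁻¹ ∈ K.HQ :=
  Subgroup.subset_closure (Or.inr ⟨c, hc, q, hq, rfl⟩)

theorem Q_le_HQ : K.Q ≤ K.HQ := fun q hq => by simpa using K.conj_Q_mem (one_mem K.C) hq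

theorem HQ_le : K.HQ ≤ K.Q0 := (Subgroup.closure_le _).2 (by
  rintro x (hx | ⟨c, hc, q, hq, rfl⟩)
  · exact K.U_le_Q0 hx
  · exact (Subgroup.mem_normalizer_iff.1 (mem_normalizer_of_normal c) q).1 (K.hQle hq))

theorem S_le : K.S ≤ K.HQ := inf_le_left

theorem U_le_S : K.U ≤ K.S := le_inf K.U_le_HQ K.U_le_R

theorem norm_HQ {g : G} (hg : g ∈ Subgroup.normalizer (K.E : Set G) ∨ g ∈ K.C) :
    g ∈ Subgroup.normalizer (K.HQ : Set G) := by
  refine Subgroup.mem_normalizer_fintype fun x hx => ?_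
  have h : K.HQ ≤ K.HQ.comap (MulAut.conj g).toMonoidHom := by
    refine (Subgroup.closure_le _).2 ?_
    rintro y (hy | ⟨c, hc, q, hq, rfl⟩)
    · exact K.U_le_HQ ((Subgroup.mem_normalizer_iff.1 (mem_normalizer_of_normal g) y).1 hy)
    · show g * (c * q * c⁻¹) * g⁻¹ ∈ K.HQ
      rcases hg with hg | hg
      · have hgC : g * c * g⁻¹ ∈ K.C :=
          (Subgroup.mem_normalizer_iff.1
            (TwoGroupTricks.normalizer_le_normalizer_centralizer' _ (K.norm_WE hg)) c).1 hc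
        rw [show g * (c * q * c⁻¹) * g⁻¹ = (g * c * g⁻¹) * (g * q * g⁻¹) * (g * c * g⁻¹)⁻¹ by group]
        exact K.conj_Q_mem hgC ((Subgroup.mem_normalizer_iff.1 (K.norm_Q hg) q).1 hq)
      · rw [show g * (c * q * c⁻¹) * g⁻¹ = (g * c) * q * (g * c)⁻¹ by group]
        exact K.conj_Q_mem (mul_mem hg hc) hq
  exact h hx

theorem norm_S : Subgroup.normalizer (K.E : Set G) ≤ Subgroup.normalizer (K.S : Set G) := fun _ hg =>
  TwoGroupTricks.normalizer_inf_le ⟨K.norm_HQ (Or.inl hg), K.norm_R hg⟩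

theorem HQ_comm {x r : G} (hx : x ∈ K.HQ) (hr : r ∈ K.Q0) : ⁅x, r⁆ ∈ K.W := by
  let X : Subgroup G :=
    { carrier := {x | x ∈ K.Q0 ∧ ∀ r ∈ K.Q0, ⁅x, r⁆ ∈ K.W}
      one_mem' := ⟨one_mem _, fun r _ => by rw [commutatorElement_one_left]; exact one_mem _⟩
      mul_mem' := fun {a b} ha hb => ⟨mul_mem ha.1 hb.1, fun r hr => by
        rw [show ⁅a * b, r⁆ = a * ⁅b, r⁆ * a⁻¹ * ⁅a, r⁆ by simp [commutatorElement_def, mul_assoc],
          K.U_comm ha.1 (K.W_le_U (hb.2 r hr)), mul_inv_cancel_right]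
        exact mul_mem (hb.2 r hr) (ha.2 r hr)⟩
      inv_mem' := fun {a} ha => ⟨inv_mem ha.1, fun r hr => by
        rw [show ⁅a⁻¹, r⁆ = a⁻¹ * ⁅a, r⁆⁻¹ * a by simp [commutatorElement_def, mul_assoc],
          K.U_comm (inv_mem ha.1) (K.W_le_U (inv_mem (ha.2 r hr))), inv_mul_cancel_right]
        exact inv_mem (ha.2 r hr)⟩ }
  have h : K.HQ ≤ X := by
    refine (Subgroup.closure_le _).2 ?_
    rintro y (hy | ⟨c, hc, q, hq, rfl⟩)
    · exact ⟨K.U_le_Q0 hy, fun r hr => by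
        rw [commutatorElement_eq_one_iff_mul_comm.2 (K.U_comm hr hy).symm]; exact one_mem _⟩
    · refine ⟨(Subgroup.mem_normalizer_iff.1 (mem_normalizer_of_normal c) q).1 (K.hQle hq), fun r hr => ?_⟩
      have hr' : c⁻¹ * r * c ∈ K.Q0 :=
        (Subgroup.mem_normalizer_iff''.1 (mem_normalizer_of_normal c) r).1 hr
      have h1 := K.conj_W hc (K.QQ0_le (Subgroup.commutator_mem_commutator hq hr'))
      convert h1 using 1
      simp [commutatorElement_def, mul_assoc]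
  exact (h hx).2 r hr

/-- The form: `W = W_E × Z` and `Z` is coordinatised by the determinant. -/
theorem exists_form : ∃ (Λ : G → F) (γ : F → G), (∀ t, γ t ∈ K.W) ∧ (∀ a b, γ (a + b) = γ a * γ b) ∧
    (∀ w ∈ K.W, ∃ v ∈ K.WE, v * γ (Λ w) = w) ∧ (∀ u ∈ K.W, ∀ w ∈ K.W, Λ (u * w) = Λ u + Λ w) ∧
    (∀ v ∈ K.WE, Λ v = 0) ∧
    (∀ q ∈ K.Q, ∀ q' ∈ K.Q, Λ ⁅q, q'⁆ = det2 (K.sQ.ψ q) (K.sQ.ψ q')) := by
  classical
  letI : CommGroup ↥(K.W) := { (inferInstance : Group ↥(K.W)) with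
    mul_comm := fun a b => Subtype.ext (K.W_comm (K.W_le_Q a.2) b.2) }
  choose sec hsec hψ using K.sQ.ψ_surj
  have hwd : ∀ {x x' y y' : G}, x ∈ K.Q → x' ∈ K.Q → y ∈ K.Q → y' ∈ K.Q → K.sQ.ψ x = K.sQ.ψ x' →
      K.sQ.ψ y = K.sQ.ψ y' → ⁅x, y⁆ = ⁅x', y'⁆ := by
    intro x x' y y' hx hx' hy hy' h1 h2
    have a1 := (K.sQ.ψ_eq_iff hx hx').1 h1
    have a2 := (K.sQ.ψ_eq_iff hy hy').1 h2
    rw [show x' = x * (x⁻¹ * x') by group, show y' = y * (y⁻¹ * y') by group,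
      K.comm_mul_left hx (K.W_le_Q a1) (mul_mem (K.hQle hy) (K.U_le_Q0 (K.W_le_U a2))),
      K.W_comm_Q0 a1 (mul_mem (K.hQle hy) (K.U_le_Q0 (K.W_le_U a2))), mul_one,
      K.comm_mul_right hx (K.hQle hy) (K.U_le_Q0 (K.W_le_U a2)), K.comm_W hx a2, mul_one]
  have hW : ∀ {x y : G}, x ∈ K.Q → y ∈ K.Q → ⁅x, y⁆ ∈ K.W := fun hx hy =>
    K.QQ0_le (Subgroup.commutator_mem_commutator hx (K.hQle hy))
  let β₀ : (Fin 2 → F) →+ (Fin 2 → F) →+ Additive ↥(K.W) :=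
    AddMonoidHom.mk' (fun u => AddMonoidHom.mk'
      (fun v => Additive.ofMul (⟨⁅sec u, sec v⁆, hW (hsec u) (hsec v)⟩ : ↥(K.W)))
      fun v v' => congrArg Additive.ofMul (Subtype.ext (show ⁅sec u, sec (v + v')⁆ = ⁅sec u, sec v⁆ * ⁅sec u, sec v'⁆ by
        rw [← K.comm_mul_right (hsec u) (K.hQle (hsec v)) (K.hQle (hsec v'))]
        exact hwd (hsec u) (hsec u) (hsec _) (mul_mem (hsec v) (hsec v')) rfl
          (by rw [hψ, K.sQ.ψ_mul _ (hsec v) _ (hsec v'), hψ, hψ]))))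
      fun u u' => AddMonoidHom.ext fun v => congrArg Additive.ofMul (Subtype.ext
        (show ⁅sec (u + u'), sec v⁆ = ⁅sec u, sec v⁆ * ⁅sec u', sec v⁆ by
        rw [← K.comm_mul_left (hsec u) (hsec u') (K.hQle (hsec v))]
        exact hwd (hsec _) (mul_mem (hsec u) (hsec u')) (hsec v) (hsec v)
          (by rw [hψ, K.sQ.ψ_mul _ (hsec u) _ (hsec u'), hψ, hψ]) rfl))
  have hβ₀ : ∀ u v, ((Additive.toMul (β₀ u v) : ↥(K.W)) : G) = ⁅sec u, sec v⁆ := fun u v => rfl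
  have hZmem : ∀ {x y : G}, x ∈ K.Q → y ∈ K.Q → ⁅x, y⁆ ∈ K.Z := fun hx hy =>
    K.hQQ.le (Subgroup.commutator_mem_commutator hx hy)
  obtain ⟨γ₀, hγ₀⟩ := exists_eq_det K.h3 K.hcard β₀
    (fun v => congrArg Additive.ofMul (Subtype.ext (commutatorElement_self _)))
    (fun g hg u v => by
      obtain ⟨e, he, rfl⟩ := K.sQ.ρ_surj g hg
      refine congrArg Additive.ofMul (Subtype.ext ?_)
      show ⁅sec _, sec _⁆ = ⁅sec u, sec v⁆
      have hu := (Subgroup.mem_normalizer_iff.1 (K.sQ.normE he) _).1 (hsec u)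
      have hv := (Subgroup.mem_normalizer_iff.1 (K.sQ.normE he) _).1 (hsec v)
      rw [hwd (hsec _) hu (hsec _) hv (by rw [hψ, K.sQ.ψ_conj e he _ (hsec u), hψ])
        (by rw [hψ, K.sQ.ψ_conj e he _ (hsec v), hψ])]
      have hz := Subgroup.mem_centralizer_iff.1 (hZmem (hsec u) (hsec v)).2 e he
      rw [show ⁅e * sec u * e⁻¹, e * sec v * e⁻¹⁆ = e * ⁅sec u, sec v⁆ * e⁻¹ by
        simp [commutatorElement_def, mul_assoc], hz, mul_inv_cancel_right])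
  set γ : F → G := fun t => ((Additive.toMul (γ₀ t) : ↥(K.W)) : G) with hγ
  have hγW : ∀ t, γ t ∈ K.W := fun t => (Additive.toMul (γ₀ t)).2
  have hγadd : ∀ a b, γ (a + b) = γ a * γ b := fun a b => by
    simp only [hγ, map_add, toMul_add, Subgroup.coe_mul]
  have hγdet : ∀ q ∈ K.Q, ∀ q' ∈ K.Q, ⁅q, q'⁆ = γ (det2 (K.sQ.ψ q) (K.sQ.ψ q')) := fun q hq q' hq' => by
    simp only [hγ, ← hγ₀, hβ₀]
    exact hwd hq (hsec _) hq' (hsec _) (hψ _).symm (hψ _).symm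
  have hγZ : ∀ t, γ t ∈ K.Z := fun t => by
    have : γ t = ⁅sec ![1, 0], sec ![0, t]⁆ := by
      simp only [hγ, ← hβ₀, hγ₀, det2, cons_val_zero, cons_val_one, one_mul, zero_mul, sub_zero]
    rw [this]; exact hZmem (hsec _) (hsec _)
  have hγ0 : γ 0 = 1 := by simp [hγ]
  have hsurjZ : ∀ z ∈ K.Z, ∃ t, γ t = z := by
    intro z hz
    have hz' : z ∈ ⁅K.Q, K.Q⁆ := K.hQQ.ge hz
    rw [Subgroup.commutator_def] at hz'
    induction hz' using Subgroup.closure_induction with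
    | mem x hx => obtain ⟨a, ha, b, hb, rfl⟩ := hx; exact ⟨_, (hγdet a ha b hb).symm⟩
    | one => exact ⟨0, hγ0⟩
    | mul a b ha hb iha ihb =>
      obtain ⟨s, rfl⟩ := iha (K.hQQ.le (by rw [Subgroup.commutator_def]; exact ha))
      obtain ⟨t, rfl⟩ := ihb (K.hQQ.le (by rw [Subgroup.commutator_def]; exact hb))
      exact ⟨s + t, hγadd s t⟩
    | inv a ha iha =>
      obtain ⟨s, rfl⟩ := iha (K.hQQ.le (by rw [Subgroup.commutator_def]; exact ha))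
      exact ⟨-s, eq_inv_of_mul_eq_one_right (by rw [← hγadd, add_neg_cancel, hγ0])⟩
  have hγinj : Function.Injective γ := by
    letI : Fintype ↥(K.Z) := Fintype.ofFinite _
    have hbij : Function.Bijective (fun t : F => (⟨γ t, hγZ t⟩ : ↥(K.Z))) :=
      (Fintype.bijective_iff_surjective_and_card _).2 ⟨fun z => by
        obtain ⟨t, ht⟩ := hsurjZ z z.2
        exact ⟨t, Subtype.ext ht⟩, by rw [K.hF, ← Nat.card_eq_fintype_card]; exact K.hZcard.symm⟩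
    exact fun a b h => hbij.1 (Subtype.ext h)
  have huniq : ∀ {v v' : G} {s t : F}, v ∈ K.WE → v' ∈ K.WE → v * γ s = v' * γ t → s = t := by
    intro v v' s t hv hv' h
    have h1 : γ s * (γ t)⁻¹ = v⁻¹ * v' := by
      rw [eq_inv_mul_iff_mul_eq, ← mul_assoc, h, mul_inv_cancel_right]
    have h2 : γ s * (γ t)⁻¹ ∈ K.WE ⊓ K.Z :=
      Subgroup.mem_inf.2 ⟨h1 ▸ mul_mem (inv_mem hv) hv', mul_mem (hγZ s) (inv_mem (hγZ t))⟩
    rw [K.WE_inf_Z, Subgroup.mem_bot, mul_inv_eq_one] at h2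
    exact hγinj h2
  have hdec : ∀ w ∈ K.W, ∃ t, ∃ v ∈ K.WE, v * γ t = w := fun w hw => by
    obtain ⟨v, hv, z, hz, rfl⟩ := K.exists_mul hw
    obtain ⟨t, rfl⟩ := hsurjZ z hz
    exact ⟨t, v, hv, rfl⟩
  refine ⟨fun w => if h : w ∈ K.W then (hdec w h).choose else 0, γ, hγW, hγadd, fun w hw => ?_,
    fun u hu w hw => ?_, fun v hv => ?_, fun q hq q' hq' => ?_⟩
  · beta_reduce; rw [dif_pos hw]; exact (hdec w hw).choose_spec
  · beta_reduce
    rw [dif_pos hu, dif_pos hw, dif_pos (mul_mem hu hw)]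
    obtain ⟨v₁, hv₁, e₁⟩ := (hdec u hu).choose_spec
    obtain ⟨v₂, hv₂, e₂⟩ := (hdec w hw).choose_spec
    obtain ⟨v₃, hv₃, e₃⟩ := (hdec _ (mul_mem hu hw)).choose_spec
    refine huniq hv₃ (mul_mem hv₁ hv₂) ?_
    rw [hγadd, e₃, ← mul_assoc, mul_assoc v₁ v₂, ← K.W_comm (K.W_le_Q (hγW _)) (K.WE_le_W hv₂),
      ← mul_assoc, e₁, mul_assoc, e₂]
  · beta_reduce
    rw [dif_pos (K.WE_le_W hv)]
    obtain ⟨v₁, hv₁, e₁⟩ := (hdec v (K.WE_le_W hv)).choose_spec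
    exact huniq hv₁ hv (by rw [e₁, hγ0, mul_one])
  · beta_reduce
    rw [dif_pos (hW hq hq')]
    obtain ⟨v₁, hv₁, e₁⟩ := (hdec _ (hW hq hq')).choose_spec
    exact huniq hv₁ (one_mem _) (by rw [e₁, one_mul]; exact hγdet q hq q' hq')

theorem U_normal_in_HQ : (K.U.subgroupOf K.HQ).Normal :=
  Subgroup.normal_subgroupOf

end Ctx

end CfsgLib.FFModules.BlockCentralizer
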